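import Cfsg.Agent.H11.SimDSpec

/-! S3694 (tower SIM), chapter D: linear transvections. -/

set_option autoImplicit false

namespace H92.SimLT

open Subgroup Cfsg H98 Matrix H0.Sim H11.SimD

variable {n : ℕ} {F : Type} [Field F]

theorem dot_eq (φ : (Fin n → F) →ₗ[F] F) (x : Fin n → F) :
    (fun i => φ (Pi.single i 1)) ⬝ᵥ x = φ x := by
  rw [LinearMap.pi_apply_eq_sum_univ φ x, dotProduct]
  refine Finset.sum_congr rfl fun i _ => ?_
  rw [smul_eq_mul, mul_comm]
  congr 2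
  ext j
  simp [Pi.single_apply, eq_comm]

theorem part1 (q : ℕ) (w : Fin n → F) (φ : (Fin n → F) →ₗ[F] F) (h : φ w = 0) :
    ∃ s ∈ Sg n F false q, ∀ x, (s : Mt n F) *ᵥ x = x + φ x • w := by
  have hd : (1 + vecMulVec w (fun i => φ (Pi.single i 1)) : Mt n F).det = 1 := by
    rw [vecMulVec_eq Unit, det_one_add_replicateCol_mul_replicateRow, dot_eq, h, add_zero]
  refine ⟨Matrix.GeneralLinearGroup.mkOfDetNeZero _ (by rw [hd]; exact one_ne_zero), ⟨?_, ?_⟩,
    fun x => ?_⟩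
  · simp [Gam]
  · refine MonoidHom.mem_ker.2 (Units.ext ?_)
    rw [Matrix.GeneralLinearGroup.val_det_apply]
    exact hd
  · show (1 + vecMulVec w (fun i => φ (Pi.single i 1)) : Mt n F) *ᵥ x = _
    rw [add_mulVec, one_mulVec, vecMulVec_mulVec, dot_eq, op_smul_eq_smul]

theorem part2 (Y : Submodule F (Fin n → F)) (x : Fin n → F) (hx : x ∉ Y) :
    ∃ φ : (Fin n → F) →ₗ[F] F, φ x = 1 ∧ ∀ y ∈ Y, φ y = 0 := by
  obtain ⟨f, hf, hY⟩ := Submodule.exists_dual_map_eq_bot_of_notMem hx inferInstance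
  refine ⟨(f x)⁻¹ • f, ?_, fun y hy => ?_⟩
  · rw [LinearMap.smul_apply, smul_eq_mul, inv_mul_cancel₀ hf]
  · have : f y ∈ Y.map f := Submodule.mem_map_of_mem hy
    rw [hY, Submodule.mem_bot] at this
    rw [LinearMap.smul_apply, this, smul_zero]

theorem jobD_LT : H11.SimD.JobLT := by
  intro n F _ _ q
  refine ⟨part1 q, part2, fun W hb ht => ?_⟩
  obtain ⟨x, hx, x0⟩ := (Submodule.ne_bot_iff _).1 hb
  obtain ⟨w, hw⟩ : ∃ w, w ∉ W := by
    by_contra hc
    push Not at hc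
    exact ht (Submodule.eq_top_iff'.2 hc)
  have hxw : x ∉ Submodule.span F {w} := by
    intro h
    obtain ⟨a, rfl⟩ := Submodule.mem_span_singleton.1 h
    have a0 : a ≠ 0 := by
      rintro rfl
      exact x0 (zero_smul _ _)
    exact hw ((W.smul_mem_iff a0).1 hx)
  obtain ⟨φ, h1, h2⟩ := part2 _ x hxw
  obtain ⟨s, hs, e⟩ := part1 q w φ (h2 w (Submodule.mem_span_singleton_self w))
  refine ⟨s, hs, fun hS => hw ?_⟩
  have := hS x hx
  rw [e, h1, one_smul] at this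
  exact (W.add_mem_iff_right hx).1 this

end H92.SimLT
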