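/- U4 tower (row S5210), `q = 2`: one or two movers. -/
import Cfsg.Agent.H28.U4Gen

set_option autoImplicit false
set_option linter.unusedSectionVars false
set_option linter.unusedSimpArgs false
set_option linter.unusedVariables false

open Subgroup H90.RF Cfsg H28.U4
open H90.U5 (BF DD lg_aY lg_mem)

namespace H92.U4Q

section Gen
variable {G : Type*} [Group G] [Finite G]

/-- two involutions are conjugate or commute with a common involution -/
theorem dihedral {s t : G} (hs : s * s = 1) (ht : t * t = 1) :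
    (∃ k : ℕ, (s * t) ^ k * s * ((s * t) ^ k)⁻¹ = t) ∨
      ∃ k : ℕ, (s * t) ^ k ≠ 1 ∧ (s * t) ^ k * (s * t) ^ k = 1 ∧ (s * t) ^ k * s = s * (s * t) ^ k ∧
        (s * t) ^ k * t = t * (s * t) ^ k := by
  have s' : s⁻¹ = s := inv_eq_of_mul_eq_one_right hs
  have t' : t⁻¹ = t := inv_eq_of_mul_eq_one_right ht
  have a : ∀ k : ℕ, s * (s * t) ^ k * s⁻¹ = ((s * t) ^ k)⁻¹ := fun k => by
    rw [← conj_pow, ← inv_pow, mul_inv_rev, s', t', ← mul_assoc, hs, one_mul]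
  have b : ∀ k : ℕ, t * (s * t) ^ k * t⁻¹ = ((s * t) ^ k)⁻¹ := fun k => by
    rw [← conj_pow, ← inv_pow, mul_inv_rev, s', t', mul_assoc, mul_assoc, ht, mul_one]
  have o := pow_orderOf_eq_one (s * t)
  have pos := orderOf_pos (s * t)
  obtain ⟨k, hk | hk⟩ := Nat.even_or_odd' (orderOf (s * t))
  · have z : (s * t) ^ k * (s * t) ^ k = 1 := by rw [← pow_add, ← two_mul, ← hk, o]
    have z' : ((s * t) ^ k)⁻¹ = (s * t) ^ k := inv_eq_of_mul_eq_one_right z
    refine Or.inr ⟨k, pow_ne_one_of_lt_orderOf (by omega) (by omega), z, ?_, ?_⟩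
    · exact (mul_inv_eq_iff_eq_mul.1 ((a k).trans z')).symm
    · exact (mul_inv_eq_iff_eq_mul.1 ((b k).trans z')).symm
  · refine Or.inl ⟨k, ?_⟩
    rw [hk, pow_succ, two_mul, pow_add] at o
    rw [← a k, s', mul_assoc, ← mul_assoc s, ← mul_assoc s, hs, one_mul, ← mul_assoc,
      eq_inv_of_mul_eq_one_left o, mul_inv_rev, s', t', mul_assoc, hs, mul_one]

theorem pgroup_inv {z : G} (h : z * z = 1) : IsPGroup 2 (zpowers z) :=
  isPGroup_iff_forall.2 fun g ⟨n, e⟩ => ⟨1, by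
    rw [← e, pow_one, ← zpow_natCast, ← zpow_mul, mul_comm, zpow_mul, zpow_natCast, sq, h, one_zpow]⟩

/-- a subgroup that controls the fusion into `U` is everything when there are two classes of involutions -/
theorem le_of_two {U H Y : Subgroup G} (sy : SylIn 2 U Y) (h1 : U ≤ H) (h2 : H ≤ Y)
    (h3 : ∀ α ∈ Y, ∀ u ∈ U, u ≠ 1 → α * u * α⁻¹ ∈ U → α ∈ H) {s s' : G} (hs : s ∈ U) (hs' : s' ∈ U)
    (n : s ≠ 1) (n' : s' ≠ 1) (q : s * s = 1) (q' : s' * s' = 1) (nc : ∀ g ∈ Y, g * s * g⁻¹ ≠ s') : Y ≤ H := by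
  intro α hα
  have sH := sy.mono h1 h2
  have hsY := sy.le hs
  have htY : α * s' * α⁻¹ ∈ Y := mul_mem (mul_mem hα (sy.le hs')) (inv_mem hα)
  have qt : α * s' * α⁻¹ * (α * s' * α⁻¹) = 1 := by rw [conj_mul, q', mul_one, mul_inv_cancel]
  rcases dihedral q qt with ⟨k, e⟩ | ⟨k, z1, z2, z3, z4⟩
  · refine absurd ?_ (nc (α⁻¹ * (s * (α * s' * α⁻¹)) ^ k) (mul_mem (inv_mem hα) (pow_mem (mul_mem hsY htY) k)))
    rw [mul_inv_rev, inv_inv, mul_assoc α⁻¹, mul_assoc α⁻¹, ← mul_assoc _ _ α, e]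
    group
  generalize hz : (s * (α * s' * α⁻¹)) ^ k = z at z1 z2 z3 z4
  have zY : z ∈ Y := hz ▸ pow_mem (mul_mem hsY htY) k
  generalize ht : α * s' * α⁻¹ = t at htY qt z4
  have zH : z ∈ H := h3 z zY s hs n (by rwa [z3, mul_inv_cancel_right])
  obtain ⟨h, hh, e⟩ := sH.exists_conj (pgroup_inv z2) (zpowers_le.2 zH)
  have e1 := e z (mem_zpowers z)
  have tH : t ∈ H := by
    have := h3 (h * t * h⁻¹) (mul_mem (mul_mem (h2 hh) htY) (inv_mem (h2 hh))) _ e1 (by simpa using z1) (by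
      rwa [show h * t * h⁻¹ * (h * z * h⁻¹) * (h * t * h⁻¹)⁻¹ = h * (t * z * t⁻¹) * h⁻¹ by group, ← z4,
        mul_inv_cancel_right])
    simpa [mul_assoc] using mul_mem (mul_mem (inv_mem hh) this) hh
  obtain ⟨h', hh', e'⟩ := sH.exists_conj (pgroup_inv qt) (zpowers_le.2 tH)
  have := h3 (h' * α) (mul_mem (h2 hh') hα) s' hs' n' (by
    have := e' t (mem_zpowers t)
    rwa [← ht, show h' * (α * s' * α⁻¹) * h'⁻¹ = h' * α * s' * (h' * α)⁻¹ by group] at this)
  exact (H.mul_mem_cancel_left hh').1 this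

end Gen

section Co
variable {K : Type*} [Field K] [Finite K] {T : BF K} {p : ℕ} {Y : Subgroup (Equiv.Perm (Co T))}

/-- conjugating `x_t` by the restriction of an automorphism -/
theorem cj_ux (l : Lg (sA T) Y) {η : Equiv.Perm (Co T)} (hη : η ∈ Y) {X : Subgroup (Co T)} {y : Co T → Co T}
    (a : Au X y) (hX : sA T ≤ X) (e : ∀ u ∈ sA T, η u = y u) {s : Co T} (hs : s ∈ X) :
    η * ux T s.a = ux T (y s).a * η := Equiv.ext fun u => by
  by_cases hu : u ∈ sA T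
  · rw [Equiv.Perm.mul_apply, Equiv.Perm.mul_apply, ← iS_eq, ← iS_eq, iS_mem _ hu,
      iS_mem _ ((l.au η hη).mem u hu), e _ (nA.conj_mem u hu s), e u hu, a.conj hs (hX hu)]
  · rw [Equiv.Perm.mul_apply, Equiv.Perm.mul_apply, ux_out _ hu, l.out η hη u hu, ux_out _ hu]

theorem Mc.cj {c c' : K} {η : Equiv.Perm (Co T)} (hη : η ∈ Y) (z : PZ T η) (e : η * ux T c = ux T c' * η)
    (h : Mc T c Y) : Mc T c' Y := by
  obtain ⟨α, hα, k, m⟩ := h
  refine ⟨η * α * η⁻¹, mul_mem (mul_mem hη hα) (inv_mem hη), ?_, fun z' => m (z.of_mul_left (z.inv.of_mul_right z'))⟩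
  rw [← mul_inv_eq_iff_eq_mul.2 e.symm.symm]
  calc _ = η * (α * ux T c) * η⁻¹ := by group
    _ = _ := by rw [k]; group

/-- a mover and a non-mover are not conjugate -/
theorem not_cj [CharP K p] (s : Sa T p Y) {c c' : K} (h : Mc T c Y) (h' : ¬ Mc T c' Y) :
    ∀ g ∈ Y, g * ux T c * g⁻¹ ≠ ux T c' := fun g hg e => by
  have k : ∀ β ∈ Y, β * ux T c = ux T c * β → PZ T ⇑(g * β * g⁻¹) := fun β hβ k => by_contra fun m =>
    h' ⟨_, mul_mem (mul_mem hg hβ) (inv_mem hg), by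
      rw [← e]
      calc _ = g * (β * ux T c) * g⁻¹ := by group
        _ = _ := by rw [k]; group, m⟩
  have z : PZ T ⇑g⁻¹ := pz_of_nor (s.lg.au _ (inv_mem hg)) fun t => by
    rw [inv_inv]
    exact s.pel _ (mul_mem (mul_mem hg (s.ux_mem t)) (inv_mem hg)) (k _ (s.ux_mem t) (ux_comm _ _))
      ⟨1, by rw [pow_one, conj_pow, ux_pow]; simp⟩
  exact h' (Mc.cj hg (by simpa using z.inv) (by rw [← e]; simp) h)

end Co

theorem sq_perm : ∀ f : F4 → F4, (∀ s t, f s = f t → s = t) → f 0 = 0 → ∀ c c', c ≠ 0 → c' ≠ 0 → c ≠ c' →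
    f c ≠ c' → f (f c) ≠ c' → ∀ t, f (f t) = t := by decide +kernel

theorem fix_k : ∀ b : F4, T4.σ b = b → b = 0 ∨ b = 1 := by decide
theorem nm_one : ∀ x : F4, x ≠ 0 → x * T4.σ x = 1 := by decide

theorem jobQi : JobQi := fun aS ta F hF ⟨c, c0, hc⟩ ⟨c', c0', hc'⟩ => by
  have t := ta F hF
  have hP : IsPGroup 2 (⊤ : Subgroup (Co T4)) := (pgroup_Co 2).to_subgroup _
  refine ⟨fun y hy => ?_, fun k => ?_⟩
  · have a := t.l0.au y hy
    obtain ⟨δ, g1, g2, g3⟩ := aS.2 y a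
    obtain ⟨pZ, pD, pA, pQ⟩ := aS.1 y a
    obtain ⟨η, hη, e⟩ := t.res2 y hy
    have z : PZ T4 η := ⟨fun u hu => by rw [e u (Z_le_A hu)]; exact pZ u hu,
      fun u hu => by rw [e u (D_le_A hu)]; exact pD u hu⟩
    let f : F4 → F4 := fun s => δ.left.1 * δ.right s
    have φ : ∀ b, T4.σ b = b → δ.right b = b := fun b hb => by rcases fix_k b hb with rfl | rfl <;> simp
    have n1 := nm_one _ δ.left.1.ne_zero
    have n2 := nm_one _ δ.left.2.ne_zero
    have fa : ∀ u, (y u).a = f u.a := fun u => (g1 u).1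
    have fb : ∀ u, (y u).b = u.b := fun u => by rw [(g1 u).2, sd_b, n2, φ _ u.hb, one_mul]
    have fc : ∀ u ∈ sD T4, (y u).c = f u.c := fun u hu => by rw [g2 u hu, sd_c, n2, mul_one]
    have fd : ∀ u ∈ sZ T4, (y u).d = u.d := fun u hu => by
      rw [g3 u hu, sd_d, n1, n2, φ _ (A_d hu.1), one_mul, one_mul]
    have m : ∀ s, Mc T4 s (aY F (sA T4)) → Mc T4 (f s) (aY F (sA T4)) := fun s =>
      Mc.cj hη z (by simpa [fa, xa] using cj_ux t.sa.lg hη a le_top e (s := xa T4 s) trivial)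
    have ff := sq_perm f (fun s t h => δ.right.injective (mul_left_cancel₀ δ.left.1.ne_zero h)) (by simp [f])
      c c' c0 c0' (fun h => hc' (h ▸ hc)) (fun h => hc' (h ▸ m _ hc)) fun h => hc' (h ▸ m _ (m _ hc))
    obtain ⟨s, hs⟩ := t.rad0 (y * y) (mul_mem hy hy) fun i hi u hu => by
      interval_cases i
      · rw [show (y * y) u = u from eq_of_Z (pZ _ (pZ u hu)) hu (by
          rw [Equiv.Perm.mul_apply, fd _ (pZ u hu), fd u hu])]
        exact inv_mul_cancel u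
      · have h := pD _ (pD u hu)
        have h' : (y (y u)).c = u.c := by rw [fc _ (pD u hu), fc u hu, ff]
        exact ⟨by simp [h.1, hu.1], by simp [h.2, hu.2], by simp [h', hu.1, h.2]⟩
      · exact ⟨by simp [fa, ff], by simp [fb]⟩
      · show _ = _
        simp [fa, ff]
    obtain ⟨k, hk⟩ := pgroup_Co (T := T4) 2 s
    refine t.pel0 y hy ⟨k + 1, ?_⟩
    have : y * y = iS ⊤ s := Equiv.ext fun u => (hs u).trans (iS_mem s (mem_top u)).symm
    rw [pow_succ', pow_mul, sq, this, ← map_pow, hk, map_one]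
  · obtain ⟨h1, h2, h3⟩ := (isEssential_iff hP hF).1 k
    have u1 : ∀ s : F4, s ≠ 0 → ux T4 s ≠ 1 := fun s h e => h (ux_inj (e.trans ux_zero.symm))
    have u2 : ∀ s : F4, ux T4 s * ux T4 s = 1 := fun s => by rw [← sq, ux_pow]
    have := le_of_two (H := (extSub F (sA T4)).map af) t.sa.syl (fun _ ⟨s, e⟩ => ⟨MulAut.conjNormal s,
      autInducedBy_le_extSub F h1 (mem_autInducedBy.2 ⟨s, trivial, fun x hx => iS_mem s hx⟩), e⟩)
      (map_mono (extSub_le F _)) (fun _ ⟨α, hα, e⟩ _ ⟨s, e'⟩ n ⟨s', e''⟩ => ⟨α, mem_extSub_of_conj hP hF h2 hα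
        (β := MulAut.conjNormal s) (mem_autInducedBy.2 ⟨s, trivial, fun x hx => iS_mem s hx⟩) (fun i => n (by
          obtain ⟨g, hg, i⟩ := mem_Inn.1 i
          rw [← e']
          exact Equiv.ext fun u => by
            by_cases hu : u ∈ sA T4
            · exact (i u hu).trans (by rw [comm_A hg hu, mul_inv_cancel_right]; rfl)
            · exact iS_not_mem s hu))
        (mem_autInducedBy.2 ⟨s', trivial, fun x hx => by
          rw [← iS_mem s' hx, e'', ← e, ← e', map_mul, map_mul, map_inv]; rfl⟩), e⟩)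
      (mem_U.2 ⟨c, rfl⟩) (mem_U.2 ⟨c', rfl⟩) (u1 c c0) (u1 c' c0') (u2 c) (u2 c') (not_cj t.sa hc hc')
    refine h3 fun α hα => ?_
    obtain ⟨β, hβ, e⟩ := this ⟨α, hα, rfl⟩
    rwa [show α = β from aut_ext fun c _ => by rw [e]]

end H92.U4Q
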