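/- U4 tower (row S5210), `q = 2`: one mover, two movers. -/
import Cfsg.Agent.H92.U4Qi

set_option autoImplicit false
set_option linter.unusedSectionVars false
set_option linter.unusedSimpArgs false
set_option linter.unusedVariables false

open Subgroup H90.RF Cfsg H28.U4 Cfsg.FusionSystem
open H90.U5 (BF DD lg_aY lg_mem aut_le' conj_aY fn_X)

namespace H92.U4Q

theorem mem_cE {c : F4} (h : c ≠ 0) {u : Co T4} : u ∈ cE T4 c ↔ u.a = 0 ∨ u.a = c := by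
  rw [cE, mem_centralizer_singleton_iff]
  revert c u
  decide +kernel

theorem A_le_cE {c : F4} (h : c ≠ 0) : sA T4 ≤ cE T4 c := fun _ hu => (mem_cE h).2 (Or.inl hu)

theorem cE_normal {c : F4} (h : c ≠ 0) : (cE T4 c).Normal :=
  H90.U5.normal_of_cm fun s m _ => A_le_cE h (cm_a s m)

theorem add_self4 : ∀ c : F4, c + c = 0 := by decide

theorem no_comm : ∀ c : F4, c ≠ 0 → ∃ w w' : Co T4, w.a = 0 ∧ w'.a = 0 ∧ ∀ v : Co T4, v.a = c →
    v * w ≠ w * v ∧ v * w' ≠ w' * v ∧ v * (w * w') ≠ w * w' * v := fun c h => by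
  refine ⟨xb T4 1 (map_one _), xc T4 (c * om), rfl, rfl, ?_⟩
  revert c
  decide +kernel

/-- an automorphism of `E_c` keeps `A` -/
theorem pr_A {c : F4} (h : c ≠ 0) {β : Co T4 → Co T4} (a : Au (cE T4 c) β) : Pr β (sA T4) := fun u hu => by
  refine ((mem_cE h).1 (a.mem u (A_le_cE h hu))).resolve_right fun e => ?_
  obtain ⟨w, w', hw, hw', k⟩ := no_comm c h
  obtain ⟨k1, k2, k3⟩ := k _ e
  obtain ⟨x, hx, rfl⟩ := a.sur w (A_le_cE h hw)
  obtain ⟨x', hx', rfl⟩ := a.sur w' (A_le_cE h hw')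
  have q : ∀ x ∈ cE T4 c, x.a = 0 → β u * β x = β x * β u := fun x hx e => by
    rw [← a.mul _ (A_le_cE h hu) _ hx, ← a.mul _ hx _ (A_le_cE h hu), comm_A hu e]
  rcases (mem_cE h).1 hx with e1 | e1
  · exact k1 (q x hx e1)
  rcases (mem_cE h).1 hx' with e2 | e2
  · exact k2 (q x' hx' e2)
  rw [← a.mul _ hx _ hx'] at k3
  exact k3 (q _ (mul_mem hx hx') (by rw [Co.mul_a, e1, e2, add_self4]))

theorem a_xa {c : F4} (h : c ≠ 0) {β : Co T4 → Co T4} (a : Au (cE T4 c) β) {u : Co T4} (hu : u.a = c) :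
    (β u).a = c := by
  have m := (mem_cE h).2 (Or.inr hu)
  exact ((mem_cE h).1 (a.mem u m)).resolve_left fun e =>
    h (hu.symm.trans (a.mem_of (A_le_cE h) (pr_A h a) m e))

variable {F E : FusionSystem (⊤ : Subgroup (Co T4))}

theorem ub_mem (F : FusionSystem (⊤ : Subgroup (Co T4))) {b : F4} (hb : T4.σ b = b) :
    ub b ∈ gW T4 (aY F (sQ T4)) := by
  obtain ⟨y, hy, e⟩ := conj_aY (X := sQ T4) F (xb T4 b hb)⁻¹
  exact ⟨y, hy, (lg_aY _).au y hy, fun u hu => by rw [e u hu, inv_inv, cj_Q _ hu]; rfl⟩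

/-- `Aut_F(S)` is inner -/
def I0 (F : FusionSystem (⊤ : Subgroup (Co T4))) : Prop := ∀ y ∈ aY F ⊤, ∃ s, ∀ u, y u = s * u * s⁻¹

theorem form_pl (H : H2) (hF : F.IsSaturated 2) (i : I0 F) {g : Equiv.Perm (F4 × F4)}
    (hg : g ∈ gW T4 (aY F (sQ T4))) (pl : PL g) : ∃ b, T4.σ b = b ∧ g = ub b := by
  obtain ⟨α, hα, a, e⟩ := hg
  obtain ⟨y, hy, e'⟩ := (H.ta F hF).ext1 α hα ((pl_iff a e).1 pl)
  obtain ⟨s, hs⟩ := i y hy
  exact ⟨-s.b, by rw [map_neg, s.hb], Equiv.ext fun w => by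
    have := e _ (w1_mem w)
    rw [e' _ (w1_mem w), hs, cj_Q' _ (w1_mem w)] at this
    exact this.symm⟩

/-- the group induced on `W` is generated by `ub b` and `nb` -/
theorem form (H : H2) (hF : F.IsSaturated 2) (i : I0 F) {G : Subgroup (Equiv.Perm (F4 × F4))}
    (hu : ∀ b, T4.σ b = b → ub b ∈ G) (hn : nb ∈ G) : gW T4 (aY F (sQ T4)) ≤ G := fun g hg => by
  by_cases pl : PL g
  · obtain ⟨b, hb, rfl⟩ := form_pl H hF i hg pl
    exact hu b hb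
  obtain ⟨α, hα, a, e⟩ := id hg
  have st := H.st F hF ⟨α, hα, fun k => pl ((pl_iff a e).2 k)⟩
  obtain ⟨b, hb, k⟩ := (st.om g hg).resolve_left pl
  obtain ⟨b', hb', k'⟩ := form_pl H hF i (mul_mem st.n1 (mul_mem (inv_mem (ub_mem F hb)) hg)) fun w hw => by
    rw [Equiv.Perm.mul_apply, Equiv.Perm.mul_apply, ub_inv, nb_apply, ub_apply, k w hw]
    simp
  exact (G.mul_mem_cancel_left (inv_mem (hu b hb))).1 ((G.mul_mem_cancel_left hn).1 (k' ▸ hu b' hb'))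

/-- the normal subgroup of order eight -/
def sB (c : F4) : Subgroup (Co T4) where
  carrier := {u | u.b = 0 ∧ (u.a = 0 ∨ u.a = c) ∧ (u.c = 0 ∨ u.c = c)}
  one_mem' := by simp
  mul_mem' := fun {u w} hu hw => by
    obtain ⟨h1, h2 | h2, h3 | h3⟩ := hu <;> obtain ⟨k1, k2 | k2, k3 | k3⟩ := hw <;> simp [*, add_self4]
  inv_mem' := fun {u} hu => by
    obtain ⟨h1, h2 | h2, h3 | h3⟩ := hu <;> simp [*, neg_eq_of_add_eq_zero_left (add_self4 c)]

theorem mem_sB {c : F4} {u : Co T4} :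
    u ∈ sB c ↔ u.b = 0 ∧ (u.a = 0 ∨ u.a = c) ∧ (u.c = 0 ∨ u.c = c) := Iff.rfl

theorem B_cj : ∀ (c : F4) (s u : Co T4), u ∈ sB c → s * u * s⁻¹ ∈ sB c := by
  simp only [mem_sB]
  decide +kernel

theorem B_iff : ∀ c : F4, c ≠ 0 → ∀ u : Co T4, u ∈ sB c ↔
    (u.a = 0 ∧ u * xa T4 c = xa T4 c * u) ∨ (u.a = c ∧ u * u = 1) := by
  simp only [mem_sB]
  decide +kernel

theorem B_cen : ∀ c : F4, c ≠ 0 → ∀ u : Co T4, xa T4 c * u = u * xa T4 c → xc T4 c * u = u * xc T4 c →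
    u ∈ sB c := by
  simp only [mem_sB]
  decide +kernel

theorem comm_a : ∀ u v w : Co T4, u.a = 0 → v.a = w.a → u * v = v * u → u * w = w * u := fun u v w hu e h => by
  have := cj_xa v hu
  rw [e, ← cj_xa w hu, ← h, mul_inv_cancel_right] at this
  exact mul_inv_eq_iff_eq_mul.1 this.symm |>.symm

theorem pr_B {c : F4} (h : c ≠ 0) {β : Co T4 → Co T4} (a : Au (cE T4 c) β) : Pr β (sB c) := fun u hu => by
  have m : u ∈ cE T4 c := (mem_cE h).2 hu.2.1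
  have m' : xa T4 c ∈ cE T4 c := (mem_cE h).2 (Or.inr rfl)
  refine (B_iff c h _).2 (((B_iff c h u).1 hu).imp (fun k => ⟨pr_A h a u k.1, ?_⟩) fun k => ⟨a_xa h a k.1, ?_⟩)
  · exact comm_a _ (β (xa T4 c)) _ (pr_A h a u k.1) (a_xa h a rfl) (by rw [← a.mul _ m _ m', k.2, a.mul _ m' _ m])
  · rw [← a.mul _ m _ m, k.2, a.one]

/-- the stabiliser of the image of `B` in `W` -/
def gB (c : F4) : Subgroup (Equiv.Perm (F4 × F4)) where
  carrier := {g | ∀ w, ((g w).1 = 0 ∨ (g w).1 = c) ∧ ((g w).2 = 0 ∨ (g w).2 = c) ↔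
    (w.1 = 0 ∨ w.1 = c) ∧ (w.2 = 0 ∨ w.2 = c)}
  one_mem' := fun _ => Iff.rfl
  mul_mem' := fun {g h} hg hh w => (hg (h w)).trans (hh w)
  inv_mem' := fun {g} hg w => by simpa using (hg (g⁻¹ w)).symm

theorem ub_gB (c b : F4) (hb : T4.σ b = b) : ub b ∈ gB c := fun w => by revert c b w; decide +kernel
theorem nb_gB (c : F4) : nb ∈ gB c := fun w => by revert c w; decide +kernel

theorem hP : IsPGroup 2 (⊤ : Subgroup (Co T4)) := (pgroup_Co 2).to_subgroup _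

theorem jobQc : JobQc := fun H F hF c c0 m un => by
  obtain ⟨i, nA⟩ := H.qi F hF ⟨c, c0, m⟩ ⟨c * om, mul_ne_zero c0 (by decide), fun k =>
    absurd (un _ (mul_ne_zero c0 (by decide)) k) (by rw [mul_eq_left₀ c0]; decide)⟩
  refine H9.isRealizable_of_isNormal hP hF (Q := sB c) (isNormal_of_essential hP hF fun P k => ?_)
    fun u hu => B_cen c c0 u (mem_centralizer_iff.1 hu.2 _ ⟨rfl, Or.inr rfl, Or.inl rfl⟩)
      (mem_centralizer_iff.1 hu.2 _ ⟨rfl, Or.inl rfl, Or.inr rfl⟩)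
  rcases k with rfl | k
  · refine ⟨le_top, fun α hα x hx => ?_⟩
    obtain ⟨s, e⟩ := i _ ⟨α, hα, rfl⟩
    rw [e]; exact B_cj c s x hx
  rcases H.ess F hF P k with rfl | rfl | ⟨c', c0', rfl, m'⟩
  · refine ⟨fun u hu => hu.1, fun α hα x hx => ?_⟩
    obtain ⟨g, hg, e⟩ := exists_gW (lg_aY (E := F) (sQ T4)) ⟨α, hα, rfl⟩
    have := form H hF i (G := gB c) (ub_gB c) (nb_gB c) hg x.π
    rw [← e x hx.1] at this
    exact ⟨af_mem α hx.1, this.2 hx.2⟩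
  · exact absurd k nA
  · obtain rfl := un c' c0' m'
    exact ⟨fun u hu => (mem_cE c0).2 hu.2.1, fun α _ => pr_B c0 (au_af α)⟩

/-! ### Two movers -/

theorem mc_of {Y : Subgroup (Equiv.Perm (Co T4))} (l : Lg (sA T4) Y) {f : Co T4 → Co T4} (h : Hs f Y) {c : F4}
    (k : ∀ u : Co T4, u.a = 0 → f (xa T4 c * u * (xa T4 c)⁻¹) = xa T4 c * f u * (xa T4 c)⁻¹)
    (m : ∃ u : Co T4, (u.a = 0 ∧ u.b = 0) ∧ (f u).b ≠ 0) : Mc T4 c Y := by
  obtain ⟨α, hα, e⟩ := h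
  obtain ⟨u, hu, m⟩ := m
  refine ⟨α, hα, Equiv.ext fun u => ?_, fun z => m (e u hu.1 ▸ (z.2 u hu).2)⟩
  rw [Equiv.Perm.mul_apply, Equiv.Perm.mul_apply]
  by_cases hu : u ∈ sA T4
  · rw [ux_apply _ hu, ux_apply _ ((l.au α hα).mem u hu), e _ (nA.conj_mem u hu _), e u hu, k u hu]
  · rw [ux_out _ hu, l.out α hα u hu, ux_out _ hu]

theorem mc1 (h : Hs r1 (aY F (sA T4))) : Mc T4 1 (aY F (sA T4)) :=
  mc_of (lg_aY _) h (by decide +kernel) (by decide +kernel)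
theorem mc2 (h : Hs r2 (aY F (sA T4))) : Mc T4 om (aY F (sA T4)) :=
  mc_of (lg_aY _) h (by decide +kernel) (by decide +kernel)

theorem inv_cj : ∀ m : Co T4, m.a ≠ 0 → m * m = 1 → ∃ w : Co T4, w.a = 0 ∧ m = w * xa T4 m.a * w⁻¹ := by
  decide +kernel

/-- an automorphism of `E_c` whose restriction to `A` lies in `E` lies in `E` -/
theorem mem_E (hE : E.IsSaturated 2) {c : F4} (h : c ≠ 0) {α : Equiv.Perm (Co T4)} (hα : α ∈ aY F (cE T4 c))
    {β : Equiv.Perm (Co T4)} (hβ : β ∈ aY E (sA T4)) (e : ∀ u ∈ sA T4, β u = α u) : α ∈ aY E (cE T4 c) := by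
  have := cE_normal h
  have a := (lg_aY _).au α hα
  obtain ⟨β, hβ, rfl⟩ := hβ
  obtain ⟨g, hg, e'⟩ := exists_ext_aut hP hE (fc_of_fn hP hE (fn_X E)) hβ
  have hg' : Mor E (cE T4 c) g := hg.mono fun s hs => mem_Nx.2 ⟨⟨trivial, by
    rw [normalizer_eq_top]; trivial⟩, α s, trivial, fun x hx => by
      rw [e _ (nA.conj_mem x hx s), e x hx, a.conj hs (A_le_cE h hx)]⟩
  have pg : ∀ s ∈ cE T4 c, (g s).a = (α s).a := fun s hs => by
    have : (α s)⁻¹ * g s ∈ sA T4 := cen_A ⟨trivial, mem_centralizer_iff.2 fun x hx => by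
      obtain ⟨x, hx', rfl⟩ := a.sur_of (A_le_cE h) (pr_A h a) x hx
      have k := hg'.mulOn.map_conj hs (A_le_cE h hx')
      rw [e' _ (nA.conj_mem x hx' s), e _ (nA.conj_mem x hx' s), e' x hx', e x hx',
        a.conj hs (A_le_cE h hx')] at k
      calc _ = (α s)⁻¹ * (α s * α x * (α s)⁻¹) * g s := by group
        _ = _ := by rw [k]; group⟩
    rw [mem_sA, Co.mul_a, Co.inv_a] at this
    linear_combination this
  obtain ⟨γ, hγ, e''⟩ := exists_aY hg' fun s hs => (mem_cE h).2 (by rw [pg s hs]; exact (mem_cE h).1 (a.mem s hs))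
  have d := ((lg_aY _).au _ (inv_mem hγ)).comp a
  have dA : ∀ u ∈ sA T4, γ⁻¹ (α u) = u := fun u hu => by
    rw [← e u hu, ← e' u hu, ← e'' u (A_le_cE h hu)]; simp
  have m' : xa T4 c ∈ cE T4 c := (mem_cE h).2 (Or.inr rfl)
  have da := a_xa h d (u := xa T4 c) rfl
  obtain ⟨w, hw, k⟩ := inv_cj _ (da.trans_ne h) (by
    rw [← d.mul _ m' _ m', ← xa_add, add_self4]; exact d.one)
  rw [da] at k
  obtain ⟨y, hy, e3⟩ := conj_aY (X := cE T4 c) E w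
  refine lg_mem (lg_aY _) (lg_aY _) hα (mul_mem hγ hy) fun u hu => ?_
  rw [Equiv.Perm.mul_apply, e3 u hu, ← Equiv.Perm.inv_eq_iff_eq]
  rcases (mem_cE h).1 hu with k' | k'
  · rw [dA u k', comm_A hw k', mul_inv_cancel_right]
  · have hv : u * (xa T4 c)⁻¹ ∈ sA T4 := by simp [mem_sA, k', xa]
    have := d.mul _ (A_le_cE h hv) _ m'
    rw [inv_mul_cancel_right] at this
    rw [this, dA _ hv, k, ← mul_assoc, ← mul_assoc, comm_A hv hw]
    group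

/-- two movers in normal form -/
structure Tw (F : FusionSystem (⊤ : Subgroup (Co T4))) : Prop where
  sat : F.IsSaturated 2
  h1 : Hs r1 (aY F (sA T4))
  h2 : Hs r2 (aY F (sA T4))

theorem Tw.qi (H : H2) (Qa : H28.U4.JobQa) (h : Tw F) : (I0 F ∧ ¬ F.IsEssential 2 (sA T4)) ∧
    ∀ c, c ≠ 0 → Mc T4 c (aY F (sA T4)) → c = 1 ∨ c = om := by
  have n := (Qa _ (H.ta F h.sat).sa).2.2 h.h1 h.h2
  exact ⟨H.qi F h.sat ⟨1, one_ne_zero, mc1 h.h1⟩ ⟨_, by decide, n⟩, fun c c0 m =>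
    (by decide : ∀ c : F4, c ≠ 0 → c ≠ 1 + om → c = 1 ∨ c = om) c c0 fun e => n (e ▸ m)⟩

theorem Tw.le (H : H2) (Qa : H28.U4.JobQa) (Qb : H28.U4.JobQb) (h : Tw F) (h' : Tw E)
    (m : ∃ α ∈ aY E (sQ T4), ¬ Pr α (sD T4)) : F ≤ E := by
  obtain ⟨⟨i, nA⟩, mv⟩ := h.qi H Qa
  refine le_of_essential hP h.sat fun P k => aut_le' fun α hα => ?_
  rcases k with rfl | k
  · obtain ⟨s, e⟩ := i α hα
    obtain ⟨y, hy, e'⟩ := conj_aY (X := ⊤) E s
    exact lg_mem (lg_aY _) (lg_aY _) hα hy fun u hu => (e u).trans (e' u hu).symm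
  rcases H.ess F h.sat P k with rfl | rfl | ⟨c, c0, rfl, mc⟩
  · obtain ⟨g, hg, e⟩ := exists_gW (lg_aY _) hα
    obtain ⟨β, hβ, b, e'⟩ := form H h.sat i (fun b hb => ub_mem E hb) (H.st E h'.sat m).n1 hg
    have a := (lg_aY _).au α hα
    obtain ⟨s, hs, e''⟩ := H.inn _ ((au_inv b).comp a) fun u hu => g.injective (by
      rw [← e' _ ((au_inv b).mem _ (a.mem u hu)), ← e u hu]; simp)
    obtain ⟨y, hy, e3⟩ := conj_aY (X := sQ T4) E s
    exact lg_mem (lg_aY _) (lg_aY _) hα (mul_mem hβ hy) fun u hu => by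
      rw [Equiv.Perm.mul_apply, e3 u hu, ← e'' u hu]; simp
  · exact absurd k nA
  · have a := (lg_aY _).au α hα
    obtain ⟨β, hβ, e⟩ := exists_aY ((mor_aY hα).mono (A_le_cE c0)) (pr_A c0 a)
    have cm := cj_ux (lg_aY _) hβ a (A_le_cE c0) e (s := xa T4 c) ((mem_cE c0).2 (Or.inr rfl))
    rw [a_xa c0 a rfl] at cm
    have q := Qb _ _ (H.ta F h.sat).sa (H.ta E h'.sat).sa
    refine mem_E h'.sat c0 hα ?_ e
    rcases mv c c0 mc with rfl | rfl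
    exacts [q.1 h.h1 h'.h1 β hβ cm, q.2 h.h2 h'.h2 β hβ cm]

theorem jobQd : JobQd := fun H Qa Qb Qm F hF h1 h2 => by
  have h : Tw F := ⟨hF, h1, h2⟩
  by_cases m : ∀ α ∈ aY F (sQ T4), Pr α (sD T4)
  · refine H9.isRealizable_of_isNormal hP hF (isNormal_of_essential hP hF fun P k => ?_) cen_A
    rcases k with rfl | k
    · exact ⟨le_top, fun α _ => (H.aS.1 _ (au_af α)).2.2.1⟩
    rcases H.ess F hF P k with rfl | rfl | ⟨c, c0, rfl, -⟩
    · exact absurd k (not_ess hP hF fun α hα => (H.ta F hF).ext1 α hα (m α hα))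
    · exact ⟨le_rfl, fun α _ _ => af_mem α⟩
    · exact ⟨A_le_cE c0, fun α _ => pr_A c0 (au_af α)⟩
  push Not at m
  obtain ⟨G, _, _, ι, inj, ⟨S, hS⟩, ⟨g1, e1⟩, ⟨g2, e2⟩, g3, e3⟩ := Qm
  have hS' : (S : Subgroup G) = (ι.comp (⊤ : Subgroup (Co T4)).subtype).range := by
    rw [hS]
    exact le_antisymm (fun _ ⟨c, e⟩ => ⟨⟨c, trivial⟩, e⟩) fun _ ⟨c, e⟩ => ⟨_, e⟩
  obtain ⟨E, hE, re⟩ := H9.exists_pull (inj.comp (subtype_injective _)) S hS'
  have h' : Tw E := ⟨hE, exists_aY ((real_iff re inj).2 ⟨g1, fun c hc => (e1 c hc).symm⟩) fun _ _ => rfl,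
    exists_aY ((real_iff re inj).2 ⟨g2, fun c hc => (e2 c hc).symm⟩) fun _ _ => rfl⟩
  obtain ⟨n, hn, e⟩ := exists_aY ((real_iff re inj).2 ⟨g3, fun c hc => (e3 c hc).symm⟩) au_nu1.mem
  have l1 := h.le H Qa Qb h' ⟨n, hn, fun k => by
    have := (k (xc T4 1) ⟨rfl, rfl⟩).1
    rw [e _ rfl] at this
    exact one_ne_zero this⟩
  have l2 := h'.le H Qa Qb h m
  exact H9.isRealizable_of ⟨re.1, fun P h φ k => (Iff.intro (l1 P ·) (l2 P ·)).trans (re.2 P h φ k)⟩ S hS'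

end H92.U4Q
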