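import Cfsg.Agent.H42.SimXBSpec

/-! Tower SIM, slot XB-Rho: the permutation action on a frame. -/

set_option autoImplicit false

namespace H92.SimRho

open Matrix H0.Sim H42.SX

variable {n : ℕ} {F : Type} [Field F]

theorem mem_dr (c : GL (Fin n) F) (m : Mt n F) : m ∈ dr c ↔
    ∃ d : Fin n → F, m = (c : Mt n F) * diagonal d * ((c⁻¹ : GL (Fin n) F) : Mt n F) := by
  rw [Submodule.mem_span_range_iff_exists_fun]
  have key : ∀ d : Fin n → F, ∑ i, d i • fr c i =
      (c : Mt n F) * diagonal d * ((c⁻¹ : GL (Fin n) F) : Mt n F) := fun d => by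
    have : diagonal d = ∑ i, d i • (Matrix.single i i 1 : Mt n F) := by
      ext a b
      simp only [Matrix.sum_apply, Matrix.smul_apply, Matrix.single_apply, diagonal_apply,
        smul_eq_mul, mul_ite, mul_one, mul_zero]
      by_cases h : a = b
      · subst h; simp
      · rw [if_neg h, Finset.sum_eq_zero]
        intro i _
        rw [if_neg]
        rintro ⟨rfl, rfl⟩
        exact h rfl
    rw [this, Finset.mul_sum, Finset.sum_mul]
    simp only [fr, Matrix.mul_smul, Matrix.smul_mul]
  exact ⟨fun ⟨d, h⟩ => ⟨d, by rw [← h, key]⟩, fun ⟨d, h⟩ => ⟨d, by rw [h, key]⟩⟩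

theorem cj_inj (c : GL (Fin n) F) {x y : Mt n F}
    (h : (c : Mt n F) * x * ((c⁻¹ : GL (Fin n) F) : Mt n F) =
      (c : Mt n F) * y * ((c⁻¹ : GL (Fin n) F) : Mt n F)) : x = y :=
  (Units.mul_right_inj c).1 ((Units.mul_left_inj c⁻¹).1 h)

theorem fr_inj (c : GL (Fin n) F) {i j : Fin n} (h : fr c i = fr c j) : i = j := by
  by_contra e
  have := congrFun (congrFun (cj_inj c h) i) i
  rw [Matrix.single_apply_same, Matrix.single_apply_of_ne _ _ _ _ _ fun k => e k.1.symm] at this
  exact one_ne_zero this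

theorem cj_fr (c h : GL (Fin n) F) (i : Fin n) :
    (h : Mt n F) * fr c i * ((h⁻¹ : GL (Fin n) F) : Mt n F) = (c : Mt n F) *
      (((c⁻¹ * h * c : GL (Fin n) F) : Mt n F) * Matrix.single i i 1 *
        (((c⁻¹ * h * c)⁻¹ : GL (Fin n) F) : Mt n F)) * ((c⁻¹ : GL (Fin n) F) : Mt n F) := by
  simp only [fr, _root_.mul_inv_rev, inv_inv, Units.val_mul, mul_assoc, Units.mul_inv_cancel_left,
    Units.mul_inv, mul_one]

theorem mono (k : GL (Fin n) F) (i : Fin n) (d : Fin n → F)
    (h : (k : Mt n F) * Matrix.single i i 1 * ((k⁻¹ : GL (Fin n) F) : Mt n F) = diagonal d) :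
    ∃ j, diagonal d = (Matrix.single j j 1 : Mt n F) := by
  have e : (k : Mt n F) * Matrix.single i i 1 = diagonal d * (k : Mt n F) := by
    rw [← h, Units.inv_mul_cancel_right]
  have e1 : ∀ a, (k : Mt n F) a i = d a * (k : Mt n F) a i := fun a => by
    have := congrFun (congrFun e a) i
    rwa [Matrix.mul_single_apply_same, diagonal_mul, mul_one] at this
  have e2 : ∀ a b, b ≠ i → d a ≠ 0 → (k : Mt n F) a b = 0 := fun a b hb ha => by
    have := congrFun (congrFun e a) b
    rw [Matrix.mul_single_apply_of_ne _ _ _ _ _ hb, diagonal_mul] at this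
    exact (mul_eq_zero.1 this.symm).resolve_left ha
  have e3 : ∀ a b, d a ≠ 0 → (1 : Mt n F) a b =
      (k : Mt n F) a i * ((k⁻¹ : GL (Fin n) F) : Mt n F) i b := fun a b ha => by
    rw [← Units.mul_inv k, Matrix.mul_apply, Finset.sum_eq_single i]
    · intro c _ hc
      rw [e2 a c hc ha, zero_mul]
    · simp
  obtain ⟨j, hj⟩ : ∃ j, (k : Mt n F) j i ≠ 0 := by
    by_contra hn
    push Not at hn
    have := congrFun (congrFun (Units.inv_mul k) i) i
    rw [Matrix.mul_apply, Finset.sum_eq_zero fun a _ => by rw [hn a, mul_zero],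
      Matrix.one_apply_eq] at this
    exact zero_ne_one this
  have dj : d j = 1 := mul_right_cancel₀ hj (by rw [← e1 j, one_mul])
  have da : ∀ a, a ≠ j → d a = 0 := fun a ha => by
    by_contra hd
    have h1 := e3 j a (by rw [dj]; exact one_ne_zero)
    have h2 := e3 a a hd
    rw [Matrix.one_apply_ne ha.symm] at h1
    rw [Matrix.one_apply_eq, (mul_eq_zero.1 h1.symm).resolve_left hj, mul_zero] at h2
    exact one_ne_zero h2
  refine ⟨j, ?_⟩
  ext a b
  rw [diagonal_apply, Matrix.single_apply]
  by_cases h1 : a = j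
  · subst h1
    by_cases h2 : a = b
    · subst h2; simp [dj]
    · simp [h2]
  · rw [da a h1, ite_self, if_neg fun k => h1 k.1.symm]

theorem jobRho : JobRho := by
  intro n F _ c H hH
  have ex : ∀ (h : H) (i : Fin n), ∃ j, ((h : GL (Fin n) F) : Mt n F) * fr c i *
      (((h : GL (Fin n) F)⁻¹ : GL (Fin n) F) : Mt n F) = fr c j := fun h i => by
    obtain ⟨d, hd⟩ := (mem_dr c _).1 (hH h h.2 (fr c i) (Submodule.subset_span ⟨i, rfl⟩))
    obtain ⟨j, hj⟩ := mono _ i d (cj_inj c ((cj_fr c h i).symm.trans hd))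
    exact ⟨j, by rw [hd, hj, fr]⟩
  choose f hf using ex
  letI : MulAction H (Fin n) :=
    { smul := f
      one_smul := fun i => fr_inj c (by
        change fr c (f 1 i) = _
        rw [← hf]; simp)
      mul_smul := fun g h i => fr_inj c (by
        change fr c (f (g * h) i) = fr c (f g (f h i))
        rw [← hf, ← hf, ← hf]
        simp only [Subgroup.coe_mul, _root_.mul_inv_rev, Units.val_mul, mul_assoc]) }
  refine ⟨MulAction.toPermHom H (Fin n), fun h i => hf h i, fun h => ⟨fun e => ?_, fun e => ?_⟩⟩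
  · have e1 : ∀ i, f h i = i := fun i => congrArg (fun π : Equiv.Perm (Fin n) => π i) e
    set k : GL (Fin n) F := c⁻¹ * h * c with hk
    have e2 : ∀ i, (k : Mt n F) * Matrix.single i i 1 = Matrix.single i i 1 * (k : Mt n F) :=
      fun i => by
        have h1 := hf h i
        rw [e1, cj_fr, fr] at h1
        conv_rhs => rw [← cj_inj c h1]
        rw [Units.inv_mul_cancel_right]
    refine (mem_dr c _).2 ⟨fun a => (k : Mt n F) a a, ?_⟩
    have e3 : diagonal (fun a => (k : Mt n F) a a) = (k : Mt n F) := by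
      ext a b
      rw [diagonal_apply]
      split_ifs with h1
      · rw [h1]
      · have := congrFun (congrFun (e2 b) a) b
        rw [Matrix.mul_single_apply_same, mul_one, Matrix.single_mul_apply_of_ne _ _ _ _ _ h1] at this
        exact this.symm
    rw [e3, hk]
    simp only [Units.val_mul, mul_assoc, Units.mul_inv_cancel_left, Units.mul_inv, mul_one]
  · obtain ⟨d, hd⟩ := (mem_dr c _).1 e
    ext i
    refine congrArg Fin.val (fr_inj c ?_)
    change fr c (f h i) = fr c i
    rw [← hf, Units.mul_inv_eq_iff_eq_mul, hd, fr]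
    have : diagonal d * (Matrix.single i i 1 : Mt n F) = Matrix.single i i 1 * diagonal d := by
      ext a b
      rw [diagonal_mul, mul_diagonal, Matrix.single_apply]
      split_ifs with h1
      · rw [← h1.1, ← h1.2, mul_comm]
      · simp
    simp only [mul_assoc, Units.inv_mul_cancel_left]
    rw [← mul_assoc (diagonal d), this, mul_assoc]

end H92.SimRho
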