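import Cfsg.Agent.H91.AHSpec
import Cfsg.Agent.H98.Sylow

/-! AH tower: job G1. -/

set_option autoImplicit false

open H33.Solv Subgroup MulAction H91.AH

namespace H92.Ah

theorem real_stab {p : ℕ} [Fact p.Prime] {H V : Type} [Group H] [Finite H] [AddCommGroup V]
    [Module (ZMod p) V] [DistribMulAction H V] (h : RV p H V) (u : V) :
    ∀ c ∈ stabilizer H u, ∃ d ∈ stabilizer H u, d * c * d⁻¹ = c⁻¹ := by
  intro c hc
  obtain ⟨d, e1, e2⟩ := h.rat c u 1 _ (mem_stabilizer_iff.1 hc) one_ne_zero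
    (cop_pred (orderOf_pos c))
  exact ⟨d, mem_stabilizer_iff.2 (e1.trans (one_smul _ _)), e2.trans (pow_pred c)⟩

theorem eig_mem_normalizer {p : ℕ} [Fact p.Prime] {H V : Type} [Group H] [AddCommGroup V]
    [Module (ZMod p) V] [DistribMulAction H V] {h : H} {u : V} {a : ZMod p} (ha : a ≠ 0)
    (e : h • u = a • u) : h ∈ normalizer (stabilizer H u : Set H) := by
  have e' : h⁻¹ • u = a⁻¹ • u := by
    rw [inv_smul_eq_iff, smul_sc, e, smul_smul, inv_mul_cancel₀ ha, one_smul]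
  rw [mem_normalizer_iff]
  intro c
  simp only [mem_stabilizer_iff]
  constructor
  · intro hc
    rw [mul_smul, mul_smul, e', smul_sc, hc, smul_sc, e, smul_smul, inv_mul_cancel₀ ha, one_smul]
  · intro hc
    rw [mul_smul, mul_smul, e', smul_sc, smul_sc, ← eq_inv_smul_iff₀ (inv_ne_zero ha), inv_inv,
      ← e, smul_left_cancel_iff] at hc
    exact hc

theorem jobG1 : JobG1 := by
  intro hSN p _ H V _ _ _ _ _ _ hRV
  have := hRV.nt
  have := hRV.sol
  have : Fact (Nat.Prime 2) := ⟨Nat.prime_two⟩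
  obtain ⟨T, ⟨h2, hu⟩, hmax⟩ := H2.exists_maximal_subgroup
    (fun T : Subgroup H => IsPGroup 2 T ∧ ∃ u : V, u ≠ 0 ∧ ∀ c ∈ T, c • u = u)
    ⟨⊥, IsPGroup.of_bot, by
      obtain ⟨u, hu⟩ := exists_ne (0 : V)
      exact ⟨u, hu, fun c hc => by rw [mem_bot.1 hc, one_smul]⟩⟩
  have syl : ∀ u : V, u ≠ 0 → (∀ c ∈ T, c • u = u) → H98.IsSyl 2 T (stabilizer H u) := by
    intro u h0 hf
    obtain ⟨S, hS, hTS⟩ := H98.exists_isSyl_le h2 (H := stabilizer H u)
      fun c hc => mem_stabilizer_iff.2 (hf c hc)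
    have := hmax S ⟨hS.isPGroup, u, h0, fun c hc => mem_stabilizer_iff.1 (hS.le hc)⟩ hTS
    exact this ▸ hS
  refine ⟨T, h2, hu, fun u h0 hf => ?_, fun u h0 hf g hg e => ?_, fun u h0 hf a ha => ?_⟩
  · exact Nat.odd_iff.2 (Nat.two_dvd_ne_zero.1 (syl u h0 hf).not_dvd_relIndex)
  · obtain ⟨P, hP⟩ := (syl u h0 hf).exists_sylow
    have hr : Real (stabilizer H u) := fun c => by
      obtain ⟨d, hd, e⟩ := real_stab hRV u c.1 c.2
      exact _root_.isConj_iff.2 ⟨⟨d, hd⟩, Subtype.ext e⟩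
    have := hSN (stabilizer H u) inferInstance hr P (x := ⟨g, mem_stabilizer_iff.2 e⟩) (by
      rw [hP, mem_normalizer_iff]
      intro c
      rw [mem_subgroupOf, mem_subgroupOf]
      exact mem_normalizer_iff.1 hg c.1)
    rw [hP, mem_subgroupOf] at this
    exact this
  · obtain ⟨h, e, -⟩ := hRV.ep (c := 1) (one_smul _ u) ha
    obtain ⟨g, hg, n, hn, e2⟩ := (syl u h0 hf).frattini_mem (eig_mem_normalizer ha e)
    refine ⟨g, hg, ?_⟩
    rw [← e, e2, mul_smul, mem_stabilizer_iff.1 hn]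

end H92.Ah
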