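import Cfsg.Agent.H92.AhG1

/-! AH tower: job G2. -/

set_option autoImplicit false

open H33.Solv Subgroup MulAction H91.AH

namespace H92.Ah

theorem sc_inj {p : ℕ} [Fact p.Prime] {V : Type} [AddCommGroup V] [Module (ZMod p) V] {u : V}
    (h : u ≠ 0) {a b : ZMod p} (e : a • u = b • u) : a = b := by
  by_contra hne
  apply h
  have : (a - b) • u = 0 := by rw [sub_smul, e, sub_self]
  exact (smul_eq_zero.1 this).resolve_left (sub_ne_zero.2 hne)

/-- The stabiliser of the line through `u`. -/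
def lineSt (p : ℕ) [Fact p.Prime] (H : Type) {V : Type} [Group H] [AddCommGroup V]
    [Module (ZMod p) V] [DistribMulAction H V] (u : V) : Subgroup H where
  carrier := {c | ∃ a : ZMod p, a ≠ 0 ∧ c • u = a • u}
  one_mem' := ⟨1, one_ne_zero, by rw [one_smul, one_smul]⟩
  mul_mem' := by
    rintro x y ⟨a, a0, ha⟩ ⟨b, b0, hb⟩
    exact ⟨b * a, mul_ne_zero b0 a0, by rw [mul_smul, hb, smul_sc, ha, mul_smul]⟩
  inv_mem' := by
    rintro x ⟨a, a0, ha⟩
    exact ⟨a⁻¹, inv_ne_zero a0, by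
      rw [inv_smul_eq_iff, smul_sc, ha, smul_smul, inv_mul_cancel₀ a0, one_smul]⟩

theorem jobG2 : JobG2 := by
  intro hLAM hAB p _ H V _ _ _ _ _ _ hRV hp2 T hT y hy l r k hr hl hU
  have := hRV.sol
  obtain ⟨u, u0, hu⟩ := hT.ex
  have l0 : l ≠ 0 := by
    rintro rfl
    rw [zero_pow (pow_pos hr.pos k).ne'] at hl
    exact zero_ne_one hl
  obtain ⟨m, j, hm, hj⟩ := exists_part hr y k
  have lm : l ^ m = l := by
    have : l ^ m = l ^ 1 := pow_eq_pow_of_modEq hm hl
    rwa [pow_one] at this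
  have hU' : ∀ u : V, (∀ c ∈ T, c • u = u) → y ^ m • u = l • u := fun u h => by
    rw [pow_smul_eig (hU u h), lm]
  have hy' : y ^ m ∈ normalizer (T : Set H) := pow_mem hy m
  generalize y ^ m = z at hj hU' hy'
  suffices h : ∃ w : V, w ≠ 0 ∧ (∀ c ∈ T, c⁻¹ • w = w) ∧ z⁻¹ • w = l • w by
    obtain ⟨w, w0, h1, h2⟩ := h
    have h3 := hU' w fun c hc => by simpa using h1 c⁻¹ (inv_mem hc)
    apply sc_inj w0
    rw [one_smul, mul_smul, ← h3, ← smul_sc, ← h2, smul_inv_smul] 
  by_cases r2 : r = 2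
  · subst r2
    classical
    have hR : ∀ c ∈ T ⊔ zpowers z, c ∈ lineSt p H u := by
      refine fun c hc => (sup_le (fun c hc => ?_) (zpowers_le.2 ?_) : T ⊔ zpowers z ≤ _) hc
      · exact ⟨1, one_ne_zero, by rw [hu c hc, one_smul]⟩
      · exact ⟨l, l0, hU' u hu⟩
    let χ : H → ZMod p := fun c => if h : ∃ a : ZMod p, c • u = a • u then h.choose else 0
    have hχ : ∀ c ∈ T ⊔ zpowers z, c • u = χ c • u := fun c hc => by
      obtain ⟨a, -, ha⟩ := hR c hc
      have h : ∃ a : ZMod p, c • u = a • u := ⟨a, ha⟩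
      simp only [χ, dif_pos h]
      exact h.choose_spec
    obtain ⟨w, w0, h1, -⟩ := hLAM p H V 2 (T ⊔ zpowers z) 1 χ 1 u hr (Ne.symm hp2)
      (IsPGroup.to_sup_of_normal_left' hT.two (H98.isPGroup_zpowers hj) (zpowers_le.2 hy'))
      (fun c _ => Commute.one_right c) (fun c _ => by
        obtain ⟨t, ht⟩ := _root_.isConj_iff.1 (hRV.ratH.real c)
        exact ⟨t, ht, by group⟩) u0 hχ (by rw [one_smul, one_smul])
    refine ⟨w, w0, fun c hc => ?_, ?_⟩
    · have e : χ c = 1 := sc_inj u0 (by rw [← hχ c (mem_sup_left hc), hu c hc, one_smul])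
      rw [h1 c (mem_sup_left hc), e, one_smul]
    · have hz : z ∈ T ⊔ zpowers z := mem_sup_right (mem_zpowers z)
      have e : χ z = l := sc_inj u0 (by rw [← hχ z hz, hU' u hu])
      rw [h1 z hz, e]
  · have oz : Odd (orderOf z) :=
      Odd.of_dvd_nat ((hr.odd_of_ne_two r2).pow) (orderOf_dvd_of_pow_eq_one hj)
    have hTC : T ≤ stabilizer H u := fun c hc => mem_stabilizer_iff.2 (hu c hc)
    have hzM : z ∈ normalizer (stabilizer H u : Set H) := eig_mem_normalizer l0 (hU' u hu)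
    have hcm := hAB (normalizer (stabilizer H u : Set H)) ((stabilizer H u).subgroupOf _)
      (T.subgroupOf _) ⟨z, hzM⟩ inferInstance inferInstance (fun c hc => by
        obtain ⟨d, hd, e⟩ := real_stab hRV u c.1 hc
        exact ⟨⟨d, le_normalizer hd⟩, hd, Subtype.ext e⟩) (fun c hc => hTC hc)
      (H98.isPGroup_subgroupOf hT.two _)
      (by rw [relIndex_subgroupOf le_normalizer]; exact hT.odd u u0 hu)
      (by rw [← orderOf_coe]; exact oz)
      (by
        rw [mem_normalizer_iff]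
        intro c
        rw [mem_subgroupOf, mem_subgroupOf]
        exact mem_normalizer_iff.1 hy' c.1)
      (fun c hc => by
        obtain ⟨h, e1, e2⟩ := hRV.ep (c := c.1) (mem_stabilizer_iff.1 hc) l0
        have hd : z * h⁻¹ ∈ stabilizer H u := by
          have e' : h⁻¹ • u = l⁻¹ • u := by
            rw [inv_smul_eq_iff, smul_sc, e1, smul_smul, inv_mul_cancel₀ l0, one_smul]
          rw [mem_stabilizer_iff, mul_smul, e', smul_sc, hU' u hu, smul_smul,
            inv_mul_cancel₀ l0, one_smul]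
        refine ⟨⟨_, le_normalizer hd⟩, hd, Subtype.ext ?_⟩
        change z * c.1 * z⁻¹ = z * h⁻¹ * c.1 * (z * h⁻¹)⁻¹
        rw [mul_assoc z h⁻¹, e2.inv_left.eq]
        group)
    have hcm' : ∀ c ∈ T, Commute c z := fun c hc =>
      congrArg Subtype.val (hcm ⟨c, le_normalizer (hTC hc)⟩ hc).eq
    obtain ⟨w, w0, h1, h2⟩ := hLAM p H V 2 T z (fun _ => 1) l u Nat.prime_two (Ne.symm hp2) hT.two
      hcm' (fun c hc => by
        refine hRV.ratH.inv_inv (hcm' c hc) ?_
        obtain ⟨n, hn⟩ := H98.isPGroup_iff_forall.1 hT.two c hc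
        exact Nat.Coprime.coprime_dvd_left (orderOf_dvd_of_pow_eq_one hn)
          ((Nat.coprime_two_left.2 oz).pow_left n)) u0
      (fun c hc => by rw [hu c hc, one_smul]) (hU' u hu)
    exact ⟨w, w0, fun c hc => by rw [h1 c hc, one_smul], h2⟩

end H92.Ah
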