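import Cfsg.Agent.H92.AhG2

/-! AH tower: job G5. -/

set_option autoImplicit false

open H33.Solv Subgroup MulAction H91.AH

namespace H92.Ah

section
variable {p : ℕ} [hp : Fact p.Prime] {Y U : Type} [Group Y] [AddCommGroup U] [Module (ZMod p) U]
  [DistribMulAction Y U]

/-- An eigenspace. -/
def eig (y : Y) (a : ZMod p) (U : Type) [AddCommGroup U] [Module (ZMod p) U]
    [DistribMulAction Y U] : Submodule (ZMod p) U where
  carrier := {u | y • u = a • u}
  zero_mem' := by
    change y • (0 : U) = a • 0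
    rw [smul_zero, smul_zero]
  add_mem' := fun {u v} hu hv => by
    change y • (u + v) = a • (u + v)
    rw [smul_add, smul_add, show y • u = a • u from hu, show y • v = a • v from hv]
  smul_mem' := fun c u hu => by
    change y • c • u = a • c • u
    rw [smul_sc, show y • u = a • u from hu, smul_smul, smul_smul, mul_comm]

theorem cover [Finite Y] [Nontrivial U] (S : Set Y) (hS : S.ncard < p) (a : ZMod p)
    (h : ∀ u : U, u ≠ 0 → ∃ y ∈ S, y • u = a • u) : ∃ y : Y, ∀ u : U, y • u = a • u := by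
  by_contra hne
  push Not at hne
  have h1 : ∀ y : Y, eig y a U ≠ ⊤ := fun y e => by
    obtain ⟨u, hu⟩ := hne y
    exact hu (show u ∈ eig y a U from e ▸ Submodule.mem_top)
  have hf := S.toFinite
  have := Submodule.iUnion_ssubset_of_forall_ne_top_of_card_lt hf.toFinset (fun y => eig y a U) h1
    (by
      rw [ENat.card_eq_coe_natCard, Nat.card_zmod, ← Set.ncard_eq_toFinset_card S hf]
      exact_mod_cast hS)
  obtain ⟨u, -, hu⟩ := Set.exists_of_ssubset this
  apply hu
  simp only [Set.mem_iUnion]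
  by_cases u0 : u = 0
  · obtain ⟨v, hv⟩ := exists_ne (0 : U)
    obtain ⟨y, hy, -⟩ := h v hv
    exact ⟨y, hf.mem_toFinset.2 hy, u0 ▸ (eig y a U).zero_mem⟩
  · obtain ⟨y, hy, e⟩ := h u u0
    exact ⟨y, hf.mem_toFinset.2 hy, e⟩

theorem exists_ord {n : ℕ} (hn : n ∣ p - 1) : ∃ l : ZMod p, l ≠ 0 ∧ orderOf l = n := by
  obtain ⟨g, hg⟩ := IsCyclic.exists_ofOrder_eq_natCard (α := (ZMod p)ˣ)
  rw [Nat.card_eq_fintype_card, ZMod.card_units] at hg
  refine ⟨(g ^ (orderOf g / n) : (ZMod p)ˣ), Units.ne_zero _, ?_⟩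
  rw [orderOf_units]
  exact orderOf_pow_orderOf_div (orderOf_pos g).ne' (hg ▸ hn)

theorem ord_eq (semi : ∀ y : Y, y ≠ 1 → ∀ u : U, y • u = u → u = 0) {y : Y} {u : U} {l : ZMod p}
    (u0 : u ≠ 0) (e : y • u = l • u) : orderOf y = orderOf l := by
  rw [orderOf_eq_orderOf_iff]
  intro n
  have := pow_smul_eig e n
  constructor
  · intro h
    rw [h, one_smul] at this
    exact sc_inj u0 (this.symm.trans (one_smul _ u).symm)
  · intro h
    rw [h, one_smul] at this
    by_contra hne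
    exact u0 (semi _ hne u this)

theorem g5core (hQA : JobQA) (hOP : JobOP) (hG3 : JobG3) (hG4 : JobG4) (hFRB : JobFRB)
    (hCQ : JobCQ) [Finite Y] [Finite U] [Nontrivial U] (h7 : 7 < p) (sol : Group.IsSolvable Y)
    (hq : ∀ q : ℕ, q.Prime → q ∣ Nat.card Y → q ≤ 7) (cop : (Nat.card Y).Coprime (Nat.card U))
    (semi : ∀ y : Y, y ≠ 1 → ∀ u : U, y • u = u → u = 0)
    (ep : ∀ u : U, u ≠ 0 → ∀ a : ZMod p, a ≠ 0 → ∃ y : Y, y • u = a • u)
    (g2 : ∀ (y : Y) (l : ZMod p) (r k : ℕ), r.Prime → l ^ r ^ k = 1 → (∀ u : U, y • u = l • u) →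
      l * l = 1) : False := by
  have cq := hCQ hOP Y U cop semi
  obtain ⟨v, v0⟩ := exists_ne (0 : U)
  have fr : ∀ z : Y, (orderOf z).Prime → FR z := fun z hz =>
    hFRB Y U cop (fun h e => by_contra fun hne => v0 (semi h hne v (e v))) z hz
      (eq_bot_iff.2 fun u hu => AddSubgroup.mem_bot.2 (semi z (by
        rintro rfl
        rw [orderOf_one] at hz
        exact Nat.not_prime_one hz) u hu))
  have h9 : p ≠ 9 := by
    rintro rfl
    exact absurd hp.out (by norm_num)
  have h8 : p ≠ 8 := by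
    rintro rfl
    exact absurd hp.out (by norm_num)
  rcases Nat.eq_two_pow_or_exists_odd_prime_and_dvd (p - 1) with ⟨k, hk⟩ | ⟨r, hr, hd, ro⟩
  · have h16 : 16 ∣ p - 1 := by
      rw [hk]
      by_contra hc
      have : k < 4 := by
        by_contra h
        exact hc (pow_dvd_pow 2 (not_lt.1 h))
      interval_cases k <;> omega
    obtain ⟨l, l0, hl⟩ := exists_ord h16
    obtain ⟨y, hy⟩ := cover (p := p) (U := U) _ ((hG4 Y sol cq hq).trans_lt (by omega)) (l ^ 4)
      fun u u0 => by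
        obtain ⟨y, e⟩ := ep u u0 l l0
        exact ⟨y ^ 4, ⟨y, (ord_eq semi u0 e).trans hl, rfl⟩, pow_smul_eig e 4⟩
    have := g2 y (l ^ 4) 2 2 Nat.prime_two (by
      rw [← pow_mul, ← orderOf_dvd_iff_pow_eq_one, hl]; norm_num) hy
    rw [← pow_add, ← orderOf_dvd_iff_pow_eq_one, hl] at this
    norm_num at this
  · obtain ⟨l, l0, hl⟩ := exists_ord hd
    have r2 : r ≠ 2 := by
      rintro rfl
      exact absurd ro (by decide)
    have r7 : r ≤ 7 := by
      obtain ⟨y, e⟩ := ep v v0 l l0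
      exact hq r hr (((ord_eq semi v0 e).trans hl) ▸ orderOf_dvd_natCard y)
    obtain ⟨y, hy⟩ := cover (p := p) (U := U) _
      ((hG3 hQA Y sol cq fr r hr r2 r7).trans_lt (by omega)) l fun u u0 => by
        obtain ⟨y, e⟩ := ep u u0 l l0
        exact ⟨y, (ord_eq semi u0 e).trans hl, e⟩
    have := g2 y l r 1 hr (by rw [pow_one, ← hl, pow_orderOf_eq_one]) hy
    rw [← pow_two, ← orderOf_dvd_iff_pow_eq_one, hl] at this
    exact r2 ((Nat.prime_dvd_prime_iff_eq hr Nat.prime_two).1 this)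

end

section
variable (p : ℕ) {H : Type} (V : Type) [Group H] [AddCommGroup V] [Module (ZMod p) V]
  [DistribMulAction H V] (T : Subgroup H)

/-- The vectors fixed by `T`. -/
def fixS : Submodule (ZMod p) V where
  carrier := {u | ∀ c ∈ T, c • u = u}
  zero_mem' := fun c _ => smul_zero c
  add_mem' := fun {u v} hu hv c hc => by rw [smul_add, hu c hc, hv c hc]
  smul_mem' := fun a u hu c hc => by rw [smul_sc, hu c hc]

/-- The action of the normaliser. -/
@[reducible] def nAct : DistribMulAction (normalizer (T : Set H)) (fixS p V T) where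
  smul g u := ⟨g.1 • u.1, fun c hc => by
    have := u.2 _ (H98.conj_mem_of_mem_normalizer' g.2 hc)
    rwa [mul_smul, mul_smul, inv_smul_eq_iff] at this⟩
  one_smul u := Subtype.ext (one_smul H u.1)
  mul_smul g k u := Subtype.ext (mul_smul g.1 k.1 u.1)
  smul_zero g := Subtype.ext (smul_zero g.1)
  smul_add g a b := Subtype.ext (smul_add g.1 a.1 b.1)

end

theorem jobG5 : JobG5 := by
  intro hSN hLAM hAB hQA hOP hG1 hG2 hG3 hG4 hFRB hCQ p hp H V _ _ _ _ _ _ hRV hq
  by_contra h7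
  have := hRV.sol
  obtain ⟨T, hT⟩ := hG1 hSN p H V hRV
  have g2 := hG2 hLAM hAB p H V hRV (by omega) T hT
  let _ := nAct p V T
  have _ : SMulCommClass (normalizer (T : Set H)) (ZMod p) (fixS p V T) :=
    ⟨fun g a u => Subtype.ext (smul_sc g.1 a u.1)⟩
  let φ := DistribMulAction.toModuleAut (S := normalizer (T : Set H)) (ZMod p) (fixS p V T)
  have hφ : ∀ (g : normalizer (T : Set H)) (u : fixS p V T),
      ((φ.rangeRestrict g • u : fixS p V T) : V) = g.1 • u.1 := fun g u => rfl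
  have hs := φ.rangeRestrict_surjective
  have _ : Finite φ.range := Finite.of_surjective _ hs
  have hd : Nat.card φ.range ∣ Nat.card H :=
    (card_dvd_of_surjective _ hs).trans (card_subgroup_dvd_card _)
  have _ : Nontrivial (fixS p V T) := by
    obtain ⟨u, u0, hu⟩ := hT.ex
    exact ⟨⟨⟨u, hu⟩, 0, fun e => u0 (congrArg Subtype.val e)⟩⟩
  refine g5core (p := p) (Y := φ.range) (U := fixS p V T) hQA hOP hG3 hG4 hFRB hCQ (not_le.1 h7)
    (Group.isSolvable_of_surjective hs) (fun q h1 h2 => hq q h1 (h2.trans hd))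
    (Nat.Coprime.coprime_dvd_right (AddSubgroup.card_addSubgroup_dvd_card (fixS p V T).toAddSubgroup)
      (Nat.Coprime.coprime_dvd_left hd hRV.coprime)) ?_ ?_ ?_
  · intro y y1 u e
    obtain ⟨g, rfl⟩ := hs y
    by_contra u0
    have hg := hT.sn u.1 (fun e => u0 (Subtype.ext e)) u.2 g.1 g.2 (congrArg Subtype.val e)
    apply y1
    refine Subtype.ext (LinearEquiv.ext fun w => Subtype.ext ?_)
    exact w.2 _ hg
  · intro u u0 a a0
    obtain ⟨g, hg, e⟩ := hT.ep u.1 (fun e => u0 (Subtype.ext e)) u.2 a a0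
    exact ⟨φ.rangeRestrict ⟨g, hg⟩, Subtype.ext e⟩
  · intro y l r k hr hl e
    obtain ⟨g, rfl⟩ := hs y
    exact g2 g.1 g.2 l r k hr hl fun u hu => congrArg Subtype.val (e ⟨u, hu⟩)

end H92.Ah
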