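import Cfsg.Agent.H91.AHSpec

/-! AH tower: job KE. -/

set_option autoImplicit false

open H33.Solv Subgroup MulAction H91.AH

namespace H92.Ah

theorem four_el {G : Type} [Group G] [Finite G] {N : Subgroup G} (h4 : Nat.card N = 4)
    (h2 : ∀ m ∈ N, m * m = 1) {a b : G} (ha : a ∈ N) (hb : b ∈ N) (a1 : a ≠ 1) (b1 : b ≠ 1)
    (ab : a ≠ b) : ∀ m ∈ N, m = 1 ∨ m = a ∨ m = b ∨ m = a * b := by
  classical
  have e1 : a * b ≠ 1 := fun e => ab (by
    rw [← mul_one a, ← h2 b hb, ← mul_assoc, e, one_mul])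
  have e2 : a * b ≠ a := fun e => b1 (by simpa using e)
  have e3 : a * b ≠ b := fun e => a1 (by simpa using e)
  have hs : ({1, a, b, a * b} : Set G) ⊆ N := by
    rintro m (rfl | rfl | rfl | rfl)
    exacts [N.one_mem, ha, hb, N.mul_mem ha hb]
  have hc : ({1, a, b, a * b} : Set G).ncard = 4 := by
    rw [Set.ncard_insert_of_notMem, Set.ncard_insert_of_notMem, Set.ncard_pair e3.symm]
    · simp [ab, e2.symm]
    · simp [a1.symm, b1.symm, e1.symm]
  have := Set.eq_of_subset_of_ncard_le hs (by rw [hc, ← h4]; rfl)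
  intro m hm
  have : m ∈ ({1, a, b, a * b} : Set G) := this ▸ hm
  simpa using this

theorem index_cent_le {G : Type} [Group G] [Finite G] (x : G) (S : Set G)
    (h : ∀ g : G, g * x * g⁻¹ ∈ S) : (centralizer ({x} : Set G)).index ≤ S.ncard := by
  have e : centralizer ({x} : Set G) =
      (stabilizer (ConjAct G) x).comap (ConjAct.toConjAct (G := G)).toMonoidHom :=
    centralizer_eq_comap_stabilizer x
  rw [e, index_comap_of_surjective (stabilizer (ConjAct G) x)
    (f := ConjAct.toConjAct.toMonoidHom) ConjAct.toConjAct.surjective, index_stabilizer]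
  refine Set.ncard_le_ncard ?_ S.toFinite
  rintro _ ⟨g, rfl⟩
  exact h _

theorem jobKE : JobKE := by
  intro hRD H _ _ z t M hR z3 t2 tc hM tM c8 hsq hC
  classical
  have tt : t * t = 1 := by rw [← pow_two, ← t2, pow_orderOf_eq_one]
  have t1 : t ≠ 1 := by
    rintro rfl
    rw [orderOf_one] at t2
    omega
  have ct : ∀ g : H, g * t = t * g := mem_center_iff.1 tc
  have zt : ∀ w ∈ zpowers t, w = 1 ∨ w = t := fun w hw => by
    rw [mem_zpowers_iff_mem_range_orderOf, t2, Finset.mem_image] at hw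
    obtain ⟨i, hi, rfl⟩ := hw
    rw [Finset.mem_range] at hi
    interval_cases i <;> simp
  have cw : ∀ w ∈ zpowers t, ∀ g : H, g * w = w * g := fun w hw g => by
    rcases zt w hw with rfl | rfl
    · simp
    · exact ct g
  have ww : ∀ w ∈ zpowers t, w * w = 1 := fun w hw => by
    rcases zt w hw with rfl | rfl
    · simp
    · exact tt
  have nT : (zpowers t).Normal := ⟨fun w hw g => by
    rw [cw w hw g, mul_inv_cancel_right]; exact hw⟩
  let π := QuotientGroup.mk' (zpowers t)
  have hπ : ∀ w, π w = 1 ↔ w ∈ zpowers t := fun w => QuotientGroup.eq_one_iff w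
  have hπ2 : ∀ a b, π a = π b → ∃ w ∈ zpowers t, a = b * w := fun a b e =>
    ⟨b⁻¹ * a, (hπ _).1 (by rw [map_mul, map_inv, e, inv_mul_cancel]), by group⟩
  have nN : (M.map π).Normal := hM.map π (QuotientGroup.mk'_surjective _)
  have c4 : Nat.card (M.map π) = 4 := by
    have h1 := Subgroup.relIndex_mul_relIndex ⊥ (zpowers t) M bot_le (zpowers_le.2 tM)
    rw [relIndex_bot_left, relIndex_bot_left, c8, Nat.card_zpowers, t2] at h1
    rw [← relIndex_ker, QuotientGroup.ker_mk']
    omega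
  have sq : ∀ m ∈ M.map π, m * m = 1 := by
    rintro _ ⟨m, hm, rfl⟩
    rw [← map_mul, hπ]
    by_cases h : m ∈ zpowers t
    · exact mul_mem h h
    · rw [hsq m hm h]; exact mem_zpowers t
  have cm : ∀ a ∈ M.map π, ∀ b ∈ M.map π, a * b = b * a := fun a ha b hb => by
    have := sq _ (mul_mem ha hb)
    calc a * b = a * (a * b * (a * b)) * b * 1 := by
          rw [this, mul_one, mul_one]
      _ = (a * a) * (b * a) * (b * b) := by group
      _ = b * a := by rw [sq a ha, sq b hb]; group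
  set K := (centralizer (M.map π : Set (H ⧸ zpowers t))).comap π with hK
  have nK : K.Normal := inferInstance
  have mK : ∀ k, k ∈ K ↔ ∀ m ∈ M, π (k * m * k⁻¹) = π m := fun k => by
    rw [hK, mem_comap, mem_centralizer_iff]
    constructor
    · intro h m hm
      rw [map_mul, map_mul, ← h _ ⟨m, hm, rfl⟩, map_inv, mul_inv_cancel_right]
    · rintro h _ ⟨m, hm, rfl⟩
      have := h m hm
      rw [map_mul, map_mul, map_inv, mul_inv_eq_iff_eq_mul] at this
      exact this.symm
  have k4 : ∀ k ∈ K, k ^ 4 = 1 := fun k hk => by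
    have : k * k ∈ zpowers t := hC (mem_centralizer_iff.2 fun m hm => by
      obtain ⟨w, hw, e⟩ := hπ2 _ _ ((mK k).1 hk m hm)
      have e2 : k * k * m * (k * k)⁻¹ = m := by
        calc _ = k * (k * m * k⁻¹) * k⁻¹ := by group
          _ = k * m * (w * k⁻¹) := by rw [e]; group
          _ = k * m * k⁻¹ * w := by rw [← cw w hw]; group
          _ = m := by rw [e, mul_assoc, ww w hw, mul_one]
      exact (mul_inv_eq_iff_eq_mul.1 e2).symm)
    rw [show k ^ 4 = k * k * (k * k) by simp only [pow_succ, pow_zero, one_mul, mul_assoc], ww _ this]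
  have z1 : z ^ 3 = 1 := z3 ▸ pow_orderOf_eq_one z
  have zK : z ∉ K := fun h => by
    have := orderOf_dvd_of_pow_eq_one (k4 z h)
    rw [z3] at this
    omega
  obtain ⟨x, xM, hx⟩ : ∃ x ∈ M, π (z * x * z⁻¹) ≠ π x := by
    by_contra hc
    push Not at hc
    exact zK ((mK z).2 hc)
  have cj1 : ∀ g m : H, π (g * m * g⁻¹) = 1 → π m = 1 := fun g m e => by
    rw [map_mul, map_mul, map_inv, mul_inv_eq_one, mul_eq_left] at e
    exact e
  have cjE : ∀ g a b : H, π (g * a * g⁻¹) = π (g * b * g⁻¹) ↔ π a = π b := fun g a b => by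
    simp only [map_mul, map_inv, mul_left_inj, mul_right_inj]
  have x1 : π x ≠ 1 := fun e => hx (by simp only [map_mul, e, map_inv, mul_one, mul_inv_cancel])
  have x'M : z * x * z⁻¹ ∈ M := hM.conj_mem x xM z
  have el := four_el c4 sq (mem_map_of_mem π xM) (mem_map_of_mem π x'M) x1
    (fun e => x1 (cj1 _ _ e)) hx.symm
  -- centralising `x` and `x'` suffices
  have cen : ∀ k : H, Commute k x → Commute k (z * x * z⁻¹) → k ∈ zpowers t := fun k h1 h2 =>
    hC (mem_centralizer_iff.2 fun m hm => by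
      have : ∀ a, Commute k a → π m = π a → m * k = k * m := fun a ha e => by
        obtain ⟨w, hw, rfl⟩ := hπ2 _ _ e
        exact (ha.mul_right (cw w hw k)).eq.symm
      rcases el _ (mem_map_of_mem π hm) with e | e | e | e
      · exact this 1 (Commute.one_right k) (e.trans (map_one π).symm)
      · exact this _ h1 e
      · exact this _ h2 e
      · exact this _ (h1.mul_right h2) (e.trans (map_mul π _ _).symm))
  have bound : Nat.card H ≤ 72 := by
    have h6 : ((M : Set H) \ {1, t}).ncard = 6 := by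
      rw [Set.ncard_sdiff (by
        rintro w (rfl | rfl)
        exacts [M.one_mem, tM]), Set.ncard_pair t1.symm]
      change Nat.card M - 2 = 6
      rw [c8]
    have hi : ∀ a ∈ M, π a ≠ 1 → (centralizer ({a} : Set H)).index ≤ 6 := fun a ha a1 =>
      h6 ▸ index_cent_le a _ fun g => ⟨hM.conj_mem a ha g, fun h => a1 (cj1 g a ((hπ _).2 (by
        rcases h with h | h
        · rw [h]; exact one_mem _
        · rw [h]; exact mem_zpowers t)))⟩
    have h1 := index_inf_le (H := centralizer ({x} : Set H))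
      (K := centralizer ({z * x * z⁻¹} : Set H))
    have h2 := (centralizer ({x} : Set H) ⊓ centralizer ({z * x * z⁻¹} : Set H)).card_mul_index
    have h3 : Nat.card (centralizer ({x} : Set H) ⊓ centralizer ({z * x * z⁻¹} : Set H) :
        Subgroup H) ≤ 2 := by
      rw [← t2, ← Nat.card_zpowers]
      exact card_le_of_le fun k hk => cen k (mem_cent.1 hk.1) (mem_cent.1 hk.2)
    have h4 := Nat.mul_le_mul (hi x xM x1) (hi _ x'M fun e => x1 (cj1 _ _ e))
    rw [← h2]
    exact Nat.mul_le_mul h3 (h1.trans h4)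
  have no8 : ∀ g : H, orderOf g ≠ 8 := fun g e => by
    have h1 := hRD H hR g
    rw [e, show Nat.totient 8 = 4 by decide] at h1
    have h2 : 3 ∣ Nat.card H := z3 ▸ orderOf_dvd_natCard z
    have := Nat.le_of_dvd Nat.card_pos
      (Nat.Coprime.mul_dvd_of_dvd_of_dvd (by norm_num) h1 h2)
    omega
  obtain ⟨s0, hs0⟩ := _root_.isConj_iff.1 (hR.real z)
  obtain ⟨n, j, hn, hj⟩ := exists_part Nat.prime_two s0 1
  have hs : s0 ^ n * z * (s0 ^ n)⁻¹ = z⁻¹ := by
    obtain ⟨i, rfl⟩ : ∃ i, n = 2 * i + 1 := ⟨n / 2, by unfold Nat.ModEq at hn; omega⟩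
    have c2 : Commute (s0 ^ 2) z := by
      have : s0 ^ 2 * z * (s0 ^ 2)⁻¹ = z := by
        calc _ = s0 * (s0 * z * s0⁻¹) * s0⁻¹ := by rw [pow_two]; group
          _ = s0 * z⁻¹ * s0⁻¹ := by rw [hs0]
          _ = (s0 * z * s0⁻¹)⁻¹ := by group
          _ = z := by rw [hs0, inv_inv]
      exact mul_inv_eq_iff_eq_mul.1 this
    rw [pow_succ', pow_mul, mul_assoc s0, (c2.pow_left i).eq, ← hs0]
    group
  generalize s0 ^ n = s at hs hj
  have s4 : s ^ 4 = 1 := by
    have : Fact (Nat.Prime 2) := ⟨Nat.prime_two⟩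
    obtain ⟨i, -, hi⟩ := (Nat.dvd_prime_pow Nat.prime_two).1 (orderOf_dvd_of_pow_eq_one hj)
    by_cases h : i ≤ 2
    · exact orderOf_dvd_iff_pow_eq_one.1 (hi ▸ pow_dvd_pow 2 h)
    · exact absurd (orderOf_pow_orderOf_div (orderOf_pos s).ne'
        (hi ▸ pow_dvd_pow 2 (show 3 ≤ i by omega))) (no8 _)
  have ssK : s * s ∈ K := (mK _).2 fun m hm => by
    by_contra hne
    have e2 : s * s * m * (s * s)⁻¹ = s * (s * m * s⁻¹) * s⁻¹ := by group
    have m1 : π m ≠ 1 := fun e => hne (by simp only [map_mul, e, map_inv, mul_one, mul_inv_cancel])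
    have n1 : π (s * m * s⁻¹) ≠ π m := fun e => hne (by rw [e2, (cjE s _ _).2 e, e])
    have m'M := hM.conj_mem m hm s
    rcases four_el c4 sq (mem_map_of_mem π hm) (mem_map_of_mem π m'M) m1
      (fun e => m1 (cj1 _ _ e)) n1.symm _ (mem_map_of_mem π (hM.conj_mem m hm (s * s))) with
      e | e | e | e
    · exact m1 (cj1 _ _ e)
    · exact hne e
    · exact n1 ((cjE s _ _).1 (e2 ▸ e))
    · have e3 : π (s * (s * s * m * (s * s)⁻¹) * s⁻¹) = π m := by
        rw [(cjE s _ _).2 (e.trans (map_mul π _ _).symm),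
          show s * (m * (s * m * s⁻¹)) * s⁻¹ = s * m * s⁻¹ * (s * s * m * (s * s)⁻¹) by group,
          map_mul, e, cm _ (mem_map_of_mem π hm) _ (mem_map_of_mem π m'M), ← mul_assoc,
          sq _ (mem_map_of_mem π m'M), one_mul]
      apply n1
      rw [← (cjE s _ _).2 e3, show s * (s * (s * s * m * (s * s)⁻¹) * s⁻¹) * s⁻¹ =
        s ^ 4 * m * (s ^ 4)⁻¹ by simp only [pow_succ, pow_zero, one_mul]; group, s4]
      simp
  have cz : Commute (s * s) z := by
    have : s * s * z * (s * s)⁻¹ = z := by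
      calc _ = s * (s * z * s⁻¹) * s⁻¹ := by group
        _ = s * z⁻¹ * s⁻¹ := by rw [hs]
        _ = (s * z * s⁻¹)⁻¹ := by group
        _ = z := by rw [hs, inv_inv]
    exact mul_inv_eq_iff_eq_mul.1 this
  have sst : s * s ∈ zpowers t := by
    generalize s * s = k at ssK cz
    obtain ⟨w, hw, e⟩ := hπ2 _ _ ((mK k).1 ssK x xM)
    have step : ∀ a : H, k * a * k⁻¹ = a * w → k * (z * a * z⁻¹) * k⁻¹ = z * a * z⁻¹ * w :=
      fun a h => by
        calc _ = (k * z) * a * (k * z)⁻¹ := by group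
          _ = z * (k * a * k⁻¹) * z⁻¹ := by rw [cz.eq]; group
          _ = z * a * (w * z⁻¹) := by rw [h]; group
          _ = _ := by rw [← cw w hw]; group
    have e1 := step _ e
    have e2 := step _ e1
    have w1 : w = 1 := by
      rcases el _ (mem_map_of_mem π (hM.conj_mem _ x'M z)) with f | f | f | f
      · exact absurd (cj1 _ _ (cj1 _ _ f)) x1
      · refine absurd ?_ hx
        rw [← (cjE z _ _).2 f, show z * (z * (z * x * z⁻¹) * z⁻¹) * z⁻¹ =
          z ^ 3 * x * (z ^ 3)⁻¹ by simp only [pow_succ, pow_zero, one_mul]; group, z1]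
        simp
      · exact absurd ((cjE z _ _).1 f) hx
      · obtain ⟨v, hv, f⟩ := hπ2 _ _ (f.trans (map_mul π _ _).symm)
        rw [f] at e2
        generalize z * x * z⁻¹ = y at e1 e2
        have : k * (x * y * v) * k⁻¹ = x * y * v := by
          calc _ = (k * x * k⁻¹) * (k * y * k⁻¹) * (k * v * k⁻¹) := by group
            _ = x * (w * y) * w * v := by rw [e, e1, cw v hv k]; group
            _ = x * y * (w * w) * v := by rw [← cw w hw y]; group
            _ = _ := by rw [ww w hw, mul_one]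
        rw [this] at e2
        exact left_eq_mul.1 e2
    rw [w1, mul_one] at e e1
    exact cen k (mul_inv_eq_iff_eq_mul.1 e) (mul_inv_eq_iff_eq_mul.1 e1)
  have sK : s ∉ K := fun h => by
    have h1 : s * (z * s⁻¹ * z⁻¹) ∈ K := mul_mem h (nK.conj_mem _ (inv_mem h) z)
    rw [show s * (z * s⁻¹ * z⁻¹) = s * z * s⁻¹ * z⁻¹ by group, hs] at h1
    have h2 := mul_mem h1 h1
    rw [show z⁻¹ * z⁻¹ * (z⁻¹ * z⁻¹) = (z ^ 3)⁻¹ * z⁻¹ by
      simp only [pow_succ, pow_zero, one_mul]; group, z1, inv_one, one_mul] at h2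
    exact zK (inv_mem_iff.1 h2)
  obtain ⟨m, mM, hm⟩ : ∃ m ∈ M, π (s * m * s⁻¹) ≠ π m := by
    by_contra hc
    push Not at hc
    exact sK ((mK s).2 hc)
  have g2 : s * m * (s * m) = s * m * s⁻¹ * (s * s) * m := by group
  have g4 : s * m * (s * m) * (s * m * (s * m)) = t := hsq _
    (g2 ▸ mul_mem (mul_mem (hM.conj_mem m mM s) (zpowers_le.2 tM sst)) mM) fun h => hm (by
      have := (hπ _).2 h
      rw [g2, map_mul, map_mul, (hπ _).2 sst, mul_one, ← sq _ (mem_map_of_mem π mM)] at this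
      exact mul_right_cancel this)
  have : Fact (Nat.Prime 2) := ⟨Nat.prime_two⟩
  have e4 : (s * m) ^ 4 = t := by
    rw [← g4]; simp only [pow_succ, pow_zero, one_mul, mul_assoc]
  refine no8 (s * m) (orderOf_eq_prime_pow (p := 2) (n := 2) (fun h => t1 (e4.symm.trans h)) ?_)
  rw [show 2 ^ (2 + 1) = 4 + 4 by norm_num, pow_add, e4, tt]

end H92.Ah
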