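/- C3-Cand (S5227): the nine candidates for the element of order four. -/
import Cfsg.Agent.H20.C3Kit

set_option autoImplicit false
set_option linter.unusedSimpArgs false

open Subgroup H90.RF H20.C3

namespace H92.C3Cand

/-- scalar multiplication on `A` -/
def sm (k : F3) (u : Co) : Co := vv (k * u.c) (k * u.e) (k * u.f) (k * u.g) (k * u.h) (k * u.z)

/-- conjugation by `x` on `A` -/
def tx (u : Co) : Co :=
  vv u.c (u.c + u.e) (u.e + u.f) (u.c + 2 * u.e + u.g) (u.e + u.f + u.g + u.h) (u.g + 2 * u.h + u.z)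

/-- the `F₃[x]`-linear map with `c ↦ p`, `f ↦ q` -/
def LL (p q u : Co) : Co :=
  sm (u.c + 2 * u.g) p * sm (2 * u.e + 2 * u.g) (tx p) * sm (u.e + 2 * u.g) (tx (tx p)) *
    sm (2 * u.e + u.f + u.g + 2 * u.h + 2 * u.z) q * sm (2 * u.e + u.g + u.h + 2 * u.z) (tx q) *
    sm (u.e + 2 * u.g + 2 * u.z) (tx (tx q))

variable {n : Co → Co}

theorem n_sm (h : Au sA n) (k : F3) {u : Co} (hu : u ∈ sA) : n (sm k u) = sm k (n u) := by
  have a0 : ∀ u, sm 0 u = 1 := fun u => by ext <;> simp [sm, vv]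
  have a1 : ∀ u ∈ sA, sm 1 u = u := fun u hu => by simpa [sm] using (eq_vv hu).symm
  have a2 : ∀ u ∈ sA, sm (-1) u = u⁻¹ := fun u hu => by simpa [sm] using (inv_A hu).symm
  rcases tri k with rfl | rfl | rfl
  · rw [a0, a0, h.one]
  · rw [a1 _ hu, a1 _ (h.mem _ hu)]
  · rw [a2 _ hu, a2 _ (h.mem _ hu), h.inv hu]

theorem tx_eq {u : Co} (hu : u ∈ sA) : xx * u * xx⁻¹ = tx u := by
  rw [cj_A _ hu]; simp [tx, xx, uu]

theorem LL_id {u : Co} (hu : u ∈ sA) : u = LL (xc 1) (xf 1) u := by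
  obtain ⟨h1, h2, h3⟩ := hu
  ext <;> simp [LL, sm, tx, vv, xc, xf, h1, h2, h3] <;> grind

theorem n_eq (h : Au sA n) (k : Q4 n) {u : Co} (hu : u ∈ sA) : n u = LL (n (xc 1)) (n (xf 1)) u := by
  have c1 : xc 1 ∈ sA := ⟨rfl, rfl, rfl⟩
  have f1 : xf 1 ∈ sA := ⟨rfl, rfl, rfl⟩
  have t1 : ∀ u, tx u ∈ sA := fun _ => vv_mem ..
  have s1 : ∀ k u, sm k u ∈ sA := fun _ _ => vv_mem ..
  have t2 : ∀ u ∈ sA, n (tx u) = tx (n u) := fun u hu => by
    rw [← tx_eq hu, k.cx u hu, tx_eq (h.mem _ hu)]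
  conv_lhs => rw [LL_id hu]
  have m : ∀ a ∈ sA, ∀ k b, b ∈ sA → n (a * sm k b) = n a * sm k (n b) := fun a ha k b hb => by
    rw [h.mul _ ha _ (s1 _ _), n_sm h _ hb]
  have m2 := mul_mem (s1 (u.c + 2 * u.g) (xc 1)) (s1 (2 * u.e + 2 * u.g) (tx (xc 1)))
  have m3 := mul_mem m2 (s1 (u.e + 2 * u.g) (tx (tx (xc 1))))
  have m4 := mul_mem m3 (s1 (2 * u.e + u.f + u.g + 2 * u.h + 2 * u.z) (xf 1))
  rw [LL, m _ (mul_mem m4 (s1 _ _)) _ _ (t1 _), m _ m4 _ _ (t1 _), m _ m3 _ _ f1, m _ m2 _ _ (t1 _),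
    m _ (s1 _ _) _ _ (t1 _), n_sm h _ c1, t2 _ (t1 _), t2 _ (t1 _), t2 _ c1, t2 _ f1, LL]

theorem jobCand : JobCand := fun n h k => by
  have c1 : xc 1 ∈ sA := ⟨rfl, rfl, rfl⟩
  have f1 : xf 1 ∈ sA := ⟨rfl, rfl, rfl⟩
  have hL := fun u (hu : u ∈ sA) => n_eq h k hu
  have e1 := k.sq _ c1
  have e2 := k.sq _ f1
  have nd : ∀ s, ∀ u ∈ sA, cj s u ∈ sA := fun s u hu => by rw [cj, cj_A _ hu]; exact vv_mem ..
  have e3 : (cj (xd 1)⁻¹ (n (cj (xd 1)⁻¹ (n (xc 1)))))⁻¹ = n (cj (xd 1) (xc 1)) := by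
    have := congrArg n (k.cb _ (nd (xd 1) _ c1))
    rw [k.sq _ (nd _ _ (h.mem _ (nd _ _ (h.mem _ (nd _ _ (nd _ _ c1))))))] at this
    rw [← this]; simp only [cj]; group
  obtain ⟨b1, b2⟩ := k.bar _ c1
  obtain ⟨b3, b4⟩ := k.bar _ f1
  have pA := h.mem _ c1
  have qA := h.mem _ f1
  rw [hL _ pA] at e1
  rw [hL _ qA] at e2
  rw [hL _ (nd _ _ pA), hL _ (nd _ _ c1), cj, cj, cj, cj_A _ pA, cj_A _ c1] at e3
  generalize n (xc 1) = p at *
  generalize n (xf 1) = q at *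
  have a1 := congrArg Co.e e1
  have a2 := congrArg Co.f e1
  have a3 := congrArg Co.e e2
  have a4 := congrArg Co.f e2
  have a5 := congrArg Co.e e3
  have a6 := congrArg Co.f e3
  simp [lam, xc, xf] at b1 b2 b3 b4
  have b5 : p.g = p.e - p.f - 1 := by linear_combination b2
  have b6 : q.g = q.e - q.f := by linear_combination b4
  simp [LL, sm, tx, vv, xc, xf, xd, b1, b3, b5, b6] at a1 a2 a3 a4 a5 a6
  have d1 : q.e = 0 := by grind
  have d2 : p.h = -(1 + p.f) := by grind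
  have d3 : q.f = 0 := by grind
  have d4 : p.z = 1 + p.f + p.e ^ 2 := by grind
  have d5 : q.h = -p.e := by grind
  have d6 : q.z = 1 + p.f := by grind
  refine ⟨p.e, p.f, fun u hu => ?_⟩
  rw [hL u hu]
  ext <;> simp [LL, sm, tx, vv, nC, b1, b3, b5, b6, d1, d2, d3, d4, d5, d6] <;> grind

end H92.C3Cand
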