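/- C3-L2 (S5227): the levels two and three. -/
import Cfsg.Agent.H20.C3Spec

set_option autoImplicit false
set_option linter.unusedSimpArgs false

open Subgroup H90.RF H20.C3
open H90.U5 (Bq)

namespace H92.C3L2

variable {E M : Subgroup Co}

theorem two_ne : (2 : F3) ≠ 0 := by decide

theorem cmZ3 (s : Co) {m : Co} (h : m ∈ sZ3) : cm s m ∈ sZ2 := by
  obtain ⟨h1, h2, h3, h4, h5⟩ := h
  simp [mem_sZ2, cm_d, cm_e, cm_f, cm_g, h1, h2, h3, h4, h5]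

theorem cmE2 {s m : Co} (hs : s.b = 0) (hm : m.b = 0) : cm s m ∈ sW2 := by
  simp [mem_sW2, cm_d, cm_e, cm_g, hs, hm]

theorem W2Z3 : sW2 ≤ sZ3 := fun _ h => ⟨h.1, h.2.1, h.2.2.1, h.2.2.2.1, h.2.2.2.2.1⟩

theorem cmY {s m : Co} (hs : s.c = 0) (h : m ∈ sY) : cm s m ∈ sZ2 := by
  obtain ⟨h1, h2, h3, h4⟩ := h
  simp [mem_sZ2, cm_d, cm_e, cm_f, cm_g, h1, h2, h3, h4, hs]

theorem leE1 (h : Bq 3 zA 2 E M) : M ≤ sE1 := by
  have z3 : sZ3 ≤ E := h.le.trans h.ME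
  have z2 : sZ2 ≤ E := fun u hu => z3 ⟨hu.1, hu.2.1, hu.2.2.1, hu.2.2.2.1, hu.2.2.2.2.1⟩
  refine (h.min (X := E ⊓ sE1) (le_inf z3 fun u (hu : u ∈ sZ3) => hu.1) fun β hβ c hc => ?_).trans
    inf_le_right
  refine ⟨hβ.1.mem c hc.1, ?_⟩
  have := hβ.1.cm_mem (U := ⊥) z2 (hβ.2 2 le_rfl) (hβ.2 0 (by omega)) hc.1 (fun y hy => by
    obtain ⟨h1, h2, h3, h4, h5, h6, h7⟩ := hy
    have : c.a = 0 := hc.2
    rw [mem_bot]
    ext <;> simp [cm_d, cm_e, cm_f, cm_g, cm_h, cm_z, *]) (xh 1) (by simp [mem_sZ2, xh])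
  have := congrArg Co.z (mem_bot.1 this)
  show (β c).a = 0
  simpa [cm_z, xh, two_ne] using this

theorem leD (h : Bq 3 zA 2 E M) : M ≤ sD := fun m hm => by
  have ma : m.a = 0 := leE1 h hm
  refine ⟨ma, by_contra fun hb => ?_⟩
  have mc : m.c = 0 := by
    have : (m ^ 3).g = 0 := (show m ^ 3 ∈ sZ2 from h.pw m hm).2.2.2.2.2.2
    simp only [pow_succ, pow_zero, one_mul, Co.mul_g, Co.mul_b, Co.mul_c] at this
    refine (mul_eq_zero.1 (?_ : m.b ^ 2 * m.c = 0)).resolve_left (pow_ne_zero 2 hb)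
    linear_combination -this + (m.g + 2 * m.b * m.e + 2 * m.b ^ 2 * m.c) * three
  have hE : ∀ s, s ∈ E → s.a = 0 ∧ s.c = 0 ∧ s.e = m.e * m.b * s.b := fun s hs => by
    obtain ⟨-, -, h1, -, h2, -, h3⟩ : cm s m ∈ sZ2 := (h.cen s).1 hs m hm
    simp only [cm_d, cm_e, cm_g, ma, mc] at h1 h2 h3
    have a1 : s.a = 0 := by simpa [hb] using h1
    have a2 : s.c = 0 := by simpa [hb] using h2
    refine ⟨a1, a2, ?_⟩
    rw [a2] at h3
    linear_combination m.b * h3 - s.e * sq_one hb + (m.b ^ 2 * s.e - m.e * m.b * s.b) * three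
  have hE' : ∀ s : Co, s.a = 0 → s.c = 0 → s.e = m.e * m.b * s.b → s ∈ E := fun s a1 a2 a3 =>
    (h.cen s).2 fun m' hm' => by
      obtain ⟨b1, b2, b3⟩ := hE m' (h.ME hm')
      show _ ∈ sZ2
      simp only [mem_sZ2, cm_a, cm_b, cm_c, cm_d, cm_e, cm_f, cm_g, a1, a2, a3, b1, b2, b3]
      refine ⟨trivial, trivial, ?_, trivial, ?_, ?_, ?_⟩ <;> ring
  have hY : ∀ s ∈ sE3, ∀ c ∈ E, cm s c ∈ sY := fun s hs c hc => by
    simp [mem_sY, cm_e, show s.c = 0 from hs, (hE c hc).2.1]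
  refine h.no2 (B := sE3) (le_nor fun s hs c hc => ?_) (fun x hx y hy m' hm' => cmY hx (hY y hy _ (h.ME hm')))
    (s := xa 1) rfl (fun a => by simpa [xa] using (hE _ a).1) (κ := F3)
    (fun x y => ⟨x, 0, 0, 0, y, 0, 0, 0, 0⟩) (fun k => ⟨0, 0, k, 0, 0, m.e * m.b * k, 0, 0, 0⟩)
    (fun _ _ => rfl) (fun x y x' y' a => ?_) fun m' hm' => ⟨m'.b, ?_⟩
  · obtain ⟨a1, a2, a3, a4⟩ := hY s hs c hc
    exact hE' _ a1 a3 (by rw [a4, a2, mul_zero])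
  · obtain ⟨a1, -, a3⟩ := hE _ a
    simp at a1 a3
    exact ⟨by linear_combination -a1, by linear_combination -a3⟩
  · obtain ⟨b1, b2, b3⟩ := hE m' (h.ME hm')
    show _ ∈ sZ2
    simp [mem_sZ2, cm_d, cm_e, cm_f, cm_g, xa, b1, b2, b3]

/-- the perpendicular of `m` in `E₂` -/
def pX (m : Co) : Subgroup Co where
  carrier := {t | t.b = 0 ∧ m.c * t.d - m.d * t.c + m.e * t.a = 0}
  one_mem' := by simp
  mul_mem' := fun {u w} hu hw => ⟨by simp [hu.1, hw.1], by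
    simp only [Co.mul_a, Co.mul_d, Co.mul_c, hw.1]; linear_combination hu.2 + hw.2⟩
  inv_mem' := fun {u} hu => ⟨by simp [hu.1], by
    simp only [Co.inv_a, Co.inv_d, Co.inv_c, hu.1]; linear_combination -hu.2⟩

theorem mem_pX {m t : Co} : t ∈ pX m ↔ t.b = 0 ∧ m.c * t.d - m.d * t.c + m.e * t.a = 0 := Iff.rfl

theorem noY (h : Bq 3 zA 2 E M) {m : Co} (hm : m ∈ M) (x : F3 → Co) (hx : ∀ k, (x k).b = 0)
    (h1 : x 1 ∉ pX m) (inj : ∀ k l, (x k)⁻¹ * x l ∈ pX m → k = l) (hb : ∀ s ∈ E, s.b = 0) {t t' : Co}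
    (ht : t ∈ pX m) (ht' : t' ∈ pX m) (hf : (cm t t').f ≠ 0) : False := by
  have z3 : sZ3 ≤ E := h.le.trans h.ME
  obtain ⟨ma, mb⟩ := leD h hm
  have hX : ∀ s ∈ E, s ∈ pX m := fun s hs => ⟨hb s hs, by
    have : (cm s m).f = 0 := (show cm s m ∈ sZ2 from (h.cen s).1 hs m hm).2.2.2.2.2.1
    simpa [cm_f, ma, mb] using this⟩
  have hN : sE2 ≤ normalizer (E : Set Co) := le_nor fun s hs c hc => z3 (W2Z3 (cmE2 hs (hb c hc)))
  have xE : x 1 ∉ E := fun a => h1 (hX _ a)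
  have XE : pX m ≤ E := h.full (B := sE2) hN
    (fun a _ y hy m' hm' => cmZ3 a (W2Z3 (cmE2 hy (hb _ (h.ME hm'))))) (hx 1) xE
    (fun s _ hs => hX s hs) (fun _ a => a.1) x xf hx inj fun m' hm' => ⟨(cm (x 1) m').f, by
      obtain ⟨a1, a2, a3, a4, a5, a6⟩ := cmE2 (hx 1) (hb _ (h.ME hm'))
      show _ ∈ sZ2
      simp [mem_sZ2, xf, a3, a5, a6]⟩
  have Z2W : sZ2 ≤ sW2 := fun u hu => ⟨hu.1, hu.2.1, hu.2.2.1, hu.2.2.2.1, hu.2.2.2.2.1, hu.2.2.2.2.2.2⟩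
  have WE : sW2 ≤ E := W2Z3.trans z3
  refine xE (h.red sW2 Z2W WE (fun β hβ u hu => ?_) _ (hN (hx 1))
    (fun m' hm' => cmE2 (hx 1) (hb _ (h.ME hm'))) fun m' _ a => cmZ3 _ (W2Z3 a))
  have w1 := cmE2 ht.1 ht'.1
  have w2 : β (cm t t') ∈ sW2 := by
    rw [hβ.1.cm (XE ht) (XE ht')]
    exact cmE2 (hb _ (hβ.1.mem _ (XE ht))) (hb _ (hβ.1.mem _ (XE ht')))
  have k : ∀ w ∈ sW2, β w ∈ sW2 → w.f + u.f = 0 → β u ∈ sW2 := fun w a1 a2 a3 => by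
    have : w * u ∈ sZ2 := by
      obtain ⟨b1, b2, b3, b4, b5, b6⟩ := a1
      obtain ⟨c1, c2, c3, c4, c5, c6⟩ := hu
      simp [mem_sZ2, *]
    have := Z2W (hβ.2 2 le_rfl _ this)
    rw [hβ.1.mul _ (WE a1) _ (WE hu)] at this
    exact (mul_mem_cancel_left a2).1 this
  have e : u.f = 0 ∨ (cm t t').f + u.f = 0 ∨ -(cm t t').f + u.f = 0 := by
    revert hf; generalize (cm t t').f = p; generalize u.f = q; revert p q; decide
  rcases e with e | e | e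
  · exact k 1 (one_mem _) (by rw [hβ.1.one]; exact one_mem _) (by simpa using e)
  · exact k _ w1 w2 e
  · refine k _ (inv_mem w1) (by rw [hβ.1.inv (WE w1)]; exact inv_mem w2) ?_
    simpa [w1.2.2.1, w1.2.2.2.2.1] using e

theorem leY (h : Bq 3 zA 2 E M) : M ≤ sY := fun m hm => by
  obtain ⟨ma, mb⟩ := leD h hm
  have hb : ∀ s ∈ E, m.c * s.b = 0 ∧ 2 * m.e * s.b + m.c * s.b ^ 2 = 0 := fun s hs => by
    obtain ⟨-, -, -, -, h2, -, h3⟩ : cm s m ∈ sZ2 := (h.cen s).1 hs m hm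
    exact ⟨by simpa [cm_e, mb] using h2, by simpa [cm_g, mb] using h3⟩
  have mc : m.c = 0 := by_contra fun hc =>
    noY h hm xd (fun _ => rfl) (by simpa [mem_pX, xd] using hc)
      (fun k l a => by
        have := a.2
        simp [xd, hc] at this
        linear_combination -this)
      (fun s hs => (mul_eq_zero.1 (hb s hs).1).resolve_left hc) (t := xe 1)
      (t' := ⟨1, 0, -(m.e * m.c), 0, 0, 0, 0, 0, 0⟩) (by simp [mem_pX, xe])
      ⟨rfl, by simp only []; linear_combination -m.e * sq_one hc⟩ (by simp [cm_f, xe])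
  refine ⟨ma, mb, mc, by_contra fun he => ?_⟩
  exact noY h hm xa (fun _ => rfl) (by simpa [mem_pX, xa] using he)
    (fun k l a => by
      have := a.2
      simp [xa, he] at this
      linear_combination -this)
    (fun s hs => by simpa [mc, he, two_ne] using (hb s hs).2) (t := xd 1)
    (t' := ⟨m.d * m.e, 0, 0, 1, 0, 0, 0, 0, 0⟩) (by simp [mem_pX, xd, mc])
    ⟨rfl, by simp only []; linear_combination m.d * sq_one he⟩ (by simp [cm_f, xd])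

theorem l2 (h : Bq 3 zA 2 E M) : E = sE3 := by
  refine le_antisymm (fun s hs => ?_) fun s hs => (h.cen s).2 fun m hm => cmY hs (leY h hm)
  obtain ⟨m, hm, h1⟩ := SetLike.not_le_iff_exists.1 (h.not_le (X := sZ3) fun c hc s => cmZ3 s hc)
  obtain ⟨a1, a2, a3, a4⟩ := leY h hm
  have hd : m.d ≠ 0 := fun e => h1 ⟨a1, a2, e, a3, a4⟩
  have : (cm s m).f = 0 := (show cm s m ∈ sZ2 from (h.cen s).1 hs m hm).2.2.2.2.2.1
  show s.c = 0
  simpa [cm_f, a1, a2, a3, a4, hd] using this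

theorem l3 (h : Bq 3 zA 3 E M) : E = sE2 := by
  have z4 : sZ4 ≤ E := h.le.trans h.ME
  have z3 : sZ3 ≤ E := fun u hu => z4 ⟨hu.1, hu.2.1, hu.2.2.2.1⟩
  have hD : M ≤ sD := by
    refine (h.min (X := E ⊓ sD) (le_inf z4 fun u (hu : u ∈ sZ4) => ⟨hu.1, hu.2.1⟩)
      fun β hβ c hc => ?_).trans inf_le_right
    refine ⟨hβ.1.mem c hc.1, ?_⟩
    have := hβ.1.cm_mem (U := sZ) z3 (hβ.2 3 le_rfl) (hβ.2 1 (by omega)) hc.1 fun y hy => by
      obtain ⟨h1, h2, h3, h4, h5⟩ := hy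
      obtain ⟨h6, h7⟩ : c ∈ sD := hc.2
      simp [mem_sZ, cm_d, cm_e, cm_f, cm_g, cm_h, *]
    exact ⟨by simpa [cm_h, xg] using (this (xg 1) (by simp [mem_sZ3, xg])).2.2.2.2.2.2.2,
      by simpa [cm_h, xf] using (this (xf 1) (by simp [mem_sZ3, xf])).2.2.2.2.2.2.2⟩
  refine le_antisymm (fun s hs => ?_) fun s hs => (h.cen s).2 fun m hm => W2Z3 (cmE2 hs (hD hm).2)
  obtain ⟨m, hm, h1⟩ := SetLike.not_le_iff_exists.1 (h.not_le (X := sZ4) fun c hc s => by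
    show _ ∈ sZ3
    simp [mem_sZ3, cm_d, cm_e, hc.1, hc.2.1, hc.2.2])
  obtain ⟨a1, a2⟩ := hD hm
  have hc : m.c ≠ 0 := fun e => h1 ⟨a1, a2, e⟩
  have : (cm s m).e = 0 := (show cm s m ∈ sZ3 from (h.cen s).1 hs m hm).2.2.2.2
  show s.b = 0
  simpa [cm_e, a2, hc] using this

theorem jobL2 : H20.C3.JobL2 := ⟨fun _ _ => l2, fun _ _ => l3⟩

end H92.C3L2

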