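import Cfsg.Agent.H48.DP3Kit

/-! Tower DP3, job Pt. -/

set_option autoImplicit false

namespace H92.DP3

open Subgroup Cfsg H98 H97 H48.DP

universe u

theorem jobPt : JobPt.{u} := by
  intro G _ _ T P R L z y h hz hP hR hy ho hl
  have hW : ∀ l ∈ L, ∀ w ∈ Zq L, l * w * l⁻¹ ∈ Zq L := fun l hl w hw =>
    conj_mem_of_mem_normalizer (le_No_Zq L hl) hw
  have hsq : ∀ w ∈ Zq L, w * w = 1 := fun w hw => by
    rw [← pow_two]; exact (mem_oZ.1 hw).2.2
  have hcm : ∀ w ∈ Zq L, ∀ w' ∈ Zq L, w * w' = w' * w := fun w hw w' hw' =>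
    mem_centralizer_iff.1 (oZ_le_centralizer _ hw') w (oZ_le _ hw)
  have hfix : ∀ p ∈ P, p * z * p⁻¹ = z := fun p hp => by
    rw [← mem_C1.1 (hP hp), mul_inv_cancel_right]
  have hTP := h.h1.s3.le
  have hRL := h.h2.leL
  have hPL := h.h1.leL
  have hyT := h.h2.s3.not_mem ho
  set v := y * z * y⁻¹ with hv
  have hvW : v ∈ Zq L := hW y (hRL hy) z hz
  have hvz : v ≠ z := fun e => hR (h.h2.s3.le_of (hTP.trans hP)
    (mem_C1.2 (by rw [← mul_inv_eq_iff_eq_mul.1 e])) hy hyT)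
  have hv1 : v ≠ 1 := fun e => hvz (by
    have : z = 1 := by simpa [hv] using e
    rw [e, this])
  have hy2 : y ^ 2 * z * (y ^ 2)⁻¹ = z * v := by
    rw [← mul_right_inj (z * v), hl, hsq _ (mul_mem hz hvW)]
  have hRz : ∀ g ∈ R, g * z * g⁻¹ = z ∨ g * z * g⁻¹ = v ∨ g * z * g⁻¹ = z * v := fun g hg => by
    rcases h.h2.s3.cover hy ho hg with h1 | h1 | h1
    · exact Or.inl (hfix g (hTP h1))
    · refine Or.inr (Or.inl ?_)
      rw [hv, ← congrArg (fun a => y * a * y⁻¹) (hfix _ (hTP h1))]; group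
    · refine Or.inr (Or.inr ?_)
      rw [← hy2, ← congrArg (fun a => y ^ 2 * a * (y ^ 2)⁻¹) (hfix _ (hTP h1))]; group
  have hTv : ∀ t ∈ T, t * v * t⁻¹ = v ∨ t * v * t⁻¹ = z * v := fun t ht => by
    have e : t * v * t⁻¹ = t * y * z * (t * y)⁻¹ := by rw [hv]; group
    rcases hRz _ (mul_mem (h.h2.s3.le ht) hy) with h1 | h1
    · rw [← e, ← hfix t (hTP ht)] at h1
      exact (hvz (by simpa using h1)).elim
    · rwa [← e] at h1
  have hbru : ∀ l ∈ L, l * z * l⁻¹ = z ∨ ∃ p ∈ P, l * z * l⁻¹ = p * v * p⁻¹ := fun l hl => by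
    rcases h.h1.bru y hy hyT l hl with h1 | ⟨p, hp, p', hp', rfl⟩
    · exact Or.inl (hfix l h1)
    · refine Or.inr ⟨p, hp, ?_⟩
      rw [hv, ← congrArg (fun a => p * (y * a * y⁻¹) * p⁻¹) (hfix _ hp')]; group
  have hzv : ∀ p ∈ P, p * (z * v) * p⁻¹ = z * (p * v * p⁻¹) := fun p hp => by
    conv_rhs => rw [← hfix p hp]
    group
  have hmul : ∀ a ∈ L, ∀ b ∈ L, a * z * a⁻¹ * (b * z * b⁻¹) = 1 ∨
      ∃ l ∈ L, a * z * a⁻¹ * (b * z * b⁻¹) = l * z * l⁻¹ := fun a ha b hb => by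
    have e : a * z * a⁻¹ * (b * z * b⁻¹) = a * (z * (a⁻¹ * b * z * (a⁻¹ * b)⁻¹)) * a⁻¹ := by group
    rw [e]
    rcases hbru _ (mul_mem (inv_mem ha) hb) with h1 | ⟨p, hp, h1⟩
    · left; rw [h1, hsq z hz]; simp
    · refine Or.inr ⟨a * p * y ^ 2, mul_mem (mul_mem ha (hPL hp)) (pow_mem (hRL hy) 2), ?_⟩
      rw [h1, ← hzv p hp, ← hy2]; group
  refine ⟨?_, ?_⟩
  · obtain ⟨x, hx, hxo⟩ := h.h1.s3.exists_three
    have hx3 := pow_three_of hxo
    have hnc : x * v * x⁻¹ ≠ v := fun e => by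
      have hD : ∀ g : G, g * z * g⁻¹ ∈ closure ({z, v} : Set G) →
          g * v * g⁻¹ ∈ closure ({z, v} : Set G) → g ∈ No (closure {z, v}) := fun g h1 h2 => by
        refine mem_normalizer_of_cj_le (cj_le_iff.2 ((closure_le _).2 ?_))
        rintro _ (rfl | rfl) <;> exact mem_cj.2 (by rwa [inv_inv])
      have m1 : z ∈ closure ({z, v} : Set G) := subset_closure (by simp)
      have m2 : v ∈ closure ({z, v} : Set G) := subset_closure (by simp)
      have hR1 : ∀ g ∈ R, g * z * g⁻¹ ∈ closure ({z, v} : Set G) := fun g hg => by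
        rcases hRz g hg with h1 | h1 | h1 <;> rw [h1]
        exacts [m1, m2, mul_mem m1 m2]
      have hRn : R ≤ No (closure {z, v}) := fun g hg => hD g (hR1 g hg) (by
        have := hR1 _ (mul_mem hg hy)
        rwa [show g * y * z * (g * y)⁻¹ = g * v * g⁻¹ by rw [hv]; group] at this)
      have hPn : P ≤ No (closure {z, v}) := h.h1.s3.le_of (h.h2.s3.le.trans hRn)
        (hD x (by rwa [hfix x hx]) (by rwa [e])) hx (h.h1.s3.not_mem hxo)
      have hLn : L ≤ No (closure {z, v}) := by rw [h.eq]; exact sup_le hPn hRn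
      have hDW : closure ({z, v} : Set G) ≤ Zq L := (closure_le _).2 (by
        rintro _ (rfl | rfl)
        exacts [hz, hvW])
      have hxc : x ∈ Ce (closure {z, v}) := by
        have : closure ({z, v} : Set G) ≤ C1 x := (closure_le _).2 (by
          rintro _ (rfl | rfl)
          · exact mem_C1.2 (mul_inv_eq_iff_eq_mul.1 (hfix x hx))
          · exact mem_C1.2 (mul_inv_eq_iff_eq_mul.1 e))
        exact mem_Ce.2 fun a ha => (mem_C1.1 (this ha)).symm
      have := h.le_of_mem ((le_centralizer_oZ _).trans (centralizer_anti hDW))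
        (le_normalizer_centralizer hLn) hxc (hPL hx) fun hq => h.h1.s3.not_mem hxo (h.o2_le hq)
      exact hvz (by rw [hv, ← mem_Ce.1 (this (hRL hy)) z m1, mul_inv_cancel_right])
    have hv1W := hW x (hPL hx) v hvW
    have hv2W := hW _ (pow_mem (hPL hx) 2) v hvW
    have n1 : x * v * x⁻¹ ≠ 1 := fun e => hv1 (by simpa using e)
    have n2 : x * v * x⁻¹ ≠ z := fun e => hvz (by
      rw [← hfix x hx] at e; simpa using e)
    have hP3 : ∀ p ∈ P, ∃ g, (g = 1 ∨ g = x ∨ g = x ^ 2) ∧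
        (p * v * p⁻¹ = g * v * g⁻¹ ∨ p * v * p⁻¹ = z * (g * v * g⁻¹)) := fun p hp => by
      have key : ∀ g ∈ P, g⁻¹ * p ∈ T →
          (p * v * p⁻¹ = g * v * g⁻¹ ∨ p * v * p⁻¹ = z * (g * v * g⁻¹)) := fun g hg ht => by
        have e : p * v * p⁻¹ = g * (g⁻¹ * p * v * (g⁻¹ * p)⁻¹) * g⁻¹ := by group
        rcases hTv _ ht with h1 | h1
        · left; rw [e, h1]
        · right; rw [e, h1, hzv g hg]
      rcases h.h1.s3.cover hx hxo hp with h1 | h1 | h1
      · exact ⟨1, Or.inl rfl, key 1 (one_mem _) (by simpa using h1)⟩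
      · exact ⟨x, Or.inr (Or.inl rfl), key x hx h1⟩
      · exact ⟨x ^ 2, Or.inr (Or.inr rfl), key _ (pow_mem hx 2) h1⟩
    refine ⟨x, hx, hxo, ?_⟩
    have e0 := hmul y (hRL hy) (x * y) (mul_mem (hPL hx) (hRL hy))
    rw [show x * y * z * (x * y)⁻¹ = x * v * x⁻¹ by rw [hv]; group, ← hv] at e0
    rcases e0 with h1 | ⟨l, hl, h1⟩
    · exact (hnc (by rw [← mul_right_inj v, h1, hsq v hvW])).elim
    rcases hbru l hl with h2 | ⟨p, hp, h2⟩
    · rw [h2] at h1
      have e1 : x * v * x⁻¹ = z * v := by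
        rw [← mul_right_inj v, h1, hcm z hz v hvW, ← mul_assoc, hsq v hvW, one_mul]
      have e2 : x * (x * v * x⁻¹) * x⁻¹ = v := by
        rw [e1, hzv x hx, e1, ← mul_assoc, hsq z hz, one_mul]
      refine (hnc ?_).elim
      calc x * v * x⁻¹ = x * (x * (x * v * x⁻¹) * x⁻¹) * x⁻¹ := by rw [e2]
        _ = x ^ 3 * v * (x ^ 3)⁻¹ := by rw [pow_three']; simp only [mul_inv_rev, mul_assoc]
        _ = v := by rw [hx3]; simp
    obtain ⟨g, hg, h3⟩ := hP3 p hp
    rw [← h2, ← h1] at h3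
    rcases hg with rfl | rfl | rfl
    · simp only [one_mul, inv_one, mul_one] at h3
      rcases h3 with h3 | h3
      · exact (n1 (by simpa using h3)).elim
      · rw [hcm z hz v hvW] at h3
        exact (n2 (mul_left_cancel h3)).elim
    · rcases h3 with h3 | h3
      · exact (hv1 (mul_eq_right.1 h3)).elim
      · exact (hvz (mul_right_cancel h3)).elim
    · rcases h3 with h3 | h3
      · rw [h3, hsq _ hv2W]; exact one_mem _
      · rw [h3, mul_assoc z, hsq _ hv2W, mul_one]; exact mem_zpowers z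
  · let K : Subgroup G :=
      { carrier := {w | w = 1 ∨ ∃ l ∈ L, w = l * z * l⁻¹}
        one_mem' := Or.inl rfl
        mul_mem' := by
          rintro _ _ (rfl | ⟨a, ha, rfl⟩) (rfl | ⟨b, hb, rfl⟩)
          · exact Or.inl (one_mul _)
          · exact Or.inr ⟨b, hb, one_mul _⟩
          · exact Or.inr ⟨a, ha, mul_one _⟩
          · exact hmul a ha b hb
        inv_mem' := by
          rintro _ (rfl | ⟨a, ha, rfl⟩)
          · exact Or.inl inv_one
          · exact Or.inr ⟨a, ha, inv_eq_of_mul_eq_one_right (hsq _ (hW a ha z hz))⟩ }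
    have : ncl L (zpowers z) ≤ K := ncl_le_iff.2 fun g hg => cj_le_iff.2 (zpowers_le.2
      (mem_cj.2 (Or.inr ⟨g, hg, by rw [inv_inv]⟩)))
    exact fun w hw => this hw

end H92.DP3
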