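import Cfsg.Agent.H2.DiSpec

/-! S3572 (dihedral groups are B-groups), slot N: Fourier numerics. -/

set_option autoImplicit false
set_option maxRecDepth 100000
set_option synthInstance.maxSize 2048
set_option linter.unusedSectionVars false

namespace H92.DiN

open DihedralGroup H2.Di Finset ZMod

variable {m : ℕ} [NeZero m]

theorem sum_D (f : DihedralGroup m → ℤ) : ∑ g, f g = ∑ y, f (r y) + ∑ y, f (sr y) := by
  rw [← equivSum.symm.sum_comp, Fintype.sum_sum_type]; rfl

/-- coefficients of rotations -/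
def c1 (A B : ZMod m → ℤ) (c : ZMod m) : ℤ := ∑ y, A y * A (c - y) + ∑ y, B y * B (y + c)
/-- coefficients of reflections -/
def c2 (A B : ZMod m → ℤ) (c : ZMod m) : ℤ := ∑ y, A y * B (y + c) + ∑ y, B y * A (c - y)

theorem cv_r (K : DihedralGroup m → ℤ) (c : ZMod m) :
    cv K K (r c) = c1 (fun y => K (r y)) (fun y => K (sr y)) c := by
  simp [cv, sum_D, c1, sub_eq_neg_add]

theorem cv_sr (K : DihedralGroup m → ℤ) (c : ZMod m) :
    cv K K (sr c) = c2 (fun y => K (r y)) (fun y => K (sr y)) c := by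
  simp [cv, sum_D, c2, add_comm]

/-- Fourier transform -/
noncomputable def ft (X : ZMod m → ℤ) (j : ZMod m) : ℂ := ∑ y, (X y : ℂ) * stdAddChar (y * j)

theorem orth (j : ZMod m) : ∑ y : ZMod m, stdAddChar (y * j) = if j = 0 then (m : ℂ) else 0 := by
  rw [AddChar.sum_mulShift _ (isPrimitive_stdAddChar m), ZMod.card]; simp

theorem ft_zero (X : ZMod m → ℤ) : ft X 0 = (∑ y, X y : ℤ) := by simp [ft]

theorem ft_add (X Y : ZMod m → ℤ) (j : ZMod m) : ft (fun c => X c + Y c) j = ft X j + ft Y j := by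
  simp [ft, add_mul, sum_add_distrib]

theorem ft_conv (X Y : ZMod m → ℤ) (j : ZMod m) :
    ft (fun c => ∑ y, X y * Y (c - y)) j = ft X j * ft Y j := by
  simp only [ft, Int.cast_sum, sum_mul, Int.cast_mul]
  rw [sum_comm]
  refine sum_congr rfl fun y _ => ?_
  rw [mul_sum, ← Equiv.sum_comp (Equiv.addRight y)]
  refine sum_congr rfl fun z _ => ?_
  simp only [Equiv.coe_addRight, add_sub_cancel_right, add_mul, AddChar.map_add_eq_mul]
  ring

theorem ft_neg (X : ZMod m → ℤ) (j : ZMod m) : ft X (-j) = ft (fun y => X (-y)) j := by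
  rw [ft, ← Equiv.sum_comp (Equiv.neg _)]; simp [ft]

theorem ft_corr (X Y : ZMod m → ℤ) (j : ZMod m) :
    ft (fun c => ∑ y, X y * Y (y + c)) j = ft X (-j) * ft Y j := by
  rw [ft_neg, ← ft_conv]
  congr 1
  funext c
  rw [← Equiv.sum_comp (Equiv.neg _)]
  simp [sub_eq_neg_add]

theorem ft_const (μ : ℤ) (j : ZMod m) : ft (fun _ => μ) j = if j = 0 then (μ * m : ℂ) else 0 := by
  rw [ft, ← mul_sum, orth]; simp

theorem ft_dl (n : ℤ) (j : ZMod m) : ft (fun c => if c = 0 then n else 0) j = n := by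
  simp [ft]

theorem parseval (X : ZMod m → ℤ) : ∑ j, ft X j = m * X 0 := by
  simp only [ft]
  rw [sum_comm]
  rw [sum_congr rfl fun y _ => show ∑ j, (X y : ℂ) * stdAddChar (y * j) =
    X y * if y = 0 then (m : ℂ) else 0 by simp only [← mul_sum, mul_comm y, orth]]
  simp [mul_comm]

theorem ft_norm {X : ZMod m → ℤ} (h : ∀ y, 0 ≤ X y) (j : ZMod m) : ‖ft X j‖ ≤ (∑ y, X y : ℤ) := by
  refine (norm_sum_le _ _).trans (le_of_eq ?_)
  push_cast
  refine sum_congr rfl fun y _ => ?_
  rw [norm_mul, stdAddChar_apply, Circle.norm_coe, mul_one, Complex.norm_intCast, abs_of_nonneg]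
  exact_mod_cast h y

theorem ft_compl (X : ZMod m → ℤ) {j : ZMod m} (hj : j ≠ 0) : ft (fun y => 1 - X y) j = -ft X j := by
  have := ft_add (fun y => 1 - X y) X j
  simp only [sub_add_cancel, ft_const, if_neg hj] at this
  exact eq_neg_of_add_eq_zero_left this.symm

theorem ft_shift {X : ZMod m → ℤ} {d j : ZMod m} (h : ∀ c, X (c + d) = X c) (hj : ft X j ≠ 0) :
    j * d = 0 := by
  have : ft X j = ft X j * stdAddChar (d * j) := by
    conv_lhs => rw [ft, ← Equiv.sum_comp (Equiv.addRight d)]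
    simp [ft, h, add_mul, AddChar.map_add_eq_mul, sum_mul, mul_assoc]
  rw [left_eq_mul₀ hj, ← AddChar.map_zero_eq_one (stdAddChar (N := m))] at this
  rw [mul_comm, injective_stdAddChar this]

theorem ft_supp {X : ZMod m → ℤ} {e : ZMod m} (h : ∀ c, e * c ≠ 0 → X c = 0) :
    ft X e = (∑ y, X y : ℤ) := by
  rw [ft, Int.cast_sum]
  refine sum_congr rfl fun y _ => ?_
  by_cases e0 : e * y = 0
  · simp [mul_comm y, e0]
  · simp [h y e0]

theorem card_ker (d : ZMod m) : #{j : ZMod m | j * d = 0} * addOrderOf d = m := by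
  have h1 := (AddMonoidHom.mulRight d).ker.card_mul_index
  have h2 : (AddMonoidHom.mulRight d).range = AddSubgroup.zmultiples d := by
    ext x
    refine ⟨?_, ?_⟩
    · rintro ⟨j, rfl⟩
      exact ⟨j.val, by simp⟩
    · rintro ⟨k, rfl⟩
      exact ⟨k, by simp⟩
  rw [AddSubgroup.index_ker, h2, Nat.card_zmultiples, Nat.card_zmod] at h1
  rw [← Fintype.card_subtype, ← Nat.card_eq_fintype_card]
  exact h1

theorem num2 {a b M N : ℤ} (h1 : (a - b) ^ 2 = a ^ 2) (h2 : b * (M - b) = a ^ 2 * (M - 1 - N))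
    (h3 : a * (M - a) = a ^ 2 * N) (a0 : 0 < a) (h4 : 2 * (N + 1) ≤ M) (N0 : 0 ≤ N) : M = 8 := by
  have h5 : M = a * (N + 1) := mul_left_cancel₀ a0.ne' (by linear_combination h3)
  have h6 : 2 ≤ a := by nlinarith
  rcases mul_eq_zero.1 (show b * (b - 2 * a) = 0 by linear_combination h1) with e | e
  · rw [e, zero_mul] at h2
    have := (mul_eq_zero.1 h2.symm).resolve_left (by positivity)
    omega
  · have h7 : (N + 1) * (3 - a) = 4 := mul_left_cancel₀ (pow_pos a0 2).ne' (by
      rw [show b = 2 * a by omega, h5] at h2; linear_combination h2)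
    have h8 : a = 2 := by nlinarith
    subst h8
    omega

theorem eight : ∀ α : ZMod 8 → Bool, (∀ c, α (-c) = α c) → α 0 = false → (∃ c, α c = true) →
    (∀ c, α (c + 4) = α c) → ∀ β : ZMod 8 → Bool, ¬ ∀ c,
      c2 (fun y => if α y then 1 else 0) (fun y => if β y then 1 else 0) c =
        c1 (fun y => if α y then 1 else 0) (fun y => if β y then 1 else 0) 1 ∧
      (c ≠ 0 → c1 (fun y => if α y then 1 else 0) (fun y => if β y then 1 else 0) c =
        c1 (fun y => if α y then 1 else 0) (fun y => if β y then 1 else 0) 1) := by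
  decide +kernel

theorem main (A B : ZMod m → ℤ) (p : ℕ) (d : ZMod m) (μ : ℤ) (hp : p.Prime) (hd : addOrderOf d = p)
    (hA : ∀ y, A y = 0 ∨ A y = 1) (hB : ∀ y, B y = 0 ∨ B y = 1) (hs : ∀ c, A (-c) = A c)
    (h0 : A 0 = 0) (h1 : ∃ c, A c = 1) (hi : ∀ c, A (c + d) = A c) (e1 : ∀ c, c ≠ 0 → c1 A B c = μ)
    (e2 : ∀ c, c2 A B c = μ) (hc : p ≠ 2 ∨ ∃ e : ZMod m, e ≠ 0 ∧ ∃ v, ∀ c, e * c ≠ 0 → A c = v) :
    False := by
  classical
  have sq : ∀ {X : ZMod m → ℤ}, (∀ y, X y = 0 ∨ X y = 1) → ∑ y, X y * X y = ∑ y, X y := fun h =>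
    sum_congr rfl fun y _ => by rcases h y with e | e <;> simp [e]
  have A0 : ∀ y, 0 ≤ A y := fun y => by rcases hA y with e | e <;> simp [e]
  have A1 : ∀ y, 0 ≤ 1 - A y := fun y => by rcases hA y with e | e <;> simp [e]
  have sc : ∑ y, (1 - A y) = m - ∑ y, A y := by simp
  have a0 : 0 < ∑ y, A y := h1.elim fun c e =>
    sum_pos' (fun y _ => A0 y) ⟨c, mem_univ _, by simp [e]⟩
  have a1 : 0 < m - ∑ y, A y := sc ▸ sum_pos' (fun y _ => A1 y) ⟨0, mem_univ _, by simp [h0]⟩
  have fn : ∀ j, ft A (-j) = ft A j := fun j => by simp [ft_neg, hs]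
  obtain ⟨n, hn⟩ : ∃ n, n = ∑ y, A y + ∑ y, B y - μ := ⟨_, rfl⟩
  have f1 : ∀ j, ft A j * ft A j + ft B (-j) * ft B j = n + if j = 0 then (μ * m : ℂ) else 0 :=
    fun j => by
      rw [← ft_conv, ← ft_corr, ← ft_add, ← ft_const, ← ft_dl n j, ← ft_add]
      congr 1
      funext c
      by_cases c0 : c = 0
      · simp [c0, hs, sq hA, sq hB, hn]
      · simpa [c0, c1] using e1 c c0
  have f2 : ∀ j, 2 * (ft A j * ft B j) = if j = 0 then (μ * m : ℂ) else 0 := fun j => by
    rw [← ft_const, ← show c2 A B = fun _ => μ from funext e2, show c2 A B = fun c => _ + _ from rfl,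
      ft_add, ft_conv, ft_corr, fn]
    ring
  have f3 : ∀ j, j ≠ 0 → ft A j ≠ 0 → ft A j * ft A j = n := fun j hj h => by
    have := f2 j
    rw [if_neg hj, mul_eq_zero, mul_eq_zero] at this
    simpa [hj, (this.resolve_left two_ne_zero).resolve_left h] using f1 j
  have g1 := f1 0
  have g2 := f2 0
  simp only [neg_zero, ft_zero, if_true] at g1 g2
  have g3 := parseval fun c => ∑ y, A y * A (c - y)
  simp only [ft_conv, zero_sub, hs, sq hA] at g3
  rw [← add_sum_erase _ _ (mem_univ 0), ft_zero, ← sum_filter_add_sum_filter_not (univ.erase 0) (ft A · ≠ 0),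
    sum_congr rfl fun j hj => f3 j (mem_erase.1 (mem_filter.1 hj).1).1 (mem_filter.1 hj).2,
    sum_eq_zero (s := {j ∈ univ.erase 0 | ¬ ft A j ≠ 0}) fun j hj =>
      show ft A j * ft A j = 0 by rw [not_not.1 (mem_filter.1 hj).2, mul_zero], sum_const,
    add_zero, nsmul_eq_mul] at g3
  have g4 : (#{j ∈ univ.erase 0 | ft A j ≠ 0} + 1) * p ≤ m := by
    refine le_trans ?_ (card_ker d).le
    rw [hd, ← card_insert_of_notMem (a := 0) (by simp)]
    refine Nat.mul_le_mul_right _ (card_le_card fun j hj => ?_)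
    rcases mem_insert.1 hj with rfl | hj
    · simp
    · simpa using ft_shift hi (mem_filter.1 hj).2
  have g5 : #{j ∈ univ.erase 0 | ft A j ≠ 0} ≠ 0 → n ≤ (∑ y, A y) ^ 2 ∧ n ≤ (m - ∑ y, A y) ^ 2 :=
    fun h => by
      obtain ⟨j, hj⟩ := card_ne_zero.1 h
      have j0 := (mem_erase.1 (mem_filter.1 hj).1).1
      have k : (n : ℝ) ≤ ‖ft A j‖ ^ 2 := by
        rw [pow_two, ← norm_mul, f3 j j0 (mem_filter.1 hj).2, Complex.norm_intCast]
        exact le_abs_self _
      have k1 := ft_norm A0 j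
      have k2 := ft_norm A1 j
      rw [ft_compl _ j0, norm_neg, sc] at k2
      exact ⟨by exact_mod_cast k.trans (pow_le_pow_left₀ (norm_nonneg _) k1 2),
        by exact_mod_cast k.trans (pow_le_pow_left₀ (norm_nonneg _) k2 2)⟩
  have g6 : ∀ e : ZMod m, e ≠ 0 → ∀ v, (∀ c, e * c ≠ 0 → A c = v) →
      n = (∑ y, A y) ^ 2 ∨ n = (m - ∑ y, A y) ^ 2 := fun e e0 v hv => by
    rcases hA 1 with k | k <;> rw [hv 1 (by simpa using e0)] at k <;> subst k
    · have := f3 e e0 (by rw [ft_supp hv]; exact_mod_cast a0.ne')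
      rw [ft_supp hv] at this
      exact .inl (by rw [pow_two]; exact_mod_cast this.symm)
    · have k := ft_supp (X := fun y => 1 - A y) (e := e) fun c h => by simp [hv c h]
      rw [ft_compl _ e0, sc, neg_eq_iff_eq_neg] at k
      have := f3 e e0 (by rw [k, neg_ne_zero]; exact_mod_cast a1.ne')
      rw [k, neg_mul_neg] at this
      exact .inr (by rw [pow_two]; exact_mod_cast this.symm)
  generalize #{j ∈ univ.erase 0 | ft A j ≠ 0} = N at g3 g4 g5
  generalize ∑ y, A y = a at *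
  generalize ∑ y, B y = b at *
  norm_cast at g1 g2 g3
  have k1 : n = (a - b) ^ 2 := by linear_combination g2 - g1
  have k2 : a * (m - a) = n * N := by linear_combination -g3
  have k3 : b * (m - b) = n * (m - 1 - N) := by linear_combination -k2 - m * hn + k1 - g2
  have N0 : N ≠ 0 := by
    rintro rfl
    exact (mul_pos a0 a1).ne' (by simpa using k2)
  obtain ⟨k4, k5⟩ := g5 N0
  have k6 : ((N : ℤ) + 1) * p ≤ m := by exact_mod_cast g4
  by_cases p2 : p = 2
  · subst p2
    obtain ⟨e, e0, v, hv⟩ := hc.resolve_left (by simp)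
    have m8 : (m : ℤ) = 8 := by
      rcases g6 e e0 v hv with k | k
      · exact num2 (b := b) (N := N) (k1.symm.trans k) (k ▸ k3) (k ▸ k2) a0 (by omega) (by omega)
      · exact num2 (a := m - a) (b := m - b) (N := N) (by linear_combination k - k1)
          (by linear_combination k3 + (m - 1 - N) * k) (by linear_combination k2 + N * k) a1
          (by omega) (by omega)
    obtain rfl : m = 8 := by omega
    obtain rfl : d = 4 := (by decide : ∀ d : ZMod 8, d ≠ 0 → 2 • d = 0 → d = 4) d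
      (by rintro rfl; simp at hd) (hd ▸ addOrderOf_nsmul_eq_zero d)
    have k : ∀ {X : ZMod 8 → ℤ}, (∀ y, X y = 0 ∨ X y = 1) →
        (fun y => if decide (X y = 1) then 1 else 0) = X := fun h => funext fun y => by
      rcases h y with e | e <;> simp [e]
    refine eight (fun y => A y = 1) (by simp [hs]) (by simp [h0]) (by simpa using h1) (by simp [hi])
      (fun y => B y = 1) fun c => ?_
    rw [k hA, k hB, e1 1 (by decide)]
    exact ⟨e2 c, e1 c⟩
  · have p3 : (3 : ℤ) ≤ p := by have := hp.two_le; omega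
    have n0 : 0 < n := by
      by_contra h
      nlinarith [mul_pos a0 a1]
    have l1 := abs_le.1 (abs_le_of_sq_le_sq (k1 ▸ k4) a0.le)
    have l2 := abs_le.1 (abs_le_of_sq_le_sq (k1 ▸ k5) a1.le)
    have l3 : 2 * (N : ℤ) < m - 1 - N := by nlinarith
    nlinarith [mul_nonneg (show 0 ≤ 2 * a - b by omega) (show 0 ≤ m - 2 * a + b by omega),
      mul_lt_mul_of_pos_left l3 n0, sq_nonneg (a - b)]

theorem jobN : JobN := fun m _ K p d μ hp hd h1 h2 h3 h4 h5 h6 h7 =>
  main (fun y => K (r y)) (fun y => K (sr y)) p d μ hp hd (fun _ => h1 _) (fun _ => h1 _) h2 h3 h4 h5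
    (fun c hc => (cv_r K c).symm.trans (h6 _ fun e => hc (r.inj e)))
    (fun c => (cv_sr K c).symm.trans (h6 _ fun e => by cases e)) h7

end H92.DiN
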