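import Cfsg.Agent.H92.DiN

/-! S3572 (dihedral groups are B-groups), slot O: odd primes. -/

set_option autoImplicit false
set_option linter.unusedSectionVars false

namespace H92.DiO

open DihedralGroup H2.Di Finset

variable {m p : ℕ} [NeZero m] {a b d : ZMod m} {S : Set (DihedralGroup m → ℤ)}

theorem ord_unit (u : (ZMod m)ˣ) (a : ZMod m) : addOrderOf (u * a) = addOrderOf a :=
  addOrderOf_injective (AddMonoidHom.mulLeft (u : ZMod m)) (fun _ _ e => u.mul_right_inj.1 e) a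

/-- Elements of the same order differ by a unit. -/
theorem unit_of_ord (h : addOrderOf a = addOrderOf b) : ∃ u : (ZMod m)ˣ, a = u * b := by
  obtain ⟨k, hk, _, ⟨u, rfl⟩, rfl⟩ := ZMod.eq_unit_mul_divisor a
  obtain ⟨l, hl, _, ⟨v, rfl⟩, rfl⟩ := ZMod.eq_unit_mul_divisor b
  rw [ord_unit, ord_unit, ZMod.addOrderOf_coe _ (NeZero.ne m), ZMod.addOrderOf_coe _ (NeZero.ne m),
    Nat.gcd_eq_right hk, Nat.gcd_eq_right hl] at h
  obtain rfl : k = l := by
    rw [← Nat.div_div_self hk (NeZero.ne m), h, Nat.div_div_self hl (NeZero.ne m)]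
  exact ⟨u * v⁻¹, by simp [mul_assoc]⟩

theorem rel_of_ord (hR : Rat S) (h : addOrderOf a = addOrderOf b) : Rel S (r a) (r b) := by
  obtain ⟨u, rfl⟩ := unit_of_ord h
  exact fun X hX => hR X hX u b

theorem ord_sing (hp : p.Prime) (h : p ∣ addOrderOf a) :
    addOrderOf a = p * addOrderOf ((p : ZMod m) * a) := by
  rw [← nsmul_eq_mul, addOrderOf_nsmul_of_dvd hp.ne_zero h, Nat.mul_div_cancel' h]

theorem ord_reg (hp : p.Prime) (h : ¬ p ∣ addOrderOf a) :
    addOrderOf ((p : ZMod m) * a) = addOrderOf a := by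
  rw [← nsmul_eq_mul, ((Nat.Prime.coprime_iff_not_dvd hp).2 h).symm.addOrderOf_nsmul]

theorem reg_uniq (hp : p.Prime) (ha : ¬ p ∣ addOrderOf a) (hb : ¬ p ∣ addOrderOf b)
    (h : (p : ZMod m) * a = p * b) : a = b := by
  have h1 : addOrderOf (a + -b) ∣ p := addOrderOf_dvd_of_nsmul_eq_zero (by
    rw [nsmul_eq_mul, mul_add, h, mul_neg, add_neg_cancel])
  rcases (Nat.dvd_prime hp).1 h1 with e | e
  · exact add_neg_eq_zero.1 (AddMonoid.addOrderOf_eq_one_iff.1 e)
  · have := (AddCommute.all a (-b)).addOrderOf_add_dvd_mul_addOrderOf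
    rw [e, addOrderOf_neg] at this
    exact absurd (hp.dvd_mul.1 this) (not_or.2 ⟨ha, hb⟩)

theorem mul_d (hd : addOrderOf d = p) : (p : ZMod m) * d = 0 := by
  rw [← nsmul_eq_mul, ← hd, addOrderOf_nsmul_eq_zero]

theorem card_fib (hd : addOrderOf d = p) (a : ZMod m) :
    #{y : ZMod m | (p : ZMod m) * y = p * a} = p := by
  have h0 : p ∣ m := by
    rw [← hd]; simpa using addOrderOf_dvd_card (x := d)
  have h1 := DiN.card_ker (p : ZMod m)
  rw [ZMod.addOrderOf_coe _ (NeZero.ne m), Nat.gcd_eq_right h0] at h1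
  have h2 : #{y : ZMod m | (p : ZMod m) * y = p * a} = #{j : ZMod m | j * p = 0} :=
    card_equiv (Equiv.subRight a) fun y => by simp [mul_sub, sub_eq_zero, mul_comm _ (p : ZMod m)]
  rw [h2]
  exact Nat.eq_of_mul_eq_mul_right (Nat.div_pos (Nat.le_of_dvd (NeZero.pos m) h0)
    (Nat.pos_of_dvd_of_pos h0 (NeZero.pos m))) (h1.trans (Nat.mul_div_cancel' h0).symm)

theorem claim (hM : JobM) (hL : JobL) (hS : SR S) (hR : Rat S) (hp : p.Prime) (p2 : p ≠ 2)
    (hd : addOrderOf d = p) {x : ZMod m} (hx : p ∣ addOrderOf x) : Rel S (r x) (r d) := by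
  classical
  have d0 : d ≠ 0 := by rintro rfl; exact hp.one_lt.ne (by simpa using hd)
  have p3 : (3 : ℤ) ≤ p := by have := hp.two_le; omega
  obtain ⟨T, hT, T1⟩ : ∃ T ∈ S, ∀ g, T g = if Rel S (r x) g then 1 else 0 :=
    ⟨_, hS.ind_mem _, fun _ => rfl⟩
  have T2 : ∀ g, T g = 0 ∨ T g = 1 := fun g => by rw [T1]; split_ifs <;> simp
  have fib : ∀ y z : ZMod m, p ∣ addOrderOf y → p ∣ addOrderOf z → (p : ZMod m) * y = p * z →
      T (r y) = T (r z) := fun y z hy hz e =>
    rel_of_ord hR (by rw [ord_sing hp hy, ord_sing hp hz, e]) T hT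
  have pd : ∀ y : ZMod m, (p : ZMod m) * (y + d) = p * y := fun y => by
    rw [mul_add, mul_d hd, add_zero]
  have sd : ∀ y : ZMod m, ¬ p ∣ addOrderOf y → p ∣ addOrderOf (y + d) := fun y hy => by
    by_contra h
    exact d0 (add_eq_left.1 (reg_uniq hp h hy (pd y)))
  obtain ⟨Z, hZ, Z1⟩ : ∃ Z ∈ S, ∀ c, Z (r c) =
      (∑ y with (p : ZMod m) * y = c, T (r y)) % p :=
    ⟨_, hS.map (hS.pw_mem hT p) (· % p), (((hM m T).2.2 p hp (hS.symm T hT)).1 p2)⟩
  have Z2 : ∀ c, p ∣ addOrderOf c → Z (r c) = 0 := fun c hc => by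
    rw [Z1]
    by_cases h : ∃ y, (p : ZMod m) * y = c
    · obtain ⟨y, rfl⟩ := h
      have k : ∀ z : ZMod m, (p : ZMod m) * z = p * y → p ∣ addOrderOf z := fun z e => by
        rw [← e, ← nsmul_eq_mul] at hc
        exact hc.trans (addOrderOf_smul_dvd p)
      rw [sum_congr rfl fun z hz => fib z y (k z (mem_filter.1 hz).2) (k y rfl) (mem_filter.1 hz).2,
        sum_const, card_fib hd]
      simp
    · rw [filter_false_of_mem fun y _ e => h ⟨y, e⟩]; simp
  have Z3 : ∀ y, ¬ p ∣ addOrderOf y → Z (r y) = (T (r y) - T (r (y + d))) % p := fun y hy => by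
    rw [← rel_of_ord hR (ord_reg hp hy) Z hZ, Z1, ← add_sum_erase _ _ (a := y) (by simp),
      sum_congr rfl fun z hz => fib z (y + d) (by
        by_contra h
        exact (mem_erase.1 hz).1 (reg_uniq hp h hy (mem_filter.1 (mem_erase.1 hz).2).2)) (sd y hy)
        ((mem_filter.1 (mem_erase.1 hz).2).2.trans (pd y).symm), sum_const,
      card_erase_of_mem (by simp), card_fib hd, nsmul_eq_mul, Nat.cast_pred hp.pos,
      show T (r y) + (p - 1) * T (r (y + d)) = T (r y) - T (r (y + d)) + p * T (r (y + d)) by ring,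
      Int.add_mul_emod_self_left]
  obtain ⟨K, hK, K1⟩ : ∃ K ∈ S, ∀ g, K g = if T g = 1 ∨ Z g = p - 1 then 1 else 0 :=
    ⟨_, hS.comp T hT Z hZ fun a b => if a = 1 ∨ b = p - 1 then 1 else 0, fun _ => rfl⟩
  have K2 : ∀ y, p ∣ addOrderOf y → K (r y) = T (r y) := fun y hy => by
    rw [K1, Z2 y hy]
    rcases T2 (r y) with e | e <;> simp [e]
    omega
  have K3 : ∀ y, ¬ p ∣ addOrderOf y → K (r y) = T (r (y + d)) := fun y hy => by
    have h1 := Z3 y hy
    rw [K1]
    rcases T2 (r y) with e | e <;> rcases T2 (r (y + d)) with e' | e' <;> rw [e, e'] at h1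
    · rw [e, e', h1, if_neg (by simp; omega)]
    · rw [e', h1, if_pos (.inr (by
        rw [← Int.add_emod_right, Int.emod_eq_of_lt] <;> omega))]
    · have h2 : Rel S (r x) (r y) := by
        by_contra h
        simp [T1, h] at e
      rw [← h2 Z hZ, Z2 x hx, sub_zero, Int.emod_eq_of_lt (by omega) (by omega)] at h1
      exact absurd h1 zero_ne_one
    · rw [e', if_pos (.inl e)]
  by_contra h
  refine hL m S hS hR p d hp hd K hK (fun g => by rw [K1]; split_ifs <;> simp) ?_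
    ⟨r x, by rw [K2 x hx, T1, if_pos (Rel.refl _ _)]⟩ (fun c => ?_) (.inl p2)
  · rw [one_def, K3 0 (by simpa using hp.one_lt.ne'), zero_add, T1, if_neg h]
  · by_cases h1 : p ∣ addOrderOf c <;> by_cases h2 : p ∣ addOrderOf (c + d)
    · rw [K2 _ h1, K2 _ h2, fib _ _ h2 h1 (pd c)]
    · rw [K2 _ h1, K3 _ h2, fib _ _ (sd _ h2) h1 ((pd _).trans (pd c))]
    · rw [K3 _ h1, K2 _ h2]
    · exact absurd (sd c h1) h2

theorem jobO (hM : JobM) (hL : JobL) : JobO := fun m _ S hS hR p hp p2 x hx => by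
  have := Fact.mk hp
  have h0 := hx.trans addOrderOf_dvd_card
  obtain ⟨d, hd⟩ := exists_prime_addOrderOf_dvd_card p h0
  exact (claim hM hL hS hR hp p2 hd hx).trans (claim hM hL hS hR hp p2 hd
    (by rwa [ZMod.addOrderOf_one, ← ZMod.card m])).symm

end H92.DiO
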