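import Cfsg.Agent.H48.DP1Spec

/-! S3275 chapter (1): kit for the slots UN, UT, UF. -/

set_option autoImplicit false

namespace H92.Dp

open Subgroup Cfsg H98 H48.DP

variable {G : Type*} [Group G]

theorem relIndex_le (B X : Subgroup G) (ds : List G) (h : ∀ x ∈ X, ∃ d ∈ ds, d⁻¹ * x ∈ B) :
    B.relIndex X ≤ ds.length := by
  have h' : ∀ x : X, ∃ i : Fin ds.length, (ds.get i)⁻¹ * x.1 ∈ B := fun x => by
    obtain ⟨d, hd, e⟩ := h x.1 x.2
    obtain ⟨i, rfl⟩ := List.mem_iff_get.1 hd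
    exact ⟨i, e⟩
  choose φ hφ using h'
  have := Nat.card_le_card_of_injective (fun q : X ⧸ B.subgroupOf X => φ q.out) fun q q' e => by
    rw [← q.out_eq, ← q'.out_eq]
    refine QuotientGroup.eq.2 (mem_subgroupOf.2 ?_)
    have h1 := hφ q.out
    have h2 := hφ q'.out
    rw [show φ q.out = φ q'.out from e] at h1
    simpa [mul_assoc] using mul_mem (inv_mem h1) h2
  rwa [Nat.card_eq_fintype_card (α := Fin _), Fintype.card_fin] at this

theorem card_inf_mul (B X : Subgroup G) : Nat.card ↥(B ⊓ X) * B.relIndex X = Nat.card X := by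
  have := relIndex_mul_relIndex ⊥ (B ⊓ X) X bot_le inf_le_right
  rwa [relIndex_bot_left, relIndex_bot_left, inf_relIndex_right] at this

theorem two_mul_le [Finite G] {H K : Subgroup G} (h : H ≤ K) {x : G} (h1 : x ∈ K) (h2 : x ∉ H) :
    2 * Nat.card H ≤ Nat.card K := by
  obtain ⟨m, hm⟩ := card_dvd_of_le h
  have p1 : 0 < Nat.card K := Nat.card_pos
  have : m ≠ 1 := by
    rintro rfl
    exact h2 (eq_of_le_of_card_ge h (by omega) ▸ h1)
  rcases m with _ | _ | m
  · omega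
  · exact absurd rfl this
  · rw [hm]; nlinarith

theorem sq_closure {S : Set G} (hc : ∀ x ∈ S, ∀ y ∈ S, x * y = y * x) (h2 : ∀ x ∈ S, x * x = 1) :
    ∀ g ∈ closure S, g * g = 1 := by
  have := isMulCommutative_closure hc
  intro g hg
  induction hg using closure_induction with
  | mem x hx => exact h2 x hx
  | one => exact one_mul 1
  | mul x y hx hy e1 e2 =>
    rw [mul_assoc, ← mul_assoc y, setLike_mul_comm hy hx, mul_assoc, e2, mul_one, e1]
  | inv x _ e => rw [← mul_inv_rev, e, inv_one]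

/-- The words `t ^ i f ^ j s ^ k`. -/
def dd (s t f : G) (i j k : Bool) : G := cond i t 1 * (cond j f 1 * cond k s 1)

/-- The abstract configuration. -/
structure Kt (B A : Subgroup G) (z p u e s t f : G) : Prop where
  t2 : t * t = 1
  f2 : f * f = 1
  s2 : s * s = 1
  st : s * t = t * s
  sf : s * f = f * s
  ft : f * t = t * (f * s)
  tB : t ∈ No B
  fB : f ∈ No B
  sB : s ∈ No B
  two : IsPGroup 2 B
  Bc : ∀ β ∈ B, ∀ β' ∈ B, Commute β β'
  AB : A ≤ B
  NB : No B ≤ No A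
  sq : ∀ β ∈ B, β * β ∈ A
  A2 : ∀ α ∈ A, α * α = 1
  zA : z ∈ A
  pA : p ∈ A
  uA : u ∈ A
  eA : e ∈ A
  ind : ∀ X : Subgroup G, z ∈ X → p ∈ X → u ∈ X → e ∈ X → A ≤ X
  z1 : z ≠ 1
  tz : Commute t z
  tu : ¬ Commute t u
  te : ¬ Commute t e
  tue : ¬ Commute t (u * e)
  sz : Commute s z
  su : Commute s u
  sp : ¬ Commute s p
  se : ¬ Commute s e
  spe : ¬ Commute s (e * p)
  fz : Commute f z
  fu : Commute f u
  fpe : Commute f (e * p)
  fp : ¬ Commute f p
  ge : Commute (f * s) e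
  gp : ¬ Commute (f * s) p

/-- `g ∈ t ^ i f ^ j s ^ k B`. -/
def R (B : Subgroup G) (s t f g : G) (i j k : Bool) : Prop := ∃ β ∈ B, g = dd s t f i j k * β

namespace Kt

variable {B A : Subgroup G} {z p u e s t f : G} (h : Kt B A z p u e s t f)
include h

theorem mul (i j k i' j' k' : Bool) : dd s t f i j k * dd s t f i' j' k' =
    dd s t f (xor i i') (xor j j') (xor (xor k k') (j && i')) := by
  have r1 : ∀ x, t * (t * x) = x := fun x => by rw [← mul_assoc, h.t2, one_mul]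
  have r2 : ∀ x, f * (f * x) = x := fun x => by rw [← mul_assoc, h.f2, one_mul]
  have r3 : ∀ x, s * (s * x) = x := fun x => by rw [← mul_assoc, h.s2, one_mul]
  have r4 : ∀ x, s * (t * x) = t * (s * x) := fun x => by rw [← mul_assoc, h.st, mul_assoc]
  have r5 : ∀ x, s * (f * x) = f * (s * x) := fun x => by rw [← mul_assoc, h.sf, mul_assoc]
  have r6 : ∀ x, f * (t * x) = t * (f * (s * x)) := fun x => by
    rw [← mul_assoc, h.ft, mul_assoc, mul_assoc]
  cases i <;> cases j <;> cases k <;> cases i' <;> cases j' <;> cases k' <;>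
    simp only [dd, cond, Bool.xor_false, Bool.xor_true, Bool.not_true, Bool.not_false,
      Bool.and_true, Bool.and_false, mul_one, one_mul, mul_assoc, r1, r2, r3, r4, r5, r6, h.t2,
      h.f2, h.s2, h.st, h.sf, h.ft]

omit h in
theorem dd0 : dd s t f false false false = 1 := by simp [dd]
omit h in
theorem dds : dd s t f false false true = s := by simp [dd]
omit h in
theorem ddt : dd s t f true false false = t := by simp [dd]
omit h in
theorem ddf : dd s t f false true false = f := by simp [dd]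
omit h in
theorem ddg : dd s t f false true true = f * s := by simp [dd]

theorem inv (i j k : Bool) : (dd s t f i j k)⁻¹ = dd s t f i j (xor k (j && i)) := by
  refine inv_eq_of_mul_eq_one_right ?_
  rw [h.mul, ← dd0 (s := s) (t := t) (f := f)]
  cases i <;> cases j <;> cases k <;> rfl

theorem ddB (i j k : Bool) : dd s t f i j k ∈ No B := by
  refine mul_mem ?_ (mul_mem ?_ ?_)
  · cases i; exacts [one_mem _, h.tB]
  · cases j; exacts [one_mem _, h.fB]
  · cases k; exacts [one_mem _, h.sB]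

theorem rmul {g g' : G} {i j k i' j' k' : Bool} (h1 : R B s t f g i j k)
    (h2 : R B s t f g' i' j' k') :
    R B s t f (g * g') (xor i i') (xor j j') (xor (xor k k') (j && i')) := by
  obtain ⟨β, hβ, rfl⟩ := h1
  obtain ⟨β', hβ', rfl⟩ := h2
  refine ⟨_, mul_mem (conj_mem_of_mem_normalizer' (h.ddB i' j' k') hβ) hβ', ?_⟩
  rw [← h.mul]
  group

theorem rinv {g : G} {i j k : Bool} (h1 : R B s t f g i j k) :
    R B s t f g⁻¹ i j (xor k (j && i)) := by
  obtain ⟨β, hβ, rfl⟩ := h1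
  refine ⟨_, conj_mem_of_mem_normalizer (h.ddB i j k) (inv_mem hβ), ?_⟩
  rw [← h.inv]
  group

omit h in
theorem r0 {g : G} : R B s t f g false false false ↔ g ∈ B := by
  simp [R, dd0]

omit h in
theorem rd (i j k : Bool) : R B s t f (dd s t f i j k) i j k := ⟨1, one_mem _, (mul_one _).symm⟩

theorem memD {g : G} (hg : g ∈ closure ({t, f} : Set G)) : ∃ i j k, g = dd s t f i j k := by
  induction hg using closure_induction with
  | mem x hx =>
    rcases hx with rfl | rfl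
    exacts [⟨_, _, _, ddt.symm⟩, ⟨_, _, _, ddf.symm⟩]
  | one => exact ⟨_, _, _, dd0.symm⟩
  | mul x y _ _ e1 e2 =>
    obtain ⟨i, j, k, rfl⟩ := e1
    obtain ⟨i', j', k', rfl⟩ := e2
    exact ⟨_, _, _, h.mul ..⟩
  | inv x _ e1 =>
    obtain ⟨i, j, k, rfl⟩ := e1
    exact ⟨_, _, _, h.inv ..⟩

theorem DB : closure ({t, f} : Set G) ≤ No B := fun g hg => by
  obtain ⟨i, j, k, rfl⟩ := h.memD hg
  exact h.ddB i j k

theorem memT {g : G} (hg : g ∈ B ⊔ closure ({t, f} : Set G)) : ∃ i j k, R B s t f g i j k := by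
  rw [sup_comm, mem_sup_left_norm h.DB] at hg
  obtain ⟨d, hd, β, hβ, rfl⟩ := hg
  obtain ⟨i, j, k, rfl⟩ := h.memD hd
  exact ⟨i, j, k, β, hβ, rfl⟩

omit h in
theorem tT : t ∈ B ⊔ closure ({t, f} : Set G) := mem_sup_right (subset_closure (by simp))
omit h in
theorem fT : f ∈ B ⊔ closure ({t, f} : Set G) := mem_sup_right (subset_closure (by simp))

theorem sT : s ∈ B ⊔ closure ({t, f} : Set G) := by
  have : s = t * f * (t * f) := by
    rw [mul_assoc, ← mul_assoc f, h.ft, mul_assoc t, ← mul_assoc t, h.t2, one_mul, mul_assoc,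
      h.sf, ← mul_assoc, h.f2, one_mul]
  rw [this]
  exact mul_mem (mul_mem tT fT) (mul_mem tT fT)

theorem rcomm {g α : G} {i j k : Bool} (h1 : R B s t f g i j k) (hα : α ∈ B) :
    Commute g α ↔ Commute (dd s t f i j k) α := by
  obtain ⟨β, hβ, rfl⟩ := h1
  refine ⟨fun c => ?_, fun c => c.mul_left (h.Bc β hβ α hα)⟩
  simpa using c.mul_left (h.Bc β hβ α hα).inv_left

theorem pT : IsPGroup 2 ↥(B ⊔ closure ({t, f} : Set G)) := by
  refine isPGroup_of_forall_pow_mem h.two fun g hg => ⟨2, ?_⟩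
  obtain ⟨i, j, k, h1⟩ := h.memT hg
  have := h.rmul (h.rmul h1 h1) (h.rmul h1 h1)
  rw [show g ^ 2 ^ 2 = g * g * (g * g) by rw [show 2 ^ 2 = 2 + 2 from rfl, pow_add, pow_two]]
  refine (r0 (s := s) (t := t) (f := f)).1 ?_
  cases i <;> cases j <;> cases k <;> exact this

theorem TA : B ⊔ closure ({t, f} : Set G) ≤ No A :=
  (sup_le le_normalizer h.DB).trans h.NB

/-- `s ∉ B`. -/
theorem ns : ¬ R B s t f 1 false false true := fun h1 =>
  h.sp (dds (s := s) (t := t) (f := f) ▸ (h.rcomm h1 (h.AB h.pA)).1 (Commute.one_left p))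

end Kt

theorem kt {L : Subgroup G} {a b s x y t e u f w v : G} [Finite G]
    (h : UC L a b s x y t e u f w v) :
    Kt (Bs a b w v) (Os a b w v) (a ^ 2 * b ^ 2) (a ^ 2) u e s t f := by
  have tL : ∀ l ∈ L, Commute t l := fun l hl => (mem_centralizer_iff.1 h.rc l hl).symm
  have t2 : t * t = 1 := by rw [← pow_two, ← h.t2, pow_orderOf_eq_one]
  have ti : t⁻¹ = t := inv_eq_of_mul_eq_one_left t2
  have ab : Commute a b := h.ab
  have gc : ∀ x ∈ ({a, b, w, v} : Set G), ∀ y ∈ ({a, b, w, v} : Set G), x * y = y * x := by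
    rintro x (rfl | rfl | rfl | rfl) y (rfl | rfl | rfl | rfl) <;>
      first | rfl | exact h.ab | exact h.ab.symm | exact h.aw | exact h.aw.symm | exact h.bw |
        exact h.bw.symm | exact h.av | exact h.av.symm | exact h.bv | exact h.bv.symm |
        exact h.wv | exact h.wv.symm
  have := isMulCommutative_closure gc
  have Bc : ∀ β ∈ Bs a b w v, ∀ β' ∈ Bs a b w v, Commute β β' := fun β h1 β' h2 =>
    setLike_mul_comm h1 h2
  have aB : a ∈ Bs a b w v := subset_closure (by simp)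
  have bB : b ∈ Bs a b w v := subset_closure (by simp)
  have wB : w ∈ Bs a b w v := subset_closure (by simp)
  have vB : v ∈ Bs a b w v := subset_closure (by simp)
  have aA : a ^ 2 ∈ Os a b w v := subset_closure (by simp)
  have bA : b ^ 2 ∈ Os a b w v := subset_closure (by simp)
  have wA : w ^ 2 ∈ Os a b w v := subset_closure (by simp)
  have vA : v ^ 2 ∈ Os a b w v := subset_closure (by simp)
  have AB : Os a b w v ≤ Bs a b w v := (closure_le _).2 (by
    rintro _ (rfl | rfl | rfl | rfl)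
    exacts [pow_mem aB 2, pow_mem bB 2, pow_mem wB 2, pow_mem vB 2])
  have sq : ∀ β ∈ Bs a b w v, β * β ∈ Os a b w v := fun β hβ => by
    induction hβ using closure_induction with
    | mem x hx =>
      rw [← pow_two]
      rcases hx with rfl | rfl | rfl | rfl
      exacts [aA, bA, wA, vA]
    | one => simp
    | mul x y hx hy e1 e2 =>
      rw [mul_assoc, ← mul_assoc y, (Bc y hy x hx).eq, mul_assoc, ← mul_assoc]
      exact mul_mem e1 e2
    | inv x _ e1 => rw [← mul_inv_rev]; exact inv_mem e1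
  have v4 : v ^ 4 = 1 := by rw [h.vd, conj_pow, h.w4]; simp
  have p4 : ∀ c : G, c ^ 4 = 1 → c ^ 2 * c ^ 2 = 1 := fun c hc => by rw [← pow_add, hc]
  have A2 : ∀ α ∈ Os a b w v, α * α = 1 := sq_closure
    (fun x hx y hy => Bc x (AB (subset_closure hx)) y (AB (subset_closure hy))) (by
      rintro _ (rfl | rfl | rfl | rfl)
      exacts [p4 _ h.a4, p4 _ h.b4, p4 _ h.w4, p4 _ v4])
  have V0A : ∀ X : Subgroup G, a ^ 2 ∈ X → b ^ 2 ∈ X → e * v ^ 2 ∈ X := fun X h1 h2 =>
    (closure_le X).2 (by rintro _ (rfl | rfl); exacts [h1, h2]) h.eB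
  have eA : e ∈ Os a b w v := by simpa using mul_mem (V0A _ aA bA) (inv_mem vA)
  have uA : u ∈ Os a b w v := h.w2 ▸ wA
  have Ac : ∀ {α β : G}, α ∈ Os a b w v → β ∈ Os a b w v → α * β = β * α := fun h1 h2 =>
    Bc _ (AB h1) _ (AB h2)
  have nt : ∀ i j k : ℕ, a ^ i * b ^ j * w ^ k = 1 → 4 ∣ i ∧ 4 ∣ j ∧ 4 ∣ k := fun i j k e1 => by
    have := h.ind4 i j k 0 (by simpa using e1)
    omega
  have z1 : a ^ 2 * b ^ 2 ≠ 1 := fun e1 => by have := nt 2 2 0 (by simpa using e1); omega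
  have p1 : a ^ 2 ≠ 1 := fun e1 => by have := nt 2 0 0 (by simpa using e1); omega
  have q1 : b ^ 2 ≠ 1 := fun e1 => by have := nt 0 2 0 (by simpa using e1); omega
  have u1 : u ≠ 1 := fun e1 => by have := nt 0 0 2 (by simpa [h.w2] using e1); omega
  have zu1 : a ^ 2 * b ^ 2 * u ≠ 1 := fun e1 => by
    have := nt 2 2 2 (by simpa [h.w2] using e1); omega
  have nc : ∀ {g α c : G}, g * α * g⁻¹ = α * c → c ≠ 1 → ¬ Commute g α := fun e1 c1 hc =>
    c1 (by rw [hc.eq, mul_inv_cancel_right] at e1; exact left_eq_mul.1 e1)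
  have cm : ∀ {g α : G}, g * α * g⁻¹ = α → Commute g α := fun e1 => mul_inv_eq_iff_eq_mul.1 e1
  have cj2 : ∀ g α β : G, g * (α * β) * g⁻¹ = g * α * g⁻¹ * (g * β * g⁻¹) := fun g α β => by group
  have zp : a ^ 2 * (a ^ 2 * b ^ 2) = b ^ 2 := by rw [← mul_assoc, A2 _ aA, one_mul]
  have tw : t * w * t⁻¹ = a * b * u * w := by
    have := h.wt
    rw [mul_inv_eq_iff_eq_mul] at this
    rw [ti, mul_assoc, this, ← mul_assoc, ← mul_assoc, ← mul_assoc, t2, one_mul]
  have tu : t * u * t⁻¹ = u * (a ^ 2 * b ^ 2) := by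
    have abB := mul_mem aB bB
    rw [← h.w2, ← conj_pow, tw, (Bc _ (mul_mem abB (AB uA)) _ wB).mul_pow,
      (Bc _ abB _ (AB uA)).mul_pow, pow_two u, A2 _ uA, mul_one, ab.mul_pow]
    exact Ac (mul_mem aA bA) wA
  have te : t * e * t⁻¹ = e * a ^ 2 := by
    have := h.et
    rw [mul_inv_eq_iff_eq_mul] at this
    rw [ti, mul_assoc, this, ← mul_assoc, ← mul_assoc, t2, one_mul, Ac aA eA]
  have sp : s * a ^ 2 * s⁻¹ = b ^ 2 := by rw [← conj_pow, h.sa]
  have sq' : s * b ^ 2 * s⁻¹ = a ^ 2 := by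
    rw [← sp, show s * (s * a ^ 2 * s⁻¹) * s⁻¹ = s * s * a ^ 2 * (s * s)⁻¹ by group, h.s2]; simp
  have se : s * e * s⁻¹ = e * u := by rw [h.ud, ← mul_assoc, h.e2, one_mul]
  have su : s * u * s⁻¹ = u := by rw [← h.w2, (h.ws.symm.pow_right 2).eq, mul_inv_cancel_right]
  have sz : s * (a ^ 2 * b ^ 2) * s⁻¹ = a ^ 2 * b ^ 2 := by rw [cj2, sp, sq', Ac aA bA]
  have fz : Commute f (a ^ 2 * b ^ 2) := ab.mul_pow 2 ▸ h.fab.pow_right 2
  have fe : f * e * f⁻¹ = e * u := h.w2 ▸ h.fe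
  have fu : f * u * f⁻¹ = u := by rw [h.fu.eq, mul_inv_cancel_right]
  have cjc : ∀ α : G, f * s * α * (f * s)⁻¹ = f * (s * α * s⁻¹) * f⁻¹ := fun α => by group
  refine ⟨t2, h.f2, h.s2, (tL s h.sL).eq.symm, h.fs.eq.symm, ?_, h.tB, h.fB, h.sB,
    IsPGroup.of_card (n := 8) h.cB, Bc, AB, fun g hg => ?_, sq, A2, mul_mem aA bA, aA, uA, eA,
    fun X h1 h2 h3 h4 => ?_, z1, tL _ (mul_mem (pow_mem h.aL 2) (pow_mem h.bL 2)), nc tu z1,
    nc te p1, nc (c := b ^ 2) ?_ q1, cm sz, cm su, nc (sp.trans zp.symm) z1, nc se u1,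
    nc (c := a ^ 2 * b ^ 2 * u) ?_ zu1, fz, h.fu, cm ?_, nc h.fa2 u1, cm ?_,
    nc (c := a ^ 2 * b ^ 2 * u) ?_ zu1⟩
  · rw [h.fs.eq, ← mul_assoc, ← h.ft, inv_mul_cancel_right]
  · refine mem_normalizer_of_cj_le ?_
    rw [cj, map_le_iff_le_comap]
    refine (closure_le _).2 ?_
    have k : ∀ c ∈ Bs a b w v, g * c ^ 2 * g⁻¹ ∈ Os a b w v := fun c hc => by
      rw [← conj_pow, pow_two]; exact sq _ (conj_mem_of_mem_normalizer hg hc)
    rintro _ (rfl | rfl | rfl | rfl)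
    exacts [k _ aB, k _ bB, k _ wB, k _ vB]
  · have h5 : b ^ 2 ∈ X := zp ▸ mul_mem h2 h1
    refine (closure_le _).2 ?_
    rintro _ (rfl | rfl | rfl | rfl)
    exacts [h2, h5, h.w2 ▸ h3, by simpa using mul_mem (inv_mem h4) (V0A X h2 h5)]
  · rw [cj2, tu, te, mul_assoc, mul_assoc u, ← mul_assoc _ e, Ac (mul_mem aA bA) eA, mul_assoc,
      Ac (mul_mem aA bA) aA, zp]
  · rw [cj2, se, sp, mul_assoc, mul_assoc e, ← mul_assoc (a ^ 2), zp, Ac uA bA]
  · rw [cj2, fe, h.fa2, mul_assoc, Ac aA uA, ← mul_assoc u, A2 _ uA, one_mul]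
  · rw [cjc, se, cj2, fe, fu, mul_assoc, A2 _ uA, mul_one]
  · rw [cjc, sp, ← zp, cj2, h.fa2, fz.eq, mul_inv_cancel_right, zp, mul_assoc,
      Ac uA (mul_mem aA bA)]

end H92.Dp
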