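import Cfsg.Agent.H92.DpUT
import Cfsg.Agent.H20.ZC2

/-! S3275 chapter (1), slot UF: the final transfer. -/

set_option autoImplicit false

namespace H92.Dp

open Subgroup Cfsg H98 H48.DP

universe v

variable {G : Type*} [Group G]

theorem step [Finite G] {S S' : Set G} {c x : G} (hS : S ⊆ S') (hx : x ∈ S')
    (a : ∀ y ∈ S, Commute c y) (n : ¬ Commute c x) :
    2 * Nat.card (closure S) ≤ Nat.card (closure S') :=
  two_mul_le (closure_mono hS) (subset_closure hx) fun k =>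
    n (mem_centralizer_singleton_iff.1 ((closure_le (C1 c)).2
      (fun y hy => mem_centralizer_singleton_iff.2 (a y hy).symm) k)).symm

theorem e16 [Finite G] {x1 x2 x3 x4 c2 c3 c4 : G} (h1 : x1 ≠ 1) (a2 : Commute c2 x1)
    (n2 : ¬ Commute c2 x2) (a3 : Commute c3 x1) (b3 : Commute c3 x2) (n3 : ¬ Commute c3 x3)
    (a4 : Commute c4 x1) (b4 : Commute c4 x2) (d4 : Commute c4 x3) (n4 : ¬ Commute c4 x4) :
    16 ≤ Nat.card (closure ({x1, x2, x3, x4} : Set G)) := by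
  have k1 := two_mul_le (bot_le (a := closure ({x1} : Set G))) (subset_closure rfl)
    (fun k => h1 (mem_bot.1 k))
  have k2 := step (S := {x1}) (S' := {x1, x2}) (by grind) (by simp) (by rintro _ rfl; exact a2) n2
  have k3 := step (S := {x1, x2}) (S' := {x1, x2, x3}) (by grind) (by simp)
    (by rintro _ (rfl | rfl); exacts [a3, b3]) n3
  have k4 := step (S := {x1, x2, x3}) (S' := {x1, x2, x3, x4}) (by grind) (by simp)
    (by rintro _ (rfl | rfl | rfl); exacts [a4, b4, d4]) n4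
  rw [card_bot] at k1
  omega

namespace Kt

variable {B A : Subgroup G} {z p u e s t f : G} (h : Kt B A z p u e s t f)
include h

/-- The subgroup `B ⟨f, s⟩`. -/
def D : Subgroup G where
  carrier := {g | ∃ j k, R B s t f g false j k}
  one_mem' := ⟨false, false, r0.2 (one_mem _)⟩
  mul_mem' := fun ⟨_, _, h1⟩ ⟨_, _, h2⟩ => ⟨_, _, h.rmul h1 h2⟩
  inv_mem' := fun ⟨_, _, h1⟩ => ⟨_, _, h.rinv h1⟩

theorem tD : t ∉ h.D := by
  rintro ⟨j, k, h1⟩
  refine h.tu ((h.rcomm h1 (h.AB h.uA)).2 ?_)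
  cases j <;> cases k
  · rw [dd0]; exact Commute.one_left u
  · rw [dds]; exact h.su
  · rw [ddf]; exact h.fu
  · rw [ddg]; exact h.fu.mul_left h.su

theorem relD : h.D.relIndex (B ⊔ closure {t, f}) = 2 := by
  have rt : R B s t f t true false false := ⟨1, one_mem _, by rw [ddt, mul_one]⟩
  refine relIndex_eq_two_iff.2 ⟨t, tT, fun g hg => ?_⟩
  obtain ⟨i, j, k, h1⟩ := h.memT hg
  cases i
  · have : g ∈ h.D := ⟨j, k, h1⟩
    exact Or.inr ⟨this, fun c => h.tD ((mul_mem_cancel_left this).1 c)⟩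
  · have : g * t ∈ h.D := ⟨_, _, h.rmul h1 rt⟩
    exact Or.inl ⟨this, fun c => h.tD ((mul_mem_cancel_left c).1 this)⟩

theorem notSyl [Finite G] (idx : ∀ N : Subgroup G, N.index ≠ 2)
    (sc : ∀ β ∈ B, (s * β) * (s * β) = 1 → ∃ γ ∈ B, γ * s * γ⁻¹ = s * β)
    (nz : ∀ g : G, g * t * g⁻¹ ≠ s)
    (rk : ∀ X : Subgroup G, X ≤ C1 t → (∀ x ∈ X, ∀ y ∈ X, x * y = y * x) → (∀ x ∈ X, x * x = 1) →
      Nat.card X ≤ 8) : ¬ IsSyl 2 (B ⊔ closure {t, f}) ⊤ := fun hs => by
  obtain ⟨g, j, k, h1⟩ := H20.exists_conj_mem_of_relIndex_two idx hs h.relD h.t2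
  have c2 : g * t * g⁻¹ * (g * t * g⁻¹) = 1 := by rw [conj_mul, h.t2]; simp
  have rk' : ∀ x3 x4 : G, x3 ∈ A → Commute x4 z → Commute x4 u → Commute x4 x3 → x4 * x4 = 1 →
      Commute (g * t * g⁻¹) z → Commute (g * t * g⁻¹) u → Commute (g * t * g⁻¹) x3 →
      Commute (g * t * g⁻¹) x4 → Nat.card (closure ({z, u, x3, x4} : Set G)) ≤ 8 := by
    intro x3 x4 a3 b1 b2 b3 b4 d1 d2 d3 d4
    have gc : ∀ x ∈ ({z, u, x3, x4} : Set G), ∀ y ∈ ({z, u, x3, x4} : Set G), x * y = y * x := by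
      have := h.zA
      have := h.uA
      rintro x (rfl | rfl | rfl | rfl) y (rfl | rfl | rfl | rfl) <;>
        first | rfl | exact h.Ac ‹_› ‹_› | exact b1 | exact b1.symm | exact b2 | exact b2.symm |
          exact b3 | exact b3.symm
    have := isMulCommutative_closure gc
    have sq := sq_closure gc (by
      rintro _ (rfl | rfl | rfl | rfl)
      exacts [h.A2 _ h.zA, h.A2 _ h.uA, h.A2 _ a3, b4])
    rw [← card_cj g⁻¹]
    refine rk _ (fun x hx => mem_centralizer_singleton_iff.2 ?_) (fun x hx y hy => ?_)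
      fun x hx => ?_
    · have hx' : g * x * g⁻¹ ∈ closure ({z, u, x3, x4} : Set G) := by simpa using mem_cj.1 hx
      have : closure ({z, u, x3, x4} : Set G) ≤ C1 (g * t * g⁻¹) := (closure_le _).2 (by
        rintro _ (rfl | rfl | rfl | rfl)
        exacts [mem_centralizer_singleton_iff.2 d1.symm, mem_centralizer_singleton_iff.2 d2.symm,
          mem_centralizer_singleton_iff.2 d3.symm, mem_centralizer_singleton_iff.2 d4.symm])
      exact commute_conj.1 (mem_centralizer_singleton_iff.1 (this hx'))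
    · have hx' : g * x * g⁻¹ ∈ closure ({z, u, x3, x4} : Set G) := by simpa using mem_cj.1 hx
      have hy' : g * y * g⁻¹ ∈ closure ({z, u, x3, x4} : Set G) := by simpa using mem_cj.1 hy
      exact commute_conj.1 (setLike_mul_comm hx' hy')
    · have hx' : g * x * g⁻¹ ∈ closure ({z, u, x3, x4} : Set G) := by simpa using mem_cj.1 hx
      have := sq _ hx'
      rwa [conj_mul, conj_eq_one_iff] at this
  have rc : ∀ {α : G}, α ∈ A → (Commute (g * t * g⁻¹) α ↔ Commute (dd s t f false j k) α) :=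
    fun hα => h.rcomm h1 (h.AB hα)
  have ep := mul_mem h.eA h.pA
  have gz := h.fz.mul_left h.sz
  have gu := h.fu.mul_left h.su
  cases j <;> cases k
  · have c : ∀ {α : G}, α ∈ A → Commute (g * t * g⁻¹) α := fun hα =>
      (rc hα).2 (by rw [dd0]; exact Commute.one_left _)
    have k1 := rk' e p h.eA (h.Ac h.pA h.zA) (h.Ac h.pA h.uA) (h.Ac h.pA h.eA) (h.A2 _ h.pA)
      (c h.zA) (c h.uA) (c h.eA) (c h.pA)
    have k2 := e16 h.z1 h.tz h.tu h.sz h.su h.se gz gu h.ge h.gp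
    omega
  · obtain ⟨β, hβ, e1⟩ := h1
    rw [dds] at e1
    obtain ⟨γ, -, e2⟩ := sc β hβ (e1 ▸ c2)
    refine nz (γ⁻¹ * g) ?_
    calc γ⁻¹ * g * t * (γ⁻¹ * g)⁻¹ = γ⁻¹ * (g * t * g⁻¹) * γ := by group
      _ = s := by rw [e1, ← e2]; group
  · rw [ddf] at rc
    have c1 := (rc h.zA).2 h.fz
    have c3 := (rc h.uA).2 h.fu
    have c4 := (rc ep).2 h.fpe
    have k1 := rk' (e * p) _ ep c1 c3 c4 c2 c1 c3 c4 (Commute.refl _)
    have k2 := e16 (x4 := g * t * g⁻¹) (c4 := p) h.z1 h.tz h.tu h.sz h.su h.spe (h.Ac h.pA h.zA)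
      (h.Ac h.pA h.uA) (h.Ac h.pA ep) fun c => h.fp ((rc h.pA).1 c.symm)
    omega
  · rw [ddg] at rc
    have c1 := (rc h.zA).2 gz
    have c3 := (rc h.uA).2 gu
    have c4 := (rc h.eA).2 h.ge
    have k1 := rk' e _ h.eA c1 c3 c4 c2 c1 c3 c4 (Commute.refl _)
    have k2 := e16 (x4 := g * t * g⁻¹) (c4 := p) h.z1 h.tz h.tu h.sz h.su h.se (h.Ac h.pA h.zA)
      (h.Ac h.pA h.uA) (h.Ac h.pA h.eA) fun c => h.gp ((rc h.pA).1 c.symm)
    omega

end Kt

theorem jobUF : H48.DP.JobUF.{v} := by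
  intro G _ _ L a b s x y t e u f w v h
  classical
  refine (kt h).notSyl h.idx h.sc (fun g e1 => h.nz g (e1 ▸ h.sL)) fun X hX Xc X2 => ?_
  have c1 := card_inf_mul L X
  have c2 : L.relIndex X ≤ 2 := by
    refine relIndex_le L X [1, t] fun g hg => ?_
    obtain ⟨l, hl, k, hk, rfl⟩ := h.ct g (mem_centralizer_singleton_iff.1 (hX hg))
    rw [mem_zpowers_iff_mem_range_orderOf, h.t2] at hk
    simp only [Finset.mem_image, Finset.mem_range] at hk
    obtain ⟨n, hn, rfl⟩ := hk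
    obtain rfl | rfl : n = 0 ∨ n = 1 := by omega
    · exact ⟨1, by simp, by simpa using hl⟩
    · exact ⟨t, by simp, by rw [pow_one, mem_centralizer_iff.1 h.rc l hl]; simpa using hl⟩
  have c3 := h.rk ((L ⊓ X).subgroupOf L)
    ⟨⟨fun g g' => Subtype.ext (Subtype.ext (Xc _ g.2.2 _ g'.2.2))⟩⟩
    fun g hg => Subtype.ext (by rw [pow_two]; exact X2 _ hg.2)
  rw [Nat.card_congr (subgroupOfEquivOfLe inf_le_left).toEquiv] at c3
  have := Nat.mul_le_mul c3 c2
  omega

end H92.Dp
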