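import Cfsg.Agent.H92.DpK

/-! S3275 chapter (1), slot UN: `B ⟨t, f⟩` is a Sylow 2-subgroup of `N(Ω₁ B)`. -/

set_option autoImplicit false

namespace H92.Dp

open Subgroup Cfsg H98 H48.DP

universe v

variable {G : Type*} [Group G]

theorem commute_conj {n g α : G} : Commute (n * g * n⁻¹) (n * α * n⁻¹) ↔ Commute g α := by
  constructor
  · intro c
    have : n * (g * α) * n⁻¹ = n * (α * g) * n⁻¹ := by
      calc n * (g * α) * n⁻¹ = n * g * n⁻¹ * (n * α * n⁻¹) := by group
        _ = n * α * n⁻¹ * (n * g * n⁻¹) := c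
        _ = _ := by group
    exact mul_left_cancel (mul_right_cancel this)
  · intro c
    calc n * g * n⁻¹ * (n * α * n⁻¹) = n * (g * α) * n⁻¹ := by group
      _ = n * (α * g) * n⁻¹ := by rw [c.eq]
      _ = _ := by group

namespace Kt

variable {B A : Subgroup G} {z p u e s t f : G} (h : Kt B A z p u e s t f)
include h

theorem Ac {α β : G} (h1 : α ∈ A) (h2 : β ∈ A) : α * β = β * α := h.Bc _ (h.AB h1) _ (h.AB h2)

/-- An element centralising `z`, `u` and one of `e`, `e p` centralises a hyperplane. -/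
theorem hyper {g : G} (gz : Commute g z) (gu : Commute g u) (ge : Commute g e ∨ Commute g (e * p))
    {α α' : G} (h1 : α ∈ A) (h2 : α' ∈ A) :
    Commute g α ∨ Commute g α' ∨ Commute g (α * α') := by
  have pp : ∀ {β β' : G}, β ∈ A → β' ∈ A → β * p * (β' * p) = β * β' := fun {β β'} _ k2 => by
    rw [mul_assoc, ← mul_assoc p, h.Ac h.pA k2, mul_assoc β', h.A2 _ h.pA, mul_one]
  let X : Subgroup G :=
    { carrier := {β | β ∈ A ∧ (Commute g β ∨ Commute g (β * p))}
      one_mem' := ⟨one_mem _, Or.inl (Commute.one_right g)⟩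
      mul_mem' := by
        rintro β β' ⟨k1, c1⟩ ⟨k2, c2⟩
        refine ⟨mul_mem k1 k2, ?_⟩
        rcases c1 with c1 | c1 <;> rcases c2 with c2 | c2
        · exact Or.inl (c1.mul_right c2)
        · exact Or.inr (mul_assoc β β' p ▸ c1.mul_right c2)
        · refine Or.inr ?_
          rw [mul_assoc, ← h.Ac h.pA k2, ← mul_assoc]
          exact c1.mul_right c2
        · exact Or.inl (pp k1 k2 ▸ c1.mul_right c2)
      inv_mem' := by
        rintro β k
        rwa [inv_eq_of_mul_eq_one_left (h.A2 β k.1)] }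
  have hX : A ≤ X := h.ind X ⟨h.zA, Or.inl gz⟩
    ⟨h.pA, Or.inr (by rw [h.A2 _ h.pA]; exact Commute.one_right g)⟩ ⟨h.uA, Or.inl gu⟩ ⟨h.eA, ge⟩
  rcases (hX h1).2 with c1 | c1
  · exact Or.inl c1
  rcases (hX h2).2 with c2 | c2
  · exact Or.inr (Or.inl c2)
  · exact Or.inr (Or.inr (pp h1 h2 ▸ c1.mul_right c2))

theorem sB' : s ∉ B := fun k => h.sp (h.Bc _ k _ (h.AB h.pA))

theorem stf : t * f * (t * f) = s := by
  rw [mul_assoc, ← mul_assoc f, h.ft, mul_assoc t, ← mul_assoc t, h.t2, one_mul, mul_assoc,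
    h.sf, ← mul_assoc, h.f2, one_mul]

/-- An involution does not lie in `t f B` or `t f s B`. -/
theorem inv2 {g : G} {i j k : Bool} (h1 : R B s t f g i j k) (g2 : g * g = 1) :
    (j && i) = false := by
  have := h.rmul h1 h1
  rw [g2] at this
  cases i <;> cases j <;> cases k <;> first | rfl | exact absurd this h.ns

theorem syl [Finite G] (sylB : IsSyl 2 B (Ce A))
    (tc : ∀ β ∈ B, (t * β) * (t * β) = 1 → ∃ γ ∈ B, γ * t * γ⁻¹ = t * β)
    (ct : ∀ Q : Subgroup G, IsPGroup 2 Q → B ⊔ closure {t, f} ≤ Q → ∀ c ∈ Q, Commute c t →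
      c ∈ B ⊔ closure ({t, f} : Set G)) :
    IsSyl 2 (B ⊔ closure {t, f}) (No A) := by
  refine isSyl_of_isSyl_normalizer ⟨le_inf h.TA le_normalizer, h.pT, fun Q hQ TQ QN => ?_⟩
  have eB : (B ⊔ closure {t, f}) ⊓ Ce A = B :=
    sylB.eq_of_le (h.pT.to_le inf_le_left) (le_inf le_sup_left sylB.le) inf_le_right
  have QB : Q ≤ No B := by
    rw [← eB]
    exact le_normalizer_inf (QN.trans inf_le_right)
      (le_normalizer_centralizer (QN.trans inf_le_left))
  have c2 : ∀ n g : G, g * g = 1 → n * g * n⁻¹ * (n * g * n⁻¹) = 1 := fun n g g2 => by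
    rw [conj_mul, g2]; simp
  have key : ∀ n ∈ Q, R B s t f (n * t * n⁻¹) true false false →
      n ∈ B ⊔ closure ({t, f} : Set G) := by
    rintro n hn ⟨β, hβ, e1⟩
    rw [ddt] at e1
    obtain ⟨γ, hγ, e2⟩ := tc β hβ (e1 ▸ c2 n t h.t2)
    have : Commute (γ⁻¹ * n) t := by
      refine mul_inv_eq_iff_eq_mul.1 ?_
      calc γ⁻¹ * n * t * (γ⁻¹ * n)⁻¹ = γ⁻¹ * (n * t * n⁻¹) * γ := by group
        _ = t := by rw [e1, ← e2]; group
    simpa using mul_mem (mem_sup_left hγ)
      (ct Q hQ TQ _ (mul_mem (inv_mem (TQ (mem_sup_left hγ))) hn) this)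
  refine le_antisymm (fun n hn => ?_) TQ
  have nT := (QN hn).2
  obtain ⟨i, j, k, h1⟩ := h.memT (conj_mem_of_mem_normalizer nT tT)
  obtain ⟨i', j', k', h2⟩ := h.memT (conj_mem_of_mem_normalizer nT fT)
  have a1 := h.inv2 h1 (c2 n t h.t2)
  have a2 := h.inv2 h2 (c2 n f h.f2)
  have a3 := h.rmul (h.rmul h1 h2) (h.rmul h1 h2)
  rw [conj_mul, conj_mul, h.stf] at a3
  have a4 : ¬ R B s t f (n * s * n⁻¹) false false false := fun k1 =>
    h.sB' (by simpa [mul_assoc] using conj_mem_of_mem_normalizer' (QB hn) (r0.1 k1))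
  have a5 : ∀ k, ¬ R B s t f (n * t * n⁻¹) false true k := fun k k1 => by
    have nA := (QN hn).1
    have u' := conj_mem_of_mem_normalizer nA h.uA
    have e' := conj_mem_of_mem_normalizer nA h.eA
    have : Commute (dd s t f false true k) (n * u * n⁻¹) ∨
        Commute (dd s t f false true k) (n * e * n⁻¹) ∨
        Commute (dd s t f false true k) (n * u * n⁻¹ * (n * e * n⁻¹)) := by
      cases k
      · rw [ddf]; exact h.hyper h.fz h.fu (Or.inr h.fpe) u' e'
      · rw [ddg]; exact h.hyper (h.fz.mul_left h.sz) (h.fu.mul_left h.su) (Or.inl h.ge) u' e'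
    rw [← h.rcomm k1 (h.AB u'), ← h.rcomm k1 (h.AB e'), ← h.rcomm k1 (h.AB (mul_mem u' e')),
      conj_mul, commute_conj, commute_conj, commute_conj] at this
    exact this.elim h.tu fun c => c.elim h.te h.tue
  have a6 : R B s t f (n * t * n⁻¹) true false true → n ∈ B ⊔ closure ({t, f} : Set G) := by
    intro k1
    have rf : R B s t f f false true false := ⟨1, one_mem _, by rw [ddf, mul_one]⟩
    have := h.rmul (h.rmul rf k1) (h.rinv rf)
    rw [show f * (n * t * n⁻¹) * f⁻¹ = f * n * t * (f * n)⁻¹ by group] at this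
    simpa using mul_mem (inv_mem fT) (key _ (mul_mem (TQ fT) hn) this)
  cases i <;> cases j <;> cases k <;>
    first
    | exact key n hn h1
    | exact a6 h1
    | exact absurd h1 (a5 _)
    | exact absurd a1 (by decide)
    | (cases i' <;> cases j' <;> cases k' <;>
        first | exact absurd a3 a4 | exact absurd a2 (by decide))

end Kt

theorem jobUN : H48.DP.JobUN.{v} := by
  intro G _ _ L a b s x y t e u f w v h
  refine (kt h).syl h.sylB h.tc fun Q hQ TQ c hc ct => ?_
  obtain ⟨l, hl, k, hk, rfl⟩ := h.ct c ct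
  have kT : k ∈ Bs a b w v ⊔ closure {t, f} := zpowers_le.2 Kt.tT hk
  have W : closure ({a, b, s} : Set G) ≤ Bs a b w v ⊔ closure {t, f} := (closure_le _).2 (by
    rintro _ (rfl | rfl | rfl)
    exacts [mem_sup_left (subset_closure (by simp)), mem_sup_left (subset_closure (by simp)),
      (kt h).sT])
  have := h.syl.eq_of_le (hQ.to_le (inf_le_left (b := L))) (le_inf (W.trans TQ) h.syl.le)
    inf_le_right
  have lQ : l ∈ Q ⊓ L := ⟨by simpa using mul_mem hc (inv_mem (TQ kT)), hl⟩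
  exact mul_mem (W (this ▸ lQ)) kT

end H92.Dp
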