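import Cfsg.Agent.H92.DpUN

/-! S3275 chapter (1), slot UT: `B` is weakly closed in `T`, so `T` is a Sylow 2-subgroup. -/

set_option autoImplicit false

namespace H92.Dp

open Subgroup Cfsg H98 H48.DP

universe v

variable {G : Type*} [Group G]

namespace Kt

variable {B A : Subgroup G} {z p u e s t f : G} (h : Kt B A z p u e s t f)
include h

theorem rel8 {X : Subgroup G} (hX : X ≤ B ⊔ closure {t, f}) : B.relIndex X ≤ 8 := by
  refine relIndex_le B X [dd s t f false false false, dd s t f false false true,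
    dd s t f false true false, dd s t f false true true, dd s t f true false false,
    dd s t f true false true, dd s t f true true false, dd s t f true true true] fun x hx => ?_
  obtain ⟨i, j, k, β, hβ, rfl⟩ := h.memT (hX hx)
  refine ⟨dd s t f i j k, ?_, by simpa using hβ⟩
  cases i <;> cases j <;> cases k <;> simp

theorem wc [Finite G] (sylB : IsSyl 2 B (Ce A)) (cB : Nat.card B = 256)
    (cs : Nat.card ↥(B ⊓ C1 s) = 16) (gsq : ∀ X : Subgroup G, (∀ β ∈ B, β * β ∈ X) → A ≤ X)
    {X : Subgroup G} (hX : X ≤ B ⊔ closure {t, f}) (cX : Nat.card X = 256)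
    (Xc : ∀ x ∈ X, ∀ y ∈ X, Commute x y) : X ≤ B := by
  have eB : (B ⊔ closure {t, f}) ⊓ Ce A = B :=
    sylB.eq_of_le (h.pT.to_le inf_le_left) (le_inf le_sup_left sylB.le) inf_le_right
  have c1 := card_inf_mul B X
  have ns : ∀ x ∈ X, ¬ R B s t f x false false true := fun x hx k => by
    have : B ⊓ X ≤ B ⊓ C1 s := fun β hβ => ⟨hβ.1, mem_centralizer_singleton_iff.2 (by
      have := (h.rcomm k hβ.1).1 (Xc _ hx _ hβ.2)
      rw [dds] at this
      exact this.symm)⟩
    have c2 := card_le_of_le this
    have c3 := Nat.mul_le_mul c2 (h.rel8 hX)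
    omega
  have n2 : ∀ x ∈ X, ∀ k, ¬ R B s t f x true true k := fun x hx k k1 => by
    have := h.rmul k1 k1
    cases k <;> exact ns _ (mul_mem hx hx) this
  intro δ hδ
  by_contra hn
  have c2 : B.relIndex X ≤ 2 := by
    refine relIndex_le B X [1, δ] fun x hx => ?_
    by_cases hB : x ∈ B
    · exact ⟨1, by simp, by simpa using hB⟩
    refine ⟨δ, by simp, ?_⟩
    obtain ⟨i, j, k, h1⟩ := h.memT (hX hδ)
    obtain ⟨i', j', k', h2⟩ := h.memT (hX hx)
    have h3 := h.rmul (h.rinv h1) h2
    have m := mul_mem (inv_mem hδ) hx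
    cases i <;> cases j <;> cases k <;>
      first
      | exact absurd (r0.1 h1) hn
      | exact absurd h1 (ns _ hδ)
      | exact absurd h1 (n2 _ hδ _)
      | (cases i' <;> cases j' <;> cases k' <;>
          first
          | exact absurd (r0.1 h2) hB
          | exact absurd h2 (ns _ hx)
          | exact absurd h2 (n2 _ hx _)
          | exact r0.1 h3
          | exact absurd h3 (ns _ m)
          | exact absurd h3 (n2 _ m _))
  have c3 := card_inf_mul X B
  rw [inf_comm, cB, ← cX, ← c1] at c3
  have c4 : X.relIndex B = B.relIndex X := Nat.eq_of_mul_eq_mul_left Nat.card_pos c3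
  have AX : A ≤ X := gsq X fun β hβ => by
    have c5 : X.relIndex B ≠ 0 := index_ne_zero_of_finite
    rcases (show X.relIndex B = 1 ∨ X.relIndex B = 2 by omega) with c | c
    · exact relIndex_eq_one.1 c (mul_mem hβ hβ)
    · exact mul_self_mem_of_index_two c ⟨β, hβ⟩
  exact hn (eB ▸ ⟨hX hδ, mem_centralizer_iff.2 fun α hα => Xc _ (AX hα) _ hδ⟩)

end Kt

theorem jobUT : H48.DP.JobUT.{v} := by
  intro G _ _ L a b s x y t e u f w v h hs
  have k := kt h
  refine isSyl_of_isSyl_normalizer (hs.of_le (le_inf le_top le_normalizer) fun g hg => k.NB ?_)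
  refine mem_normalizer_of_cj_le (k.wc h.sylB h.cB h.cs (fun X hX => (closure_le _).2 ?_)
    (cj_le_of_le le_sup_left hg.2) (by rw [card_cj, h.cB]) fun x hx y hy => ?_)
  · rintro _ (rfl | rfl | rfl | rfl) <;> rw [pow_two] <;> exact hX _ (subset_closure (by simp))
  · have := (commute_conj (n := g)).2 (k.Bc _ (mem_cj.1 hx) _ (mem_cj.1 hy))
    simpa [mul_assoc] using this

end H92.Dp
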