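import Cfsg.Agent.H36.E7MSpec

/-! E7MAX (S5934): slot SR. -/

set_option autoImplicit false

namespace H92.E7mSR

open H36.E7M

theorem jobSR : JobSR := by
  intro p lq _ phi crit
  refine ⟨?_, fun i => ?_, ?_, ?_⟩
  · rintro ⟨a, h1, h2, h3, h4⟩
    rcases (phi.2.1 a h1).1 h4 with rfl | h
    exacts [p.one h2, h3 h]
  · have h := rel_x (r := 93 + i) (by omega)
    have e : lev (93 + i) = 1 := by have := lev_cases (93 + i); omega
    rw [e, p.col] at h
    exact ⟨_, h.2.1, h.1, h.2.2, phi.2.2.2.1 i⟩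
  · rintro l hl _ ⟨a, h1, h2, h3, rfl⟩
    refine ⟨cj l a, lq.1 l hl a h1, D_cj l h2, fun e => h3 (cj_inj (g := l) ?_),
      phi.2.2.2.2 l hl a h1⟩
    rw [e, cj_eq_iff.2 (lq.2.1 l hl).1]
  · rintro q hq ⟨a, h1, h2, h3, h4⟩
    have aa : a * a = 1 := by
      obtain ⟨g, rfl⟩ := h2
      rw [← cj_mul, p.zz, cj_def, mul_one, mul_inv_cancel]
    have h0 : φ (a * q) = 0 := by
      rw [phi.1 a h1 q hq, h4]
      ext i
      generalize φ q = w
      exact (by decide : ∀ t : ZMod 2, t + t = 0) (w i)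
    rcases (phi.2.1 _ (mul_mem h1 hq)).1 h0 with e | e
    · obtain rfl : q = a := mul_left_cancel (e.trans aa.symm)
      exact crit q h2 h1 h3
    · obtain rfl : q = a * z := by rw [← e, ← mul_assoc, aa, one_mul]
      obtain ⟨k1, k2, k3⟩ := (p.col _).1 (p.line a ((p.col a).2 ⟨h2, h1, h3⟩)).1
      exact crit _ k1 k2 k3

end H92.E7mSR
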