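/- Tower FB, slot N3a: a semiregular elementary abelian 3-subgroup has order at most 27. -/
import Cfsg.Agent.H11.FBSpec

set_option autoImplicit false

namespace H92.FbN3a

open MulAction Subgroup H11.FB

universe u v

theorem card_le_ker_mul {A : Type*} [Group A] [Finite A] (f : A →* A) (R : Subgroup A) :
    Nat.card R ≤ Nat.card f.ker * Nat.card (R.map f) := by
  have h := card_mul_index (f.comp R.subtype).ker
  rw [index_ker, MonoidHom.range_comp, range_subtype] at h
  rw [← h]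
  refine Nat.mul_le_mul_right _ (Nat.card_le_card_of_injective
    (fun x : (f.comp R.subtype).ker => (⟨x.1.1, x.2⟩ : f.ker)) fun x y e => ?_)
  exact Subtype.ext (Subtype.ext (Subtype.mk.inj e))

theorem card_le_cube {A : Type*} [CommGroup A] [Finite A] (s : A →* A) (h3 : ∀ x : A, x ^ 3 = 1)
    (hs : ∀ x, s (s (s x)) = x) (hk : Nat.card {x // s x = x} ≤ 3) : Nat.card A ≤ 27 := by
  let f : A →* A := s / MonoidHom.id A
  have hf : ∀ x, f x = s x * x⁻¹ := fun x => div_eq_mul_inv _ _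
  have k : Nat.card f.ker ≤ 3 := by
    refine le_trans (Nat.card_le_card_of_injective
      (fun x : f.ker => (⟨x.1, ?_⟩ : {x // s x = x})) fun x y e => ?_) hk
    · have := x.2
      rwa [MonoidHom.mem_ker, hf, mul_inv_eq_one] at this
    · exact Subtype.ext (Subtype.mk.inj e)
  have e : (((⊤ : Subgroup A).map f).map f).map f = ⊥ := by
    rw [eq_bot_iff]
    rintro _ ⟨_, ⟨_, ⟨x, -, rfl⟩, rfl⟩, rfl⟩
    rw [mem_bot]
    simp only [hf, map_mul, map_inv, hs]
    have : x * (s (s x))⁻¹ * (s (s x) * (s x)⁻¹)⁻¹ *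
        (s (s x) * (s x)⁻¹ * (s x * x⁻¹)⁻¹)⁻¹ = s x ^ 3 * (s (s x) ^ 3)⁻¹ * (x * x⁻¹) := by
      apply Additive.ofMul.injective
      simp only [ofMul_mul, ofMul_inv, ofMul_pow]
      abel
    rw [this, h3, h3]; simp
  have h0 := card_le_ker_mul f ⊤
  have h1 := card_le_ker_mul f ((⊤ : Subgroup A).map f)
  have h2 := card_le_ker_mul f (((⊤ : Subgroup A).map f).map f)
  rw [e, card_bot] at h2
  rw [card_top] at h0
  calc Nat.card A ≤ _ := h0
    _ ≤ 3 * (3 * (3 * 1)) :=
      Nat.mul_le_mul k (h1.trans (Nat.mul_le_mul k (h2.trans (Nat.mul_le_mul_right _ k))))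

theorem jobN3a : JobN3a.{u, v} := by
  intro G Ω _ _ _ _ _ _ a b c d B t4 hd hB ab e3 nrm sr
  by_cases h0 : B = ⊥
  · rw [h0, card_bot]; norm_num
  obtain ⟨⟨y, hy⟩, y1⟩ := (ne_bot_iff_exists_ne_one).1 h0
  have y1 : y ≠ 1 := fun e => y1 (Subtype.ext e)
  obtain ⟨d1, d2, d3, d4, d5, d6⟩ := hd
  obtain ⟨ya, yb, yc⟩ := mem_X3.1 (hB hy)
  have inj : ∀ g : G, Function.Injective fun ω : Ω => g • ω := fun g => MulAction.injective g
  have mv : ∀ x ∈ B, x ≠ 1 → x • d ≠ d := fun x hx x1 e => x1 (sr x hx d d3.symm d5.symm d6.symm e)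
  have y3 : y * y * y = 1 := by rw [← e3 y hy, pow_succ, pow_two]
  have yy1 : y * y ≠ 1 := fun e => y1 (by rw [e, one_mul] at y3; exact y3)
  have n1 : y • d ≠ d := mv y hy y1
  have n2 : y • y • d ≠ d := by rw [← mul_smul]; exact mv _ (mul_mem hy hy) yy1
  have na : ∀ ω, ω ≠ a → y • ω ≠ a := fun ω h e => h (inj y (e.trans ya.symm))
  obtain ⟨g, -, g1, g2, g3, g4⟩ := t4 d (y • d) (y • y • d) a a b c d
    ⟨n1.symm, n2.symm, d3.symm, (inj y).ne n1.symm, na _ d3.symm, na _ (na _ d3.symm)⟩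
    ⟨d1, d2, d3, d4, d5, d6⟩ trivial trivial trivial trivial trivial trivial trivial trivial
  set w := g * y * g⁻¹ with hw
  have ws : ∀ ω : Ω, w • g • ω = g • y • ω := fun ω => by
    rw [hw, mul_smul, mul_smul, inv_smul_smul]
  have wa : w • a = b := by rw [← g2, ← ws, g1]
  have wb : w • b = c := by rw [← g3, ← ws, g2]
  have wc : w • c = a := by
    rw [← g3, ws, ← mul_smul y y, ← mul_smul (y * y) y, y3, one_smul, g1]
  have wd : w • d = d := by rw [← g4, ws, ya]
  have w3 : w * w * w = 1 := by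
    calc w * w * w = g * (y * y * y) * g⁻¹ := by rw [hw]; group
      _ = 1 := by rw [y3]; group
  have wn : ∀ x ∈ B, w * x * w⁻¹ ∈ B := nrm w fun x hx => by
    obtain ⟨xa, xb, xc⟩ := mem_X3.1 hx
    refine mem_X3.2 ⟨?_, ?_, ?_⟩
    · rw [mul_smul, mul_smul, inv_smul_eq_iff.2 wc.symm, xc, wc]
    · rw [mul_smul, mul_smul, inv_smul_eq_iff.2 wa.symm, xa, wa]
    · rw [mul_smul, mul_smul, inv_smul_eq_iff.2 wb.symm, xb, wb]
  letI : CommGroup B := { (inferInstance : Group B) with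
    mul_comm := fun x y => Subtype.ext (ab _ x.2 _ y.2) }
  let s : B →* B := MonoidHom.mk' (fun x => ⟨w * x * w⁻¹, wn x x.2⟩) fun x y =>
    Subtype.ext (by simp [mul_assoc])
  refine card_le_cube s (fun x => Subtype.ext (e3 x x.2)) (fun x => Subtype.ext ?_) ?_
  · show w * (w * (w * x * w⁻¹) * w⁻¹) * w⁻¹ = x
    calc w * (w * (w * x * w⁻¹) * w⁻¹) * w⁻¹ = (w * w * w) * x * (w * w * w)⁻¹ := by group
      _ = x := by rw [w3]; group
  · have hm : ∀ x : {x // s x = x}, g⁻¹ • (x.1 : G) • d ∈ ({a, b, c} : Finset Ω) := fun x => by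
      have e : w * x.1 * w⁻¹ = x.1 := congrArg Subtype.val x.2
      have e1 : w • (x.1 : G) • d = (x.1 : G) • d := by
        conv_rhs => rw [← e, mul_smul, mul_smul, inv_smul_eq_iff.2 wd.symm]
      have e2 : y • g⁻¹ • (x.1 : G) • d = g⁻¹ • (x.1 : G) • d := by
        apply inj g
        beta_reduce
        rw [← ws, smul_inv_smul, e1]
      by_contra hn
      simp only [Finset.mem_insert, Finset.mem_singleton, not_or] at hn
      exact y1 (sr y hy _ hn.1 hn.2.1 hn.2.2 e2)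
    refine (Nat.card_le_card_of_injective
      (fun x : {x // s x = x} => (⟨_, hm x⟩ : ({a, b, c} : Finset Ω))) fun x x' e => ?_).trans ?_
    · have e1 : (x.1 : G) • d = (x'.1 : G) • d := inj g⁻¹ (Subtype.mk.inj e)
      have e2 := sr _ (mul_mem (inv_mem x'.1.2) x.1.2) d d3.symm d5.symm d6.symm (by
        rw [mul_smul, e1, inv_smul_smul])
      exact Subtype.ext (Subtype.ext (inv_mul_eq_one.1 e2).symm)
    · rw [Nat.card_eq_fintype_card, Fintype.card_coe]
      exact Finset.card_le_three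

end H92.FbN3a
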