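import Cfsg.Agent.H15.KGKit
import Cfsg.Agent.H66.SzSylow

/-! Tower KG, slots NT and Sz. -/

set_option autoImplicit false

namespace H92.Kg

open Subgroup H15.KG Finset

universe u

theorem prime_cases {p : ℕ} (hp : p.Prime) : p = 2 ∨ p = 3 ∨ 5 ≤ p := by
  have := hp.two_le
  have : p ≠ 4 := by rintro rfl; norm_num at hp
  omega

theorem thirty {p q r : ℕ} (hp : p.Prime) (hq : q.Prime) (hr : r.Prime) (h1 : p ≠ q) (h2 : p ≠ r)
    (h3 : q ≠ r) : 30 ≤ p * q * r := by
  rcases prime_cases hp with a | a | a <;> rcases prime_cases hq with b | b | b <;>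
    rcases prime_cases hr with c | c | c <;>
    first | omega | nlinarith [Nat.mul_le_mul a.ge b.ge]

theorem jobNT : JobNT.{u} := fun G _ _ h5 hk x => by
  classical
  by_contra! h
  obtain ⟨p, q, r, hp, hq, hr, h1, h2, h3⟩ := two_lt_card_iff.1 h
  have pp := Nat.prime_of_mem_primeFactors hp
  have pq := Nat.prime_of_mem_primeFactors hq
  have pr := Nat.prime_of_mem_primeFactors hr
  have c1 := (Nat.coprime_primes pp pq).2 h1
  have c2 : (p * q).Coprime r :=
    Nat.Coprime.mul_left ((Nat.coprime_primes pp pr).2 h2) ((Nat.coprime_primes pq pr).2 h3)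
  have hd : p * q * r ∣ orderOf x := c2.mul_dvd_of_dvd_of_dvd (c1.mul_dvd_of_dvd_of_dvd
    (Nat.dvd_of_mem_primeFactors hp) (Nat.dvd_of_mem_primeFactors hq)) (Nat.dvd_of_mem_primeFactors hr)
  have h30 : 30 ≤ cc x :=
    (thirty pp pq pr h1 h2 h3).trans (Nat.le_of_dvd (cc_pos x) (hd.trans (ord_dvd_cc x)))
  let T : Finset (Cl G) := univ.filter fun i => 30 ≤ cc (rep i)
  have hT : 7 ≤ T.card := by
    have e : ((p * q * r).divisors.erase 1).card = 7 := by
      rw [card_erase_of_mem (Nat.one_mem_divisors.2 (by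
        have := thirty pp pq pr h1 h2 h3; omega)), c2.card_divisors_mul, c1.card_divisors_mul,
        pp.divisors, pq.divisors, pr.divisors, card_pair pp.one_lt.ne, card_pair pq.one_lt.ne,
        card_pair pr.one_lt.ne]
    rw [← e]
    refine le_trans (card_le_card fun d hd' => ?_) (card_image_le (f := fun i => orderOf (rep i)))
    obtain ⟨d1, d2⟩ := mem_erase.1 hd'
    have o := orderOf_pow_orderOf_div (orderOf_pos x).ne' ((Nat.dvd_of_mem_divisors d2).trans hd)
    obtain ⟨i, hi⟩ := exists_rep (x := x ^ (orderOf x / d)) fun k => d1 (by rw [← o, k, orderOf_one])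
    refine mem_image.2 ⟨i, mem_filter.2 ⟨mem_univ _, ?_⟩, (ord_conj hi).symm.trans o⟩
    rw [← cc_conj hi]
    exact h30.trans (Nat.le_of_dvd (cc_pos _) (cc_dvd_pow x _))
  let := Fintype.ofFinite G
  have hs := sum_class (G := G) (fun _ => 1) fun _ _ _ => rfl
  simp only [sum_const, card_univ, smul_eq_mul, mul_one, ← Nat.card_eq_fintype_card (α := G)] at hs
  have hc := card_cl (G := G)
  have hf := card_filter_add_card_filter_not (s := univ) fun i : Cl G => 30 ≤ cc (rep i)
  rw [card_univ] at hf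
  rw [← sum_filter_add_sum_filter_not univ fun i : Cl G => 30 ≤ cc (rep i)] at hs
  have b1 : ∑ i ∈ T, Nat.card G / cc (rep i) ≤ T.card * (Nat.card G / 30) :=
    sum_le_card_nsmul _ _ _ fun i hi => Nat.div_le_div_left (mem_filter.1 hi).2 (by norm_num)
  have b2 : ∑ i ∈ univ.filter fun i : Cl G => ¬ 30 ≤ cc (rep i), Nat.card G / cc (rep i) ≤
      (univ.filter fun i : Cl G => ¬ 30 ≤ cc (rep i)).card * (Nat.card G / 5) :=
    sum_le_card_nsmul _ _ _ fun i _ => Nat.div_le_div_left (h5 _) (by norm_num)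
  have b3 : 30 ≤ Nat.card G := h30.trans (Nat.le_of_dvd Nat.card_pos (cc_dvd x))
  have b4 := Nat.mul_le_mul_right (Nat.card G / 30) (show T.card ≤ 10 by simp only [T]; omega)
  have b5 := Nat.mul_le_mul_right (Nat.card G / 5)
    (show (univ.filter fun i : Cl G => ¬ 30 ≤ cc (rep i)).card ≤ 3 by simp only [T] at hT; omega)
  simp only [T] at b1 b4
  omega

theorem jobSz : JobSz := fun F _ _ c x k hx h8 => by
  have hT := H66.titsOf_isFin F (m := 1) le_rfl c
  obtain ⟨g, hg⟩ := (H66.modelB hT).exists_conj_mem_Q hT (g := x) (hx ▸ pow_orderOf_eq_one x)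
  generalize (H66.modelB hT).conj g = M at hg
  have fin : Finite (centralizer ({x} : Set (Cfsg.Lie.Sz F 4))) :=
    Nat.finite_of_card_ne_zero (by rw [show Nat.card _ = 8 from h8]; norm_num)
  obtain ⟨a, b, rfl⟩ := M.mem_Q.1 hg
  have h1 : M.Z ≤ centralizer {M.u a b} := fun z hz => by
    obtain ⟨d, rfl⟩ := M.mem_Z.1 hz
    exact mem_centralizer_singleton_iff.2 (M.z_comm _ _ _)
  have h2 : M.Z = centralizer {M.u a b} := eq_of_le_of_card_ge h1 (by
    rw [M.card_Z, Nat.card_eq_fintype_card (α := F), c]; exact h8.le)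
  obtain ⟨d, hd⟩ := M.mem_Z.1 (h2 ▸ mem_centralizer_singleton_iff.2 rfl : M.u a b ∈ M.Z)
  have h3 : M.Q ≤ centralizer {M.u a b} := fun z hz => by
    obtain ⟨a', b', rfl⟩ := M.mem_Q.1 hz
    rw [hd]
    exact mem_centralizer_singleton_iff.2 (M.z_comm _ _ _).symm
  have h4 := card_le_of_le h3
  rw [M.card_Q, Nat.card_eq_fintype_card (α := F), c] at h4
  exact absurd (h4.trans h8.le) (by norm_num)

end H92.Kg
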