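import Cfsg.Agent.H11.QdSylow

/-! Irreducible `SL(2,F)`-modules that are quadratic or small are natural. -/

set_option autoImplicit false
set_option linter.unusedSectionVars false

namespace H92.NQ

open Matrix MatrixGroups H11

variable {F : Type*} [Field F]

/-- the monomial matrix `n(t)` -/
def nM (t : F) : SL(2, F) := uMat t * lMat (-t⁻¹) * uMat t

theorem nM_app {t : F} (ht : t ≠ 0) : nM t 0 0 = 0 ∧ nM t 0 1 = t ∧ nM t 1 0 = -t⁻¹ ∧
    nM t 1 1 = 0 := by
  unfold nM
  refine ⟨?_, ?_, ?_, ?_⟩ <;> simp only [sl_mul_apply] <;> simp [ht]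

theorem u_n {t : F} (ht : t ≠ 0) (s : F) : uMat s * nM t = nM t * lMat (-s * t⁻¹ ^ 2) := by
  obtain ⟨h1, h2, h3, h4⟩ := nM_app ht
  apply sl_ext <;> simp only [sl_mul_apply, h1, h2, h3, h4] <;> simp <;> field_simp

theorem l_n {t : F} (ht : t ≠ 0) (s : F) : lMat s * nM t = nM t * uMat (-s * t ^ 2) := by
  obtain ⟨h1, h2, h3, h4⟩ := nM_app ht
  apply sl_ext <;> simp only [sl_mul_apply, h1, h2, h3, h4] <;> simp <;> field_simp

theorem n_n_n {s t : F} (hs : s ≠ 0) (ht : t ≠ 0) :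
    nM s * (nM 1)⁻¹ * nM t = nM (s * t) := by
  obtain ⟨h1, h2, h3, h4⟩ := nM_app hs
  obtain ⟨k1, k2, k3, k4⟩ := nM_app ht
  obtain ⟨l1, l2, l3, l4⟩ := nM_app (mul_ne_zero hs ht)
  obtain ⟨m1, m2, m3, m4⟩ := nM_app (one_ne_zero (α := F))
  apply sl_ext <;> simp only [sl_mul_apply, sl_inv_00, sl_inv_01, sl_inv_10, sl_inv_11, h1, h2, h3,
    h4, k1, k2, k3, k4, l1, l2, l3, l4, m1, m2, m3, m4] <;> simp <;> field_simp

theorem n_neg_one : nM (-1 : F) = (nM 1)⁻¹ := by
  obtain ⟨h1, h2, h3, h4⟩ := nM_app (neg_ne_zero.2 (one_ne_zero (α := F)))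
  obtain ⟨m1, m2, m3, m4⟩ := nM_app (one_ne_zero (α := F))
  apply sl_ext <;> simp only [sl_inv_00, sl_inv_01, sl_inv_10, sl_inv_11, h1, h2, h3,
    h4, m1, m2, m3, m4] <;> simp

theorem n_four : nM (1 : F) * nM 1 * nM 1 = (nM 1)⁻¹ := by
  obtain ⟨m1, m2, m3, m4⟩ := nM_app (one_ne_zero (α := F))
  apply sl_ext <;> simp only [sl_mul_apply, sl_inv_00, sl_inv_01, sl_inv_10, sl_inv_11,
    m1, m2, m3, m4] <;> simp

theorem ind (P : SL(2, F) → Prop) (hu : ∀ t, P (uMat t)) (hl : ∀ t, P (lMat t))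
    (hm : ∀ a b, P a → P b → P (a * b)) (g : SL(2, F)) : P g := by
  have key : ∀ g : SL(2, F), g 1 0 ≠ 0 → P g := by
    intro g hc
    have hd := sl_det g
    have : g = uMat ((g 0 0 - 1) / g 1 0) * lMat (g 1 0) * uMat ((g 1 1 - 1) / g 1 0) := by
      apply sl_ext <;> simp only [sl_mul_apply] <;> simp <;> field_simp
      · ring
      · linear_combination -hd
      · ring
    rw [this]
    exact hm _ _ (hm _ _ (hu _) (hl _)) (hu _)
  by_cases hc : g 1 0 = 0
  · have hd := sl_det g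
    have : P (lMat 1 * g) := by
      apply key
      rw [sl_mul_apply]
      simp only [lMat_coe, hc]
      simp only [hc] at hd
      intro h
      simp at h
      simp [h] at hd
    have h2 := hm _ _ (hl (-1)) this
    rwa [lMat_neg, inv_mul_cancel_left] at h2
  · exact key g hc

theorem ind' (P : SL(2, F) → Prop) (hu : ∀ t, P (uMat t)) (hn : P (nM 1))
    (hm : ∀ a b, P a → P b → P (a * b)) (g : SL(2, F)) : P g := by
  refine ind P hu (fun t => ?_) hm g
  have : lMat t = nM 1 * uMat (-t * 1 ^ 2) * (nM 1 * nM 1 * nM 1) := by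
    rw [← l_n one_ne_zero, n_four, mul_inv_cancel_right]
  rw [this]
  exact hm _ _ (hm _ _ hn (hu _)) (hm _ _ (hm _ _ hn hn) hn)

variable {M : Type*} [AddCommGroup M] [DistribMulAction SL(2, F) M]

/-- fixed points of the upper unitriangular group -/
def U (F : Type*) [Field F] (M : Type*) [AddCommGroup M] [DistribMulAction SL(2, F) M] :
    AddSubgroup M where
  carrier := {v | ∀ t : F, uMat t • v = v}
  zero_mem' := fun _ => smul_zero _
  add_mem' := fun ha hb t => by rw [smul_add, ha t, hb t]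
  neg_mem' := fun ha t => by rw [smul_neg, ha t]

/-- fixed points of the lower unitriangular group -/
def W (F : Type*) [Field F] (M : Type*) [AddCommGroup M] [DistribMulAction SL(2, F) M] :
    AddSubgroup M where
  carrier := {v | ∀ t : F, lMat t • v = v}
  zero_mem' := fun _ => smul_zero _
  add_mem' := fun ha hb t => by rw [smul_add, ha t, hb t]
  neg_mem' := fun ha t => by rw [smul_neg, ha t]

theorem n_U {t : F} (ht : t ≠ 0) {v : M} (hv : v ∈ U F M) : nM t • v ∈ W F M := fun s => by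
  rw [← mul_smul, l_n ht, mul_smul, hv]

theorem n_W {t : F} (ht : t ≠ 0) {v : M} (hv : v ∈ W F M) : nM t • v ∈ U F M := fun s => by
  rw [← mul_smul, u_n ht, mul_smul, hv]

/-- `W₁` -/
def In1 (F : Type*) [Field F] {M : Type*} [AddCommGroup M] [DistribMulAction SL(2, F) M] (v : M) :
    Prop := v ∈ W F M ∧ ∀ t : F, uMat t • v - v ∈ U F M

theorem In1.u_eq (hd : ∀ v, v ∈ U F M → v ∈ W F M → v = 0) {v : M} (hv : In1 F v) {t : F}
    (ht : t ≠ 0) : uMat t • v - v = nM t • v := by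
  have h1 : nM t • v ∈ U F M := n_W ht hv.1
  have h2 : uMat t • v = lMat t⁻¹ • nM t • v := by
    have : lMat (-t⁻¹) • uMat t • v = nM t • v := by
      rw [← h1 (-t), ← mul_smul, ← mul_smul, nM, uMat_neg, mul_assoc, inv_mul_cancel_left]
    rw [← this, ← mul_smul (lMat t⁻¹), lMat_neg, mul_inv_cancel, one_smul]
  have h3 : lMat t⁻¹ • nM t • v - nM t • v ∈ W F M := by
    rw [← mul_smul, l_n ht, mul_smul, ← smul_sub]
    exact n_U ht (hv.2 _)
  rw [← sub_eq_zero]
  refine hd _ (sub_mem (hv.2 t) h1) ?_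
  have : uMat t • v - v - nM t • v = (lMat t⁻¹ • nM t • v - nM t • v) - v := by rw [h2]; abel
  rw [this]
  exact sub_mem h3 hv.1

theorem In1.dn {v : M} (hv : In1 F v) {t : F} (ht : t ≠ 0) :
    In1 F ((nM (1 : F))⁻¹ • nM t • v) := by
  have h1 : (-1 : F) ≠ 0 := neg_ne_zero.2 one_ne_zero
  rw [← n_neg_one]
  refine ⟨n_U h1 (n_W ht hv.1), fun s => ?_⟩
  rw [← mul_smul (uMat s), u_n h1, mul_smul, ← mul_smul (lMat _), l_n ht, mul_smul, ← smul_sub,
    ← smul_sub]
  exact n_W h1 (n_U ht (hv.2 _))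

theorem nat_of_in1 (hd : ∀ v, v ∈ U F M → v ∈ W F M → v = 0)
    (hirr : ∀ X : AddSubgroup M, (∀ g : SL(2, F), ∀ v ∈ X, g • v ∈ X) → X = ⊥ ∨ X = ⊤)
    {v : M} (hv : In1 F v) (h0 : v ≠ 0) :
    ∃ θ : (Fin 2 → F) ≃+ M, ∀ (g : SL(2, F)) x,
      θ ((g : Matrix (Fin 2) (Fin 2) F).mulVec x) = g • θ x := by
  let c : F →+ M := AddMonoidHom.mk' (fun t => (nM (1 : F))⁻¹ • (uMat t • v - v)) fun s t => by
    have := hv.2 t s
    rw [smul_sub] at this
    rw [← smul_add, uMat_add, mul_smul]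
    congr 1
    rw [← this]; abel
  have c0 : ∀ t, t ≠ 0 → c t = (nM (1 : F))⁻¹ • nM t • v := fun t ht => by
    rw [← hv.u_eq hd ht]; rfl
  have c1 : ∀ t, In1 F (c t) := fun t => by
    by_cases ht : t = 0
    · rw [ht, map_zero]
      exact ⟨zero_mem _, fun s => by simp⟩
    · rw [c0 t ht]; exact hv.dn ht
  have c2 : ∀ s t, s ≠ 0 → nM s • c t = nM (1 : F) • c (s * t) := fun s t hs => by
    by_cases ht : t = 0
    · simp [ht]
    · rw [c0 t ht, c0 _ (mul_ne_zero hs ht), smul_inv_smul, ← n_n_n hs ht, mul_smul, mul_smul]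
  have c3 : ∀ s t, uMat s • c t = c t + nM (1 : F) • c (s * t) := fun s t => by
    by_cases hs : s = 0
    · simp [hs, uMat_zero]
    · rw [← c2 s t hs, ← (c1 t).u_eq hd hs]; abel
  have c4 : ∀ t, nM (1 : F) • nM (1 : F) • c t = c (-t) := fun t => by
    have := c2 (-1) (-t) (neg_ne_zero.2 one_ne_zero)
    rw [n_neg_one, inv_smul_eq_iff, neg_mul_neg, one_mul] at this
    exact this.symm
  have c5 : ∀ t, c t = 0 → t = 0 := fun t h => by
    by_contra ht
    rw [c0 t ht, smul_eq_zero_iff_eq, smul_eq_zero_iff_eq] at h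
    exact h0 h
  let θ : (Fin 2 → F) →+ M := AddMonoidHom.mk' (fun x => c (x 1) + nM (1 : F) • c (x 0))
    fun x y => by simp only [Pi.add_apply, map_add, smul_add]; abel
  have hθ : ∀ x, θ x = c (x 1) + nM (1 : F) • c (x 0) := fun _ => rfl
  have heq : ∀ (g : SL(2, F)) x, θ ((g : Matrix (Fin 2) (Fin 2) F).mulVec x) = g • θ x := by
    intro g
    refine ind' (fun g : SL(2, F) => ∀ x, θ (g.1.mulVec x) = g • θ x)
      (fun t x => ?_) (fun x => ?_) (fun a b ha hb x => ?_) g
    · rw [hθ, hθ, smul_add, c3, n_W one_ne_zero (c1 _).1]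
      simp [mulVec, dotProduct, Fin.sum_univ_two, add_comm, add_left_comm]
    · obtain ⟨m1, m2, m3, m4⟩ := nM_app (one_ne_zero (α := F))
      rw [hθ, hθ, smul_add, c4]
      simp [mulVec, dotProduct, Fin.sum_univ_two, m1, m2, m3, m4, add_comm]
    · change θ ((a.1 * b.1).mulVec x) = _
      rw [← mulVec_mulVec, ha, hb, mul_smul]
  have hinj : Function.Injective θ := by
    rw [injective_iff_map_eq_zero]
    intro x hx
    rw [hθ] at hx
    have h1 : c (x 1) = 0 := by
      refine hd _ ?_ (c1 _).1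
      rw [eq_neg_of_add_eq_zero_left hx]
      exact neg_mem (n_W one_ne_zero (c1 _).1)
    rw [h1, zero_add, smul_eq_zero_iff_eq] at hx
    funext i
    fin_cases i
    · exact c5 _ hx
    · exact c5 _ h1
  have hsurj : Function.Surjective θ := by
    rw [← AddMonoidHom.range_eq_top]
    refine (hirr _ ?_).resolve_left fun h => ?_
    · rintro g _ ⟨x, rfl⟩
      exact ⟨_, heq g x⟩
    · have : θ (fun _ => 1) = θ 0 := by
        rw [map_zero, ← AddSubgroup.mem_bot, ← h]
        exact ⟨_, rfl⟩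
      exact one_ne_zero (congrFun (hinj this) 0)
  exact ⟨AddEquiv.ofBijective θ ⟨hinj, hsurj⟩, heq⟩

theorem exists_u (hnt : ∃ (g : SL(2, F)) (v : M), g • v ≠ v) : ∃ v, v ∉ U F M := by
  by_contra h
  push Not at h
  obtain ⟨g, v, hg⟩ := hnt
  refine hg (ind (fun g => ∀ v : M, g • v = v) (fun t v => h v t) (fun t v => ?_)
    (fun a b ha hb v => by rw [mul_smul, hb, ha]) g v)
  have := n_U one_ne_zero (h ((nM (1 : F))⁻¹ • v)) t
  rwa [smul_inv_smul] at this

theorem disj (hirr : ∀ X : AddSubgroup M, (∀ g : SL(2, F), ∀ v ∈ X, g • v ∈ X) → X = ⊥ ∨ X = ⊤)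
    (hnt : ∃ (g : SL(2, F)) (v : M), g • v ≠ v) (v : M) (h1 : v ∈ U F M) (h2 : v ∈ W F M) :
    v = 0 := by
  have hf : ∀ g : SL(2, F), ∀ v ∈ U F M ⊓ W F M, g • v = v := fun g =>
    ind (fun g => ∀ v ∈ U F M ⊓ W F M, g • v = v) (fun t v hv => hv.1 t) (fun t v hv => hv.2 t)
      (fun a b ha hb v hv => by rw [mul_smul, hb v hv, ha v hv]) g
  rcases hirr (U F M ⊓ W F M) (fun g v hv => by rwa [hf g v hv]) with h | h
  · rw [← AddSubgroup.mem_bot, ← h]
    exact ⟨h1, h2⟩
  · obtain ⟨w, hw⟩ := exists_u hnt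
    exact absurd (show w ∈ U F M ⊓ W F M by rw [h]; trivial).1 hw

theorem exists_second [Finite F] {p : ℕ} [hp : Fact p.Prime] [CharP F p] (h0 : ∀ v : M, p • v = 0)
    (hnt : ∃ (g : SL(2, F)) (v : M), g • v ≠ v) :
    ∃ v, v ∉ U F M ∧ ∀ t : F, uMat t • v - v ∈ U F M := by
  classical
  have key : ∀ T : Finset F, ∃ v, v ∉ U F M ∧ ∀ t ∈ T, uMat t • v - v ∈ U F M := by
    intro T
    induction T using Finset.induction_on with
    | empty => exact (exists_u hnt).imp fun v hv => ⟨hv, by simp⟩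
    | insert t T _ ih =>
      obtain ⟨v, hv, hT⟩ := ih
      let r := DistribMulAction.toAddMonoidEnd SL(2, F) M
      let f : AddMonoid.End M := r (uMat t) - 1
      have hf : ∀ w, f w = uMat t • w - w := fun _ => rfl
      have hp0 : f ^ p = 0 := by
        obtain ⟨z, hz⟩ := Commute.exists_add_pow_prime_eq hp.out (Commute.one_right f)
        have e1 : (p : AddMonoid.End M) = 0 := by
          ext w
          simpa using h0 w
        rw [sub_add_cancel, ← map_pow, uMat_pow, CharP.cast_eq_zero, zero_mul, uMat_zero, map_one,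
          one_pow, e1] at hz
        simpa using hz.symm
      have hex : ∃ k, (f ^ k) v ∈ U F M := ⟨p, by rw [hp0]; exact zero_mem _⟩
      have hk0 : Nat.find hex ≠ 0 := fun h => hv (by
        have := Nat.find_spec hex
        rwa [h, pow_zero] at this)
      obtain ⟨k, hk⟩ := Nat.exists_eq_succ_of_ne_zero hk0
      refine ⟨(f ^ k) v, Nat.find_min hex (by omega), fun s hs => ?_⟩
      rcases Finset.mem_insert.1 hs with rfl | hs
      · have := Nat.find_spec hex
        rwa [hk, pow_succ'] at this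
      · have : ∀ j, uMat s • (f ^ j) v - (f ^ j) v ∈ U F M := by
          intro j
          induction j with
          | zero => exact hT s hs
          | succ j ih =>
            have e : uMat s • (f ^ (j + 1)) v - (f ^ (j + 1)) v =
                uMat t • (uMat s • (f ^ j) v - (f ^ j) v) - (uMat s • (f ^ j) v - (f ^ j) v) := by
              rw [pow_succ', AddMonoid.End.coe_mul, Function.comp_apply, hf, smul_sub, smul_sub,
                ← mul_smul, ← mul_smul, ← uMat_add, ← uMat_add, add_comm s t]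
              abel
            rw [e, ih t, sub_self]
            exact zero_mem _
        exact this k
  have := Fintype.ofFinite F
  obtain ⟨v, hv, h⟩ := key Finset.univ
  exact ⟨v, hv, fun t => h t (Finset.mem_univ _)⟩

theorem main [Finite F] [Finite M] {p : ℕ} [hp : Fact p.Prime] [CharP F p]
    (h0 : ∀ v : M, p • v = 0)
    (hirr : ∀ X : AddSubgroup M, (∀ g : SL(2, F), ∀ v ∈ X, g • v ∈ X) → X = ⊥ ∨ X = ⊤)
    (hnt : ∃ (g : SL(2, F)) (v : M), g • v ≠ v)
    (hyp : (∀ (t : F) (v : M), uMat t • v - v ∈ U F M) ∨ Nat.card M ≤ Nat.card (U F M) ^ 2) :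
    ∃ θ : (Fin 2 → F) ≃+ M, ∀ (g : SL(2, F)) x,
      θ ((g : Matrix (Fin 2) (Fin 2) F).mulVec x) = g • θ x := by
  have hd := disj hirr hnt
  rcases hyp with h | h
  · obtain ⟨v, hv⟩ := exists_u hnt
    obtain ⟨t, ht⟩ : ∃ t : F, uMat t • v ≠ v := not_forall.1 hv
    refine nat_of_in1 hd hirr (v := nM (1 : F) • (uMat t • v - v))
      ⟨n_U one_ne_zero (h t v), fun s => h s _⟩ ?_
    rw [Ne, smul_eq_zero_iff_eq, sub_eq_zero]
    exact ht
  · obtain ⟨v, hv, h2⟩ := exists_second (F := F) h0 hnt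
    let j : U F M × U F M → M := fun x => x.1 + nM (1 : F) • (x.2 : M)
    have hj : Function.Injective j := by
      rintro ⟨a, b⟩ ⟨a', b'⟩ e
      have e1 : (a : M) - a' = nM (1 : F) • ((b' : M) - b) := by
        rw [smul_sub, sub_eq_sub_iff_add_eq_add, add_comm (nM (1 : F) • (b' : M))]
        exact e
      have e2 := hd _ (sub_mem a.2 a'.2) (e1 ▸ n_U one_ne_zero (sub_mem b'.2 b.2))
      rw [e2, eq_comm, smul_eq_zero_iff_eq, sub_eq_zero] at e1
      rw [sub_eq_zero] at e2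
      exact Prod.ext (Subtype.ext e2) (Subtype.ext e1.symm)
    obtain ⟨⟨a, b⟩, e⟩ := (hj.bijective_of_nat_card_le (by rwa [Nat.card_prod, ← sq])).2 v
    refine nat_of_in1 hd hirr (v := nM (1 : F) • (b : M)) ⟨n_U one_ne_zero b.2, fun s => ?_⟩ ?_
    · have := h2 s
      rw [← e] at this
      simp only [j, smul_add, a.2 s] at this
      rwa [add_sub_add_left_eq_sub] at this
    · intro hb
      apply hv
      rw [← e]
      simp only [j, hb, add_zero]
      exact a.2

end H92.NQ
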