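import Cfsg.Agent.H92.P4LocA
import Cfsg.Agent.H54.P4Ab
import Cfsg.Agent.H3.P4T1

/-! Job Loc3 of the blueprint `LOCAL3C.md`: local facts of `q^{1+2} : SL₂(q)` for `q = 3^m > 3`. -/

set_option autoImplicit false
set_option linter.unusedSectionVars false
open Cfsg H56.L3 H47.P4C Subgroup H34.P4 H59.P4 H98
open scoped commutatorElement

namespace H92.P4L

universe u v

variable {G : Type u} [Group G] [Finite G] {F : Type v} [Field F] [Fintype F] {h : F → F → F → G}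
  {ι : SL2 F →* G}

theorem gen3 {U K L : Subgroup G} (hc : ∀ a ∈ U, ∀ b ∈ U, a * b = b * a) (e : ∀ a ∈ U, a ^ 3 = 1)
    (h3 : 3 < Nat.card U) (hn : ∀ j ∈ U, ∀ k ∈ K, j * k * j⁻¹ ∈ K) (hK : (Nat.card K).Coprime 3)
    (hL : ∀ a ∈ U, a ≠ 1 → K ⊓ Ce a ≤ L) : K ≤ L := by
  have : IsMulCommutative U := ⟨⟨fun a b => Subtype.ext (hc a a.2 b b.2)⟩⟩
  obtain ⟨n, hn'⟩ := (H54.P4Ab.pgrp e).exists_card_eq
  exact H1.le_of_noncyclic_centralizer_le (H54.P4Ab.not_cyc e h3)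
    (fun j hj => mem_normalizer_fintype (hn j hj)) (hn' ▸ hK.symm.pow_left n) L hL

theorem eq_one3 {K P : Subgroup G} (hK : (Nat.card K).Coprime 3) (hP : IsPGroup 3 P) {g : G}
    (h1 : g ∈ K) (h2 : g ∈ P) : g = 1 := by
  obtain ⟨n, hn⟩ := hP.exists_card_eq
  exact mem_bot.1 ((disjoint_of_coprime_natCard (hn ▸ hK.pow_right n)).le_bot ⟨h1, h2⟩)

variable (κ : Cen h ι) (hF : Fld F) (l : Loc κ 3)
include κ hF l

theorem cube (a b c s : F) : (h a b c * ι (uM s)) ^ 3 = h 0 0 (-(s * b ^ 2)) := by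
  have h3 := hF.three
  rw [pow_three', κ.mul', κ.mul', uM_mul, uM_mul, show s + s + s = 0 by linear_combination s * h3,
    uM_zero, map_one, mul_one]
  simp only [u_ap]
  congr 1
  · linear_combination (a + s * b) * h3
  · linear_combination b * h3
  · linear_combination (c - s * b ^ 2) * h3

theorem genZ {K L : Subgroup G} (hn : ∀ j ∈ κ.Z, ∀ k ∈ K, j * k * j⁻¹ ∈ K)
    (hK : (Nat.card K).Coprime 3) (hL : K ⊓ κ.C ≤ L) : K ≤ L := by
  have hZ := (Z_le_D κ).trans (D_le_M κ)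
  refine gen3 (fun a ha b hb => l.commM a (hZ ha) b (hZ hb)) ?_ (l.cZ ▸ H54.P4Ab.gt3 hF) hn hK ?_
  · rintro _ ⟨c, rfl⟩
    simpa [uM_zero, κ.one] using cube κ hF l 0 0 c 0
  · rintro _ ⟨c, rfl⟩ hc
    rwa [← C_eq κ fun e => hc (by rw [e, κ.one])]

theorem sigM : Sig κ.M := fun K hK hn => by
  refine le_bot_iff.1 (genZ κ hF l (fun j hj => hn j (D_le_M κ (Z_le_D κ hj))) hK fun k hk => ?_)
  refine mem_bot.2 (eq_one3 hK l.pP hk.1 (M_le_P κ (cenB κ (H54.P4Ab.two_ne hF) hk.2 ?_)))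
  rw [← commutatorElement_eq_one_iff_mul_comm]
  refine eq_one3 hK l.pP ?_ ?_
  · simpa [commutatorElement_def, mul_assoc] using mul_mem hk.1 (hn _ (hM κ 1 0) _ (inv_mem hk.1))
  · obtain ⟨a, b, c, A, rfl⟩ := hk.2
    rw [commutatorElement_def, conj κ]
    exact mul_mem (hP κ ..) (inv_mem (hP κ ..))

theorem sigD (K : Subgroup G) (ht : K ≤ Ce (ι (-1))) (hK : (Nat.card K).Coprime 3)
    (hn : ∀ d ∈ κ.D, ∀ k ∈ K, d * k * d⁻¹ ∈ K) : K ≤ zpowers (ι (-1)) := by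
  have h2 := H54.P4Ab.two_ne hF
  have hD := (D_le_M κ).trans (M_le_P κ)
  refine genZ κ hF l (fun j hj => hn j (Z_le_D κ hj)) hK (gen3 (H54.P4Ab.U_comm ι)
    (H54.P4Ab.U_cube ι hF) (H54.P4Ab.card_U ι (fun s e => uM_inj ((ι_inj κ e).trans uM_zero.symm)) ▸
      H54.P4Ab.gt3 hF) ?_ (hK.coprime_dvd_left (card_dvd_of_le inf_le_left)) ?_)
  · rintro _ ⟨s, rfl⟩ k hk
    exact ⟨hn _ (iD κ s) k hk.1, κ.C.mul_mem (κ.C.mul_mem (iC κ _) hk.2) (κ.C.inv_mem (iC κ _))⟩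
  · rintro _ ⟨s, rfl⟩ hs k ⟨hk, e⟩
    obtain ⟨c, A, rfl⟩ := l.ct k ⟨hk.2, ht hk.1⟩
    have e := mem_centralizer_singleton_iff.1 e
    rw [← mul_assoc, zcomm κ (iC κ _), mul_assoc, mul_assoc, ← map_mul, ← map_mul] at e
    obtain ⟨r, rfl | rfl⟩ := cen_u (fun e => hs (by rw [e, uM_zero, map_one])) (ext κ e).2.2.2
    · rw [eq_one3 hK l.pP hk.1 ⟨_, _, _, _, rfl⟩]; exact one_mem _
    · have e1 : h 0 0 c * ι (-uM r) = h 0 0 c * ι (uM r) * ι (-1) := by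
        rw [mul_assoc, ← map_mul, mul_neg, mul_one]
      have e2 := eq_one3 hK l.pP (mul_mem hk.1 hk.1) (by
        rw [κ.mul', neg_mul_neg, uM_mul]; exact ⟨_, _, _, _, rfl⟩)
      rw [κ.mul', neg_mul_neg, uM_mul] at e2
      obtain ⟨-, -, e3, e4⟩ := κ.inj _ _ _ _ e2
      obtain rfl : c = 0 := mul_left_cancel₀ h2 (by linear_combination e3)
      obtain rfl : r = 0 := mul_left_cancel₀ h2 (by linear_combination uM_inj (e4.trans uM_zero.symm))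
      rw [κ.one, uM_zero, one_mul]; exact mem_zpowers _

theorem ord3 : ∀ g ∈ κ.C, g ^ 3 = 1 → ∃ c ∈ κ.C, c * g * c⁻¹ ∈ κ.M := fun g hg e => by
  obtain ⟨k, hk, a, b, c, s, e1⟩ := l.cjP g hg 1 (by simpa using e)
  by_cases hb : b = 0
  · exact ⟨k, hk, a, c, s, hb ▸ e1⟩
  have e2 := cube κ hF l a b c s
  rw [← e1, conj_pow, e, mul_one, mul_inv_cancel, ← κ.one] at e2
  obtain rfl : s = 0 := mul_right_cancel₀ (pow_ne_zero 2 hb) (by linear_combination (ext0 κ e2).2.2)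
  refine ⟨ι (wM * uM (-(a / b))) * k, mul_mem (iC κ _) hk, ?_⟩
  rw [show ∀ x : G, x * k * g * (x * k)⁻¹ = x * (k * g * k⁻¹) * x⁻¹ from fun _ => by group, e1,
    uM_zero, map_one, mul_one, κ.act]
  convert hM κ _ c using 2
  simp only [mul_ap, w_ap, u_ap]
  field_simp
  ring

theorem nL : Nr κ.Z ⊓ Ce (ι (-1)) ≤ Nr ι.range := fun g hg => mem_normalizer_fintype (by
  rintro _ ⟨A, rfl⟩
  have k : ∀ A, ∃ c B, g * ι A * g⁻¹ = h 0 0 c * ι B := fun A =>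
    l.ct _ ⟨(l.nC hg.1 _).1 (iC κ A), (Ce _).mul_mem ((Ce _).mul_mem hg.2
      (mem_centralizer_singleton_iff.2
        (by rw [← map_mul, ← map_mul, mul_neg, neg_mul, mul_one, one_mul]))) ((Ce _).inv_mem hg.2)⟩
  obtain ⟨a, ha⟩ := H3.P4T.exists_sq_ne (H54.P4Ab.gt3 hF)
  have : commutator (SL2 F) ≤ ι.range.comap ((MulAut.conj g).toMonoidHom.comp ι) :=
    commutator_le.2 fun A _ B _ => by
      obtain ⟨c, A', e⟩ := k A
      obtain ⟨d, B', e'⟩ := k B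
      refine ⟨⁅A', B'⁆, ?_⟩
      rw [map_commutatorElement, map_commutatorElement]
      show _ = ⁅g * ι A * g⁻¹, g * ι B * g⁻¹⁆
      rw [e, e', commutatorElement_def, commutatorElement_def, κ.inv', κ.inv', κ.mul', κ.mul', κ.mul']
      simp [κ.one]
  exact this (Matrix.SL2.commutator_eq_top a.ne_zero ha ▸ mem_top A))

omit κ hF l in
theorem jobLoc3 : JobLoc3.{u, v} := fun _ _ _ _ _ _ _ _ κ hF l =>
  ⟨sigM κ hF l, sigD κ hF l, ord3 κ hF l, nL κ hF l⟩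

end H92.P4L
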