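/- Tower R3, slot SrgN: parameters of the strongly regular graph. -/
import Cfsg.Agent.H70.R3Spec

set_option autoImplicit false

namespace H92.R3SrgN

theorem pow_eq {p i j u v : ℕ} (hp : p.Prime) (hu : ¬ p ∣ u) (hv : ¬ p ∣ v)
    (h : u * p ^ i = p ^ j * v) : i = j := by
  have h1 : p ^ i ∣ p ^ j :=
    (Nat.Coprime.pow_left i ((Nat.Prime.coprime_iff_not_dvd hp).2 hv)).dvd_of_dvd_mul_right
      (h ▸ Dvd.intro_left u rfl)
  have h2 : p ^ j ∣ p ^ i :=
    (Nat.Coprime.pow_left j ((Nat.Prime.coprime_iff_not_dvd hp).2 hu)).dvd_of_dvd_mul_left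
      (h ▸ Dvd.intro v rfl)
  exact le_antisymm ((Nat.pow_dvd_pow_iff_le_right hp.one_lt).1 h1)
    ((Nat.pow_dvd_pow_iff_le_right hp.one_lt).1 h2)

theorem fin_plus {N a : ℕ} {t : ℤ} (hN : 2 ≤ N) (h : (a : ℤ) * (N - 1) = (N ^ 2 - 1) * t) :
    N + 1 ∣ a := by
  have h0 : (N : ℤ) - 1 ≠ 0 := by omega
  have : (a : ℤ) = (N + 1) * t := mul_right_cancel₀ h0 (by linear_combination h)
  exact Int.natCast_dvd_natCast.1 ⟨t, by push_cast; exact this⟩

theorem fin_minus {N a b : ℕ} {t : ℤ} (hN : 2 ≤ N) (hab : a + b + 1 = N ^ 2)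
    (h : (a : ℤ) * (N + 1) = (N ^ 2 - 1) * t) : N - 1 ∣ a ∧ N - 1 ∣ b := by
  have h0 : (N : ℤ) + 1 ≠ 0 := by omega
  have h1 : (a : ℤ) = (N - 1) * t := mul_right_cancel₀ h0 (by linear_combination h)
  have h2 : (a : ℤ) + b + 1 = N ^ 2 := by exact_mod_cast hab
  have e : ((N - 1 : ℕ) : ℤ) = N - 1 := by omega
  exact ⟨Int.natCast_dvd_natCast.1 ⟨t, by rw [e]; exact h1⟩,
    Int.natCast_dvd_natCast.1 ⟨N + 1 - t, by rw [e]; linear_combination h2 - h1⟩⟩

theorem jobSrgN : H70.R3.JobSrgN := by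
  intro p n a b a' b' r s hp ha hb ha' hb' h1 h2 h3 h4 h5
  have z1 : (a : ℤ) + b + 1 = p ^ n := by exact_mod_cast h1
  have z2 : (a' : ℤ) + b' + 1 = p ^ n := by exact_mod_cast h2
  have key : (a' : ℤ) * b' * (r - s) ^ 2 = p ^ n * (a * b) := by
    have e1 : (a' : ℤ) * r + b' * s = -a := by linear_combination h3
    have e2 : (a' : ℤ) * r ^ 2 + b' * s ^ 2 = p ^ n * a - a ^ 2 := by linear_combination h4
    have e3 : (a' : ℤ) + b' = p ^ n - 1 := by linear_combination z2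
    have e4 : (b : ℤ) = p ^ n - 1 - a := by linear_combination z1
    calc (a' : ℤ) * b' * (r - s) ^ 2
        = (a' + b') * (a' * r ^ 2 + b' * s ^ 2) - (a' * r + b' * s) ^ 2 := by ring
      _ = _ := by rw [e1, e2, e3, e4]; ring
  have hd : (r - s).natAbs ∣ p ^ n := by
    have := Int.natAbs_dvd_natAbs.2 h5
    rwa [Int.natAbs_pow, Int.natAbs_natCast] at this
  obtain ⟨j, -, hj⟩ := (Nat.dvd_prime_pow hp).1 hd
  have hsq : (r - s) ^ 2 = ((p ^ j : ℕ) : ℤ) ^ 2 := by rw [← hj, Int.natAbs_sq]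
  have kn : a' * b' * p ^ (2 * j) = p ^ n * (a * b) := by
    have : (a' : ℤ) * b' * p ^ (2 * j) = p ^ n * (a * b) := by
      rw [← key, hsq]; push_cast; ring
    exact_mod_cast this
  have e : 2 * j = n := pow_eq hp (hp.not_dvd_mul ha' hb') (hp.not_dvd_mul ha hb) kn
  subst e
  have k2 : a' * b' = a * b :=
    Nat.eq_of_mul_eq_mul_right (pow_pos hp.pos (2 * j)) (by rw [kn, mul_comm])
  have k3 : (a' : ℤ) * b' = a * b := by exact_mod_cast k2
  have hN : 2 ≤ p ^ j := by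
    rcases j with _ | j
    · exact absurd (show p ∣ a from (by simp at h1; omega : a = 0) ▸ dvd_zero p) ha
    · exact hp.two_le.trans (Nat.le_self_pow (by omega) p)
  have hq : a + b + 1 = (p ^ j) ^ 2 := by rw [h1, ← pow_mul, mul_comm]
  have hq' : (p : ℤ) ^ (2 * j) = ((p ^ j : ℕ) : ℤ) ^ 2 := by push_cast; ring
  refine ⟨j, rfl, ?_⟩
  generalize p ^ j = N at *
  rw [hq'] at z1 z2
  have hc : ((a' : ℤ) - a) * (a' - b) = 0 := by linear_combination a' * (z2 - z1) - k3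
  rcases mul_eq_zero.1 hc with c | c <;> rcases sq_eq_sq_iff_eq_or_eq_neg.1 hsq with d | d
  · exact Or.inr (fin_minus (t := -s) hN hq (by
      linear_combination h3 - s * z2 - a' * d - N * c))
  · exact Or.inl (fin_plus (t := s) hN (by
      linear_combination -h3 + s * z2 + a' * d - N * c))
  · exact Or.inl (fin_plus (t := s + N) hN (by
      linear_combination -h3 + s * z2 + a' * d + N * c + N * z1))
  · exact Or.inr (fin_minus (t := N - s) hN hq (by
      linear_combination h3 - s * z2 - a' * d + N * c + N * z1))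

end H92.R3SrgN
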