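import Cfsg.Agent.H52.RCSpec
import Cfsg.Agent.S0199

/-! RC-Y2b: the Baer-Suzuki step of tower RC. -/

set_option autoImplicit false

namespace H92.RcY2b
open H52.RC Subgroup
universe u

theorem p2_zpowers {G : Type u} [Group G] {x : G} (h : P2 x) : IsPGroup 2 (zpowers x) := by
  rintro ⟨g, k, rfl⟩
  obtain ⟨n, hn⟩ := h
  refine ⟨n, Subtype.ext ?_⟩
  show (x ^ k) ^ 2 ^ n = 1
  rw [← zpow_natCast, ← zpow_mul, mul_comm, zpow_mul, zpow_natCast, hn, one_zpow]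

theorem bs (K : Type u) [Group K] [Finite K] (u : K) (hu : P2 u)
    (h : ∀ c : K, P2 (u⁻¹ * (c * u * c⁻¹)) ∧ Inv u (u⁻¹ * (c * u * c⁻¹))) :
    ∃ N : Subgroup K, N.Normal ∧ IsPGroup 2 N ∧ u ∈ N := by
  haveI : Fact (Nat.Prime 2) := ⟨Nat.prime_two⟩
  obtain ⟨N, hN, h2, hle⟩ := Cfsg.Agent.S0199.result (p := 2) (zpowers u) (p2_zpowers hu) (by
    intro c
    obtain ⟨hw, hi⟩ := h c
    set w := u⁻¹ * (c * u * c⁻¹) with hwd
    have hn : zpowers u ≤ normalizer (zpowers w : Set K) := by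
      rw [zpowers_le]
      refine mem_normalizer_fintype ?_
      rintro _ ⟨k, rfl⟩
      refine ⟨-k, ?_⟩
      show w ^ (-k) = u * w ^ k * u⁻¹
      rw [← conj_zpow, hi, zpow_neg, inv_zpow]
    have hp : IsPGroup 2 ↥(zpowers u ⊔ zpowers w) :=
      IsPGroup.to_sup_of_normal_right' (p2_zpowers hu) (p2_zpowers hw) hn
    refine hp.to_le (sup_le le_sup_left ?_)
    rw [MonoidHom.map_zpowers, zpowers_le]
    have e : (MulAut.conj c).toMonoidHom u = u * w := by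
      rw [hwd]; simp
    rw [e]
    exact mul_mem (mem_sup_left (mem_zpowers u)) (mem_sup_right (mem_zpowers w)))
  exact ⟨N, hN, h2, hle (mem_zpowers u)⟩

/-- An odd prime order element normalising a 2-group `Q` and centralising `v` centralises an
element of `Q` inverting `v`, if there is one. -/
theorem fixed {G : Type u} [Group G] [Finite G] (Q : Subgroup G) (hQ : IsPGroup 2 Q) (v u x : G)
    (huQ : u ∈ Q) (hu : Inv u v) (p : ℕ) (hp : p.Prime) (hp2 : p ≠ 2) (hx : x ^ p = 1)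
    (hxv : Commute x v) (hxQ : ∀ q ∈ Q, x * q * x⁻¹ ∈ Q) :
    ∃ q ∈ Q, Inv q v ∧ Commute x q := by
  haveI : Fact p.Prime := ⟨hp⟩
  haveI : Fact (Nat.Prime 2) := ⟨Nat.prime_two⟩
  let X := zpowers x
  have hX : IsPGroup p X := by
    rintro ⟨g, k, rfl⟩
    refine ⟨1, Subtype.ext ?_⟩
    show (x ^ k) ^ p ^ 1 = 1
    rw [pow_one, ← zpow_natCast, ← zpow_mul, mul_comm, zpow_mul, zpow_natCast, hx, one_zpow]
  have hXn : X ≤ normalizer (Q : Set G) := by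
    rw [zpowers_le]; exact mem_normalizer_fintype hxQ
  have hXv : ∀ g ∈ X, Commute g v := by
    rintro _ ⟨k, rfl⟩; exact hxv.zpow_left k
  let Ω := {q : G // q ∈ Q ∧ Inv q v}
  letI : MulAction X Ω :=
    { smul := fun g q => ⟨(g : G) * q * (g : G)⁻¹, (mem_normalizer_iff.1 (hXn g.2) q).1 q.2.1, by
        have h1 := q.2.2
        have h2 := (hXv g g.2).eq
        have h3 : (g : G)⁻¹ * v * g = v := by rw [mul_assoc, ← h2]; group
        unfold H52.RC.Inv at *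
        calc (g : G) * q * (g : G)⁻¹ * v * ((g : G) * q * (g : G)⁻¹)⁻¹
            = g * (q * ((g : G)⁻¹ * v * g) * (q : G)⁻¹) * (g : G)⁻¹ := by group
          _ = g * v⁻¹ * (g : G)⁻¹ := by rw [h3, h1]
          _ = v⁻¹ := by rw [(hXv g g.2).inv_right.eq]; group⟩
      one_smul := fun q => Subtype.ext (by
        show ((1 : X) : G) * q * ((1 : X) : G)⁻¹ = q
        simp)
      mul_smul := fun g h q => Subtype.ext (by
        show ((g * h : X) : G) * q * ((g * h : X) : G)⁻¹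
          = (g : G) * ((h : G) * q * (h : G)⁻¹) * (g : G)⁻¹
        rw [Subgroup.coe_mul]; group) }
  have hc : Nat.card Ω = Nat.card (Q ⊓ C1 v : Subgroup G) := by
    refine Nat.card_congr
      { toFun := fun q => ⟨u⁻¹ * q, Q.mul_mem (Q.inv_mem huQ) q.2.1, ?_⟩
        invFun := fun c => ⟨u * c, Q.mul_mem huQ c.2.1, ?_⟩
        left_inv := fun q => Subtype.ext (by simp)
        right_inv := fun c => Subtype.ext (by simp) }
    · refine mem_C1.2 ?_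
      have h1 := q.2.2
      unfold H52.RC.Inv at h1 hu
      have : (q : G) * v * (q : G)⁻¹ = u * v * u⁻¹ := by rw [h1, hu]
      show u⁻¹ * q * v = v * (u⁻¹ * q)
      calc u⁻¹ * q * v = u⁻¹ * ((q : G) * v * (q : G)⁻¹) * q := by group
        _ = v * (u⁻¹ * q) := by rw [this]; group
    · have h1 := (mem_C1.1 c.2.2).eq
      unfold H52.RC.Inv at hu ⊢
      calc u * c * v * (u * c)⁻¹ = u * ((c : G) * v) * (c : G)⁻¹ * u⁻¹ := by group
        _ = u * v * u⁻¹ := by rw [h1]; group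
        _ = v⁻¹ := hu
  have hnd : ¬ p ∣ Nat.card Ω := by
    obtain ⟨n, hn⟩ := IsPGroup.iff_card.1 (hQ.to_inf_left (K := C1 v))
    rw [hc, hn]
    intro hd
    exact hp2 ((Nat.prime_dvd_prime_iff_eq hp Nat.prime_two).1 (hp.dvd_of_dvd_pow hd))
  obtain ⟨q, hq⟩ := hX.nonempty_fixed_point_of_prime_not_dvd_card Ω hnd
  refine ⟨q, q.2.1, q.2.2, ?_⟩
  have := congrArg Subtype.val (hq ⟨x, mem_zpowers x⟩)
  have e : x * q * x⁻¹ = q := this
  show x * q = q * x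
  calc x * q = x * q * x⁻¹ * x := by group
    _ = q * x := by rw [e]

theorem jobY2b : H52.RC.JobY2b.{u} := by
  intro ka _ G _ _ L hL hqs v hsg hyp
  obtain ⟨-, -, k3, -, k5, -, k7, k8, -⟩ := ka G
  obtain ⟨hvL, -, hv2, u, huL, hu2, huv⟩ := hsg
  have hZ : ∀ z ∈ Zc L, P2 z := (k5 _).1 hqs.zc
  have hP2 : P2 u := by
    obtain ⟨n, hn⟩ := hZ _ hu2
    exact ⟨n + 1, by rw [pow_succ', pow_mul, hn]⟩
  let K : Subgroup G := Ct L v ⊓ L
  have huK : u ∈ K := by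
    refine ⟨mem_Ct.2 ?_, huL⟩
    rw [huv]
    have : v⁻¹ * v⁻¹ = (v ^ 2)⁻¹ := by rw [pow_two]; group
    rw [this]; exact inv_mem hv2
  have hC : C1 v ≤ Ct L v := fun g hg => mem_Ct.2 (by
    rw [(mem_C1.1 hg).eq]; simp)
  have hKn : ∀ g ∈ C1 v, ∀ k ∈ K, g * k * g⁻¹ ∈ K := fun g hg k hk =>
    ⟨(Ct L v).mul_mem ((Ct L v).mul_mem (hC hg) hk.1) ((Ct L v).inv_mem (hC hg)),
      hL.conj_mem _ hk.2 g⟩
  have key : ∀ c ∈ K, P2 (u⁻¹ * (c * u * c⁻¹)) ∧ Inv u (u⁻¹ * (c * u * c⁻¹)) := by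
    intro c hc
    have hi : Inv u (u⁻¹ * (c * u * c⁻¹)) := by
      apply inv_of_sq
      rw [conj_pow, ((mem_Zc.1 hu2).2 c hc.2).eq]; group
    refine ⟨?_, hi⟩
    have hwK : u⁻¹ * (c * u * c⁻¹) ∈ K :=
      mul_mem (inv_mem huK) (mul_mem (mul_mem hc huK) (inv_mem hc))
    obtain ⟨i, j, h1, h2, h3⟩ := k3 (u⁻¹ * (c * u * c⁻¹))
    have := hyp u _ huv (hi.pow j) (pow_mem hwK.1 j) h2
    rw [this, mul_one] at h3
    rwa [h3] at h1
  obtain ⟨N, hN, hN2, huN⟩ := bs K ⟨u, huK⟩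
    (let ⟨n, hn⟩ := hP2; ⟨n, Subtype.ext (by simpa using hn)⟩) (fun c => by
      obtain ⟨⟨n, hn⟩, h2⟩ := key c c.2
      exact ⟨⟨n, Subtype.ext (by simpa using hn)⟩, Subtype.ext h2⟩)
  obtain ⟨P, -, hP, -⟩ := k7 K ⊥ IsPGroup.of_bot bot_le
  have hgen : ∀ g ∈ C1 v, g * u * g⁻¹ ∈ P := by
    intro g hg
    let R : Subgroup G := (N.map K.subtype).map (MulAut.conj g).toMonoidHom
    have hR : IsPGroup 2 R := (hN2.map _).map _
    have hRK : R ≤ K := by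
      rintro _ ⟨_, ⟨n, -, rfl⟩, rfl⟩
      exact hKn g hg _ n.2
    obtain ⟨k, hk, hkr⟩ := (k8 K P hP).2.2 R hR hRK
    have hk' : g⁻¹ * k⁻¹ * g⁻¹⁻¹ ∈ K := hKn _ (inv_mem hg) _ (inv_mem hk)
    have hm := hN.conj_mem _ huN ⟨_, hk'⟩
    have := hkr _ ⟨_, ⟨_, hm, rfl⟩, rfl⟩
    convert this using 1
    simp only [Subgroup.coe_subtype, Subgroup.coe_mul, Subgroup.coe_inv, MulEquiv.coe_toMonoidHom,
      MulAut.conj_apply]
    group
  let Q : Subgroup G := closure {q | ∃ g ∈ C1 v, q = g * u * g⁻¹}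
  have hQP : Q ≤ P := by
    rw [closure_le]; rintro _ ⟨g, hg, rfl⟩; exact hgen g hg
  have hQ : IsPGroup 2 Q := hP.2.1.to_le hQP
  have huQ : u ∈ Q := subset_closure ⟨1, one_mem _, by simp⟩
  have hQn : ∀ x ∈ C1 v, ∀ q ∈ Q, x * q * x⁻¹ ∈ Q := by
    intro x hx q hq
    induction hq using closure_induction with
    | mem q hq =>
      obtain ⟨g, hg, rfl⟩ := hq
      exact subset_closure ⟨x * g, mul_mem hx hg, by group⟩
    | one => simp
    | mul a b _ _ ha hb =>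
      have : x * (a * b) * x⁻¹ = x * a * x⁻¹ * (x * b * x⁻¹) := by group
      rw [this]; exact mul_mem ha hb
    | inv a _ ha =>
      have : x * a⁻¹ * x⁻¹ = (x * a * x⁻¹)⁻¹ := by group
      rw [this]; exact inv_mem ha
  intro x hx s hs hodd hsx
  by_contra hx1
  have ho1 : orderOf x ≠ 1 := fun h => hx1 (orderOf_eq_one_iff.1 h)
  obtain ⟨p, hp, m, hm⟩ := Nat.exists_prime_and_dvd ho1
  have hpos : 0 < orderOf x := orderOf_pos x
  have hm0 : 0 < m := Nat.pos_of_ne_zero (fun h => by rw [h, mul_zero] at hm; omega)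
  have hxp : (x ^ m) ^ p = 1 := by rw [← pow_mul, mul_comm, ← hm, pow_orderOf_eq_one]
  have hx' : x ^ m ≠ 1 := pow_ne_one_of_lt_orderOf hm0.ne' (by
    have := hp.two_le; nlinarith)
  have hp2 : p ≠ 2 := by
    rintro rfl
    rw [hm] at hodd
    exact (Nat.not_even_iff_odd.2 hodd) (even_two_mul m)
  have hxm : x ^ m ∈ C1 v := pow_mem hx m
  obtain ⟨q, -, hqv, hq⟩ := fixed Q hQ v u (x ^ m) huQ huv p hp hp2 hxp (mem_C1.1 hxm)
    (hQn _ hxm)
  refine hx' (hyp (s * q) (x ^ m) ?_ ?_ (hC hxm) (hodd.of_dvd_nat (orderOf_pow_dvd m)))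
  · have h1 := (mem_C1.1 hs).inv_right.eq
    unfold H52.RC.Inv at hqv ⊢
    calc s * q * v * (s * q)⁻¹ = s * (q * v * q⁻¹) * s⁻¹ := by group
      _ = v⁻¹ := by rw [hqv, h1]; group
  · have h1 := hsx.pow m
    unfold H52.RC.Inv at h1 ⊢
    calc s * q * x ^ m * (s * q)⁻¹ = s * (q * x ^ m) * q⁻¹ * s⁻¹ := by group
      _ = s * x ^ m * s⁻¹ := by rw [← hq.eq]; group
      _ = (x ^ m)⁻¹ := h1

end H92.RcY2b
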