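import Cfsg.Agent.H95.SimpleCrit

/-! Simplicity of the 2-fusion system of a group with involution centraliser `(L ∘ L).2`:
the abstract part. -/

set_option autoImplicit false
set_option linter.unusedSectionVars false

namespace H92.Sp4

open Cfsg Subgroup H95

variable {L G : Type*} [Group L] [Group G]

/-- the data in `G` -/
structure W4 (n : L) (ι : L × L →* G) (τ : G) : Prop where
  n2 : n * n = 1
  n1 : n ≠ 1
  nc : ∀ a, n * a = a * n
  ker : ∀ x, ι x = 1 → x = 1 ∨ x = (n, n)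
  kn : ι (n, n) = 1
  τ2 : τ * τ = 1
  sw : ∀ a b, τ * ι (a, b) = ι (b, a) * τ
  cen : ∀ g, g * ι (1, n) = ι (1, n) * g → g ∈ ι.range ∨ g * τ ∈ ι.range
  c4 : ∀ a b, a * a = n → b * b = n → IsConj a b
  tt : ∀ i j, i * i = n → j * j = n → i * j = n * (j * i) → ∃ t : G, t * t = 1 ∧
    t * ι (1, n) * t⁻¹ = τ ∧ ∃ ω : L →* L, ω i = j⁻¹ ∧ ω j = i⁻¹ ∧
      ∀ a, t * ι (a, a) * t⁻¹ = ι (ω a, ω a)

/-- the data in `L` -/
structure QD (n : L) (Q : Subgroup L) : Prop where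
  nQ : n ∈ Q
  cen : ∀ x ∈ Q, (∀ y ∈ Q, x * y = y * x) → x = 1 ∨ x = n
  ij : ∃ i ∈ Q, ∃ j ∈ Q, i * i = n ∧ j * j = n ∧ i * j = n * (j * i)
  gen : ∀ K : Subgroup L, (∀ x ∈ Q, x * x = n → x ∈ K) → Q ≤ K
  odd : ∀ c, Odd (orderOf c) → (∀ x ∈ Q, c * x * c⁻¹ ∈ Q) → (∀ x ∈ Q, c * x = x * c) ∨
    ∃ i j, Q = Subgroup.closure {i, j} ∧ i * i = n ∧ j * j = n ∧ i * j = n * (j * i) ∧ c * i * c⁻¹ = j ∧
      (c * j * c⁻¹ = i * j ∨ c * j * c⁻¹ = j * i) ∧ c * (c * j * c⁻¹) * c⁻¹ = i ∧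
      ∀ x ∈ Q, (x * x = 1 ∨ x * x = n) ∧ ∀ y ∈ Q, x * y = y * x ∨ x * y = n * (y * x)

/-- the diagonal -/
def dg (ι : L × L →* G) : L →* G := ι.comp ((MonoidHom.id L).prod (MonoidHom.id L))

theorem dg_apply (ι : L × L →* G) (a : L) : dg ι a = ι (a, a) := rfl

variable {n : L} {ι : L × L →* G} {τ : G} {Q : Subgroup L}

theorem mul_pair (ι : L × L →* G) (a b c d : L) : ι (a, b) * ι (c, d) = ι (a * c, b * d) :=
  (map_mul ι _ _).symm

theorem inv_pair (ι : L × L →* G) (a b : L) : (ι (a, b))⁻¹ = ι (a⁻¹, b⁻¹) := (map_inv ι _).symm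

namespace W4

variable (h : W4 n ι τ)
include h

theorem τinv : τ⁻¹ = τ := inv_eq_of_mul_eq_one_right h.τ2

theorem sw' (a b : L) : τ * ι (a, b) * τ = ι (b, a) := by rw [h.sw, mul_assoc, h.τ2, mul_one]

theorem eq_iff {a b c d : L} (e : ι (a, b) = ι (c, d)) :
    (a = c ∧ b = d) ∨ (a = n * c ∧ b = n * d) := by
  rcases h.ker (a * c⁻¹, b * d⁻¹) (by rw [← mul_pair, e, ← inv_pair, mul_inv_cancel]) with r | r
  · exact Or.inl ⟨mul_inv_eq_one.1 (congrArg Prod.fst r), mul_inv_eq_one.1 (congrArg Prod.snd r)⟩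
  · exact Or.inr ⟨mul_inv_eq_iff_eq_mul.1 (congrArg Prod.fst r),
      mul_inv_eq_iff_eq_mul.1 (congrArg Prod.snd r)⟩

theorem neg (a b : L) : ι (n * a, n * b) = ι (a, b) := by rw [← mul_pair, h.kn, one_mul]

theorem z' : ι (n, 1) = ι (1, n) := by rw [← h.neg, h.n2, mul_one]

theorem ne_n {a : L} : a ≠ n * a := fun e => h.n1 (by simpa using e.symm)

/-- the Sylow subgroup -/
def S (Q : Subgroup L) : Subgroup G where
  carrier := {x | ∃ a ∈ Q, ∃ b ∈ Q, x = ι (a, b) ∨ x = ι (a, b) * τ}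
  one_mem' := ⟨1, one_mem _, 1, one_mem _, Or.inl (map_one ι).symm⟩
  mul_mem' := by
    rintro _ _ ⟨a, ha, b, hb, rfl | rfl⟩ ⟨c, hc, d, hd, rfl | rfl⟩
    · exact ⟨_, mul_mem ha hc, _, mul_mem hb hd, Or.inl (mul_pair ι _ _ _ _)⟩
    · exact ⟨_, mul_mem ha hc, _, mul_mem hb hd, Or.inr (by rw [← mul_pair, mul_assoc])⟩
    · exact ⟨_, mul_mem ha hd, _, mul_mem hb hc, Or.inr (by
        rw [mul_assoc, h.sw, ← mul_pair, mul_assoc])⟩
    · exact ⟨_, mul_mem ha hd, _, mul_mem hb hc, Or.inl (by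
        rw [← mul_pair, ← h.sw' c d]; group)⟩
  inv_mem' := by
    rintro _ ⟨a, ha, b, hb, rfl | rfl⟩
    · exact ⟨_, inv_mem ha, _, inv_mem hb, Or.inl (inv_pair ι _ _)⟩
    · exact ⟨_, inv_mem hb, _, inv_mem ha, Or.inr (by rw [mul_inv_rev, h.τinv, inv_pair, h.sw])⟩

theorem mem_S {a b : L} (ha : a ∈ Q) (hb : b ∈ Q) : ι (a, b) ∈ h.S Q := ⟨a, ha, b, hb, Or.inl rfl⟩

theorem τ_mem : τ ∈ h.S Q := ⟨1, one_mem _, 1, one_mem _, Or.inr (by
  rw [show ι (1, 1) = 1 from map_one ι, one_mul])⟩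

theorem S_le {K : Subgroup G} (h1 : ∀ a ∈ Q, ∀ b ∈ Q, ι (a, b) ∈ K) (h2 : τ ∈ K) : h.S Q ≤ K := by
  rintro _ ⟨a, ha, b, hb, rfl | rfl⟩
  exacts [h1 a ha b hb, mul_mem (h1 a ha b hb) h2]

theorem pS (hQ : IsPGroup 2 Q) : IsPGroup 2 (h.S Q) := by
  have k : ∀ a ∈ Q, ∀ b ∈ Q, ∃ k, ι (a, b) ^ 2 ^ k = 1 := fun a ha b hb => by
    obtain ⟨k, hk⟩ := hQ ⟨a, ha⟩
    obtain ⟨l, hl⟩ := hQ ⟨b, hb⟩
    have hk' : a ^ 2 ^ k = 1 := congrArg Subtype.val hk
    have hl' : b ^ 2 ^ l = 1 := congrArg Subtype.val hl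
    refine ⟨k + l, ?_⟩
    rw [← map_pow, Prod.pow_mk, pow_add, pow_mul, hk', mul_comm, pow_mul, hl', one_pow, one_pow]
    exact map_one ι
  rintro ⟨_, a, ha, b, hb, rfl | rfl⟩
  · exact (k a ha b hb).imp fun k hk => Subtype.ext hk
  · obtain ⟨l, hl⟩ := k _ (mul_mem ha hb) _ (mul_mem hb ha)
    refine ⟨l + 1, Subtype.ext ?_⟩
    change (ι (a, b) * τ) ^ 2 ^ (l + 1) = 1
    rw [pow_succ', pow_mul, pow_two, ← hl, ← mul_pair, ← h.sw' a b]
    congr 1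
    group

variable (q : QD n Q)
include q

theorem not_τ {a b c d : L} : ι (a, b) ≠ ι (c, d) * τ := fun e => by
  obtain ⟨i, -, j, -, hi, hj, hij⟩ := q.ij
  have e1 : τ = ι (c⁻¹ * a, d⁻¹ * b) := by rw [← mul_pair, e, ← inv_pair, inv_mul_cancel_left]
  have e2 := h.sw i 1
  rw [e1, mul_pair, mul_pair] at e2
  have : i = 1 ∨ i = n := by
    rcases h.eq_iff e2 with r | r
    · exact Or.inl (by simpa using r.1)
    · refine Or.inr (mul_left_cancel (a := c⁻¹ * a) ?_)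
      rw [r.1, one_mul, h.nc]
  rcases this with rfl | rfl
  · exact h.n1 (by simpa using hi.symm)
  · exact h.n1 (hi.symm.trans h.n2)

theorem cen_S {x : G} (hx : x ∈ h.S Q) (hc : ∀ s ∈ h.S Q, s * x = x * s) :
    x = 1 ∨ x = ι (1, n) := by
  obtain ⟨i, hi, j, -, hi2, hj, hij⟩ := q.ij
  obtain ⟨a, ha, b, hb, rfl | rfl⟩ := hx
  · have h1 := q.cen a ha fun y hy => by
      have := hc _ (h.mem_S hy (one_mem _))
      rw [mul_pair, mul_pair, one_mul, mul_one] at this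
      rcases h.eq_iff this with r | r
      exacts [r.1.symm, absurd r.2 h.ne_n]
    have h2 := q.cen b hb fun y hy => by
      have := hc _ (h.mem_S (one_mem _) hy)
      rw [mul_pair, mul_pair, one_mul, mul_one] at this
      rcases h.eq_iff this with r | r
      exacts [r.2.symm, absurd r.1 h.ne_n]
    rcases h1 with rfl | rfl <;> rcases h2 with rfl | rfl
    exacts [Or.inl (map_one ι), Or.inr rfl, Or.inr h.z', Or.inl h.kn]
  · exfalso
    have := hc _ (h.mem_S hi (one_mem _))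
    rw [mul_assoc (ι (a, b)), h.sw, ← mul_assoc, ← mul_assoc, mul_left_inj, mul_pair, mul_pair,
      mul_one, one_mul] at this
    rcases h.eq_iff this with r | r
    · rw [show i = 1 by simpa using r.1] at hi2
      exact h.n1 (by simpa using hi2.symm)
    · rw [mul_right_cancel r.1] at hi2
      exact h.n1 (hi2.symm.trans h.n2)

theorem z_ne : ι (1, n) ≠ 1 := fun e => by
  rcases h.ker _ e with r | r
  exacts [h.n1 (congrArg Prod.snd r), h.n1 (congrArg Prod.fst r).symm]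

theorem z_comm {s : G} (hs : s ∈ h.S Q) : s * ι (1, n) = ι (1, n) * s := by
  have k : ∀ a b, ι (a, b) * ι (1, n) = ι (1, n) * ι (a, b) := fun a b => by
    rw [mul_pair, mul_pair, h.nc, one_mul, mul_one]
  obtain ⟨a, -, b, -, rfl | rfl⟩ := hs
  · exact k a b
  · rw [mul_assoc, h.sw, h.z', ← mul_assoc, k, mul_assoc]

variable [Finite G]

theorem norm_S {g : G} (hg : ∀ s ∈ h.S Q, g * s * g⁻¹ ∈ h.S Q) :
    ∃ s ∈ h.S Q, ∃ c, (∀ x ∈ Q, c * x * c⁻¹ ∈ Q) ∧ g = s * ι (c, c) := by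
  have hn := mem_normalizer_fintype (S := (h.S Q : Set G)) hg
  have hz : g * ι (1, n) = ι (1, n) * g := by
    rcases h.cen_S q (hg _ (h.mem_S (one_mem _) q.nQ)) (fun s hs => by
      have := h.z_comm q ((mem_normalizer_iff''.1 hn s).1 hs)
      calc _ = g * (g⁻¹ * s * g * ι (1, n)) * g⁻¹ := by group
        _ = _ := by rw [this]; group) with r | r
    · exact absurd (conj_eq_one_iff.1 r) (h.z_ne q)
    · exact mul_inv_eq_iff_eq_mul.1 r
  have k : ∀ a b, (∀ s ∈ h.S Q, ι (a, b) * s * (ι (a, b))⁻¹ ∈ h.S Q) →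
      ∃ s ∈ h.S Q, ∃ c, (∀ x ∈ Q, c * x * c⁻¹ ∈ Q) ∧ ι (a, b) = s * ι (c, c) := fun a b hg => by
    obtain ⟨c, hc, d, hd, e | e⟩ := hg τ h.τ_mem
    · rw [inv_pair, mul_assoc, h.sw, ← mul_assoc, mul_pair] at e
      exact absurd e.symm (h.not_τ q)
    rw [inv_pair, mul_assoc, h.sw, ← mul_assoc, mul_pair, mul_left_inj] at e
    have hab : a * b⁻¹ ∈ Q := by
      rcases h.eq_iff e with r | r <;> rw [r.1]
      exacts [hc, mul_mem q.nQ hc]
    refine ⟨_, h.mem_S hab (one_mem _), b, fun x hx => ?_, by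
      rw [mul_pair, inv_mul_cancel_right, one_mul]⟩
    obtain ⟨c, hc, d, hd, e | e⟩ := hg _ (h.mem_S (one_mem _) hx)
    · rw [inv_pair, mul_pair, mul_pair] at e
      rcases h.eq_iff e with r | r <;> rw [r.2]
      exacts [hd, mul_mem q.nQ hd]
    · rw [inv_pair, mul_pair, mul_pair] at e
      exact absurd e (h.not_τ q)
  rcases h.cen g hz with ⟨⟨a, b⟩, rfl⟩ | ⟨⟨a, b⟩, e⟩
  · exact k a b hg
  · obtain ⟨s, hs, c, hc, e'⟩ := k a b fun s hs => by
      have := hg _ (mul_mem (mul_mem h.τ_mem hs) (inv_mem h.τ_mem))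
      rw [e]; convert this using 1; group
    refine ⟨s * τ, mul_mem hs h.τ_mem, c, hc, ?_⟩
    rw [mul_assoc, h.sw, ← mul_assoc, ← e', e, mul_assoc, h.τ2, mul_one]

theorem sc {T : Subgroup G} (hQ : IsPGroup 2 Q) (hT : GSC T (h.S Q)) (h1 : T ≠ ⊥) :
    h.S Q ≤ T := by
  obtain ⟨i, hi, j, hj, hi2, hj2, hij⟩ := q.ij
  obtain ⟨z, hz, hz2, hzc⟩ := hT.exists_central (h.pS hQ) h1
  obtain rfl := (h.cen_S q (hT.1 hz) hzc).resolve_left (by rintro rfl; simp at hz2)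
  obtain ⟨t, -, ht, -⟩ := h.tt i j hi2 hj2 hij
  have hτ : τ ∈ T := ht ▸ hT.2 t _ hz (by rw [ht]; exact h.τ_mem)
  have k1 : ι (i, i⁻¹) ∈ T := by
    have := mul_mem (hT.conj_mem (h.mem_S hi (one_mem _)) hτ) hτ
    rwa [inv_pair, mul_assoc (ι _), mul_assoc (ι _), h.sw', mul_pair, inv_one, mul_one,
      one_mul] at this
  have k2 : ∀ a b c, a ∈ Q → c ∈ Q → b * b = n → c * c = n → ι (a, b) ∈ T → ι (a, c) ∈ T :=
    fun a b c ha hc hb2 hc2 hT' => by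
      obtain ⟨y, hy⟩ := _root_.isConj_iff.1 (h.c4 b c hb2 hc2)
      refine hT.mem_of_isConj hT' (h.mem_S ha hc) (_root_.isConj_iff.2 ⟨ι (1, y), ?_⟩)
      rw [inv_pair, mul_pair, mul_pair, hy, inv_one, one_mul, mul_one]
  have k3 : ι (1, i * j) ∈ T := by
    have := mul_mem (inv_mem k1) (k2 i _ j hi hj (by
      rw [← mul_inv_rev, hi2, inv_eq_of_mul_eq_one_right h.n2]) hj2 k1)
    rwa [inv_pair, mul_pair, inv_mul_cancel, inv_inv] at this
  have k4 : Q ≤ T.comap (ι.comp (MonoidHom.inr L L)) := q.gen _ fun x hx hx2 =>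
    k2 1 _ x (one_mem _) hx (by
      calc i * j * (i * j) = n * (j * (i * i) * j) := by nth_rw 1 [hij]; group
        _ = n := by rw [hi2, ← h.nc, mul_assoc n j, hj2, h.n2, mul_one]) hx2 k3
  refine h.S_le (fun a ha b hb => ?_) hτ
  have := mul_mem (mul_mem (mul_mem hτ (k4 ha)) hτ) (k4 hb)
  change τ * ι (1, a) * τ * ι (1, b) ∈ T at this
  rwa [h.sw', mul_pair, mul_one, one_mul] at this

theorem dg_norm {c : L} (hc : ∀ x ∈ Q, c * x * c⁻¹ ∈ Q) :
    ∀ s ∈ h.S Q, ι (c, c) * s * (ι (c, c))⁻¹ ∈ h.S Q := by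
  rintro _ ⟨a, ha, b, hb, rfl | rfl⟩
  · rw [inv_pair, mul_pair, mul_pair]; exact h.mem_S (hc a ha) (hc b hb)
  · rw [inv_pair, mul_assoc, mul_assoc, h.sw, ← mul_assoc, ← mul_assoc, mul_pair, mul_pair]
    exact mul_mem (h.mem_S (hc a ha) (hc b hb)) h.τ_mem

theorem dg_cen {c : L} (hc : ∀ x ∈ Q, c * x = x * c) :
    ∀ s ∈ h.S Q, ι (c, c) * s = s * ι (c, c) := by
  rintro _ ⟨a, ha, b, hb, rfl | rfl⟩
  · rw [mul_pair, mul_pair, hc a ha, hc b hb]
  · rw [mul_assoc, h.sw, ← mul_assoc, ← mul_assoc, mul_pair, mul_pair, hc a ha, hc b hb]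

theorem odd_mem {K : Subgroup G} (hS : h.S Q ≤ K) (hC : ∀ g, (∀ s ∈ h.S Q, g * s = s * g) → g ∈ K)
    (hb : ∀ R N : Subgroup G, R ≤ h.S Q → h.S Q ≤ N → (∀ n ∈ N, ∀ r ∈ R, n * r * n⁻¹ ∈ R) →
      (∀ s ∈ h.S Q, (∀ r ∈ R, s * r = r * s) → s ∈ R) → ∀ g ∈ pgen 2 N,
      (∀ s ∈ h.S Q, g * s * g⁻¹ ∈ h.S Q) → g ∈ K) {c : L} (ho : Odd (orderOf c))
    (hc : ∀ x ∈ Q, c * x * c⁻¹ ∈ Q) : ι (c, c) ∈ K := by
  rcases q.odd c ho hc with r | ⟨i, j, hQ, hi, hj, hij, e1, e2, e3, hx⟩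
  · exact hC _ (h.dg_cen q r)
  obtain ⟨t, t2, ht, ω, wi, wj, hω⟩ := h.tt i j hi hj hij
  have ti : t⁻¹ = t := inv_eq_of_mul_eq_one_right t2
  have iQ : i ∈ Q := hQ ▸ subset_closure (by simp)
  have jQ : j ∈ Q := hQ ▸ subset_closure (by simp)
  have ωQ : Q ≤ Q.comap ω := by
    nth_rw 1 [hQ]
    refine (closure_le _).2 ?_
    rintro _ (rfl | rfl)
    exacts [show ω _ ∈ Q from wi ▸ inv_mem jQ, show ω _ ∈ Q from wj ▸ inv_mem iQ]
  let R : Subgroup G := Subgroup.closure (dg ι '' Q ∪ {ι (1, n), τ})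
  have r1 : ∀ a ∈ Q, ι (a, a) ∈ R := fun a ha => subset_closure (Or.inl ⟨a, ha, rfl⟩)
  have r2 : ι (1, n) ∈ R := subset_closure (by simp)
  have r3 : τ ∈ R := subset_closure (by simp)
  have r4 : ∀ a ∈ Q, ∀ b c, b = a ∨ b = n * a → c = a ∨ c = n * a → ι (b, c) ∈ R := by
    rintro a ha _ _ (rfl | rfl) (rfl | rfl)
    · exact r1 _ ha
    · simpa [mul_pair] using mul_mem r2 (r1 _ ha)
    · have := mul_mem (h.z' ▸ r2 : ι (n, 1) ∈ R) (r1 _ ha)
      rwa [mul_pair, one_mul] at this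
    · exact h.neg a a ▸ r1 _ ha
  have nor : ∀ g, (∀ a ∈ Q, g * ι (a, a) * g⁻¹ ∈ R) → g * ι (1, n) * g⁻¹ ∈ R → g * τ * g⁻¹ ∈ R →
      g ∈ normalizer (R : Set G) := fun g g1 g2 g3 => mem_normalizer_fintype fun x hx =>
    (closure_le (R.comap (MulAut.conj g).toMonoidHom)).2 (by
      rintro _ (⟨a, ha, rfl⟩ | rfl | rfl)
      exacts [g1 a ha, g2, g3]) hx
  have RS : R ≤ h.S Q := (closure_le _).2 (by
    rintro _ (⟨a, ha, rfl⟩ | rfl | rfl)
    exacts [h.mem_S ha ha, h.mem_S (one_mem _) q.nQ, h.τ_mem])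
  have cz : ∀ a b, ι (a, b) * ι (1, n) * (ι (a, b))⁻¹ ∈ R := fun a b => by
    rw [inv_pair, mul_pair, mul_pair, ← h.nc]; simpa using r2
  have cτ : ∀ a b, ι (a, b) * τ * (ι (a, b))⁻¹ = ι (a * b⁻¹, b * a⁻¹) * τ := fun a b => by
    rw [inv_pair, mul_assoc, h.sw, ← mul_assoc, mul_pair]
  have SN : h.S Q ≤ normalizer (R : Set G) := h.S_le (fun a ha b hb => nor _ (fun x hx' => by
      rw [inv_pair, mul_pair, mul_pair]
      exact r4 x hx' _ _ (((hx a ha).2 x hx').imp (fun e => by rw [e]; group) fun e => by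
        rw [e]; group) (((hx b hb).2 x hx').imp (fun e => by rw [e]; group) fun e => by
        rw [e]; group)) (cz a b) (by
      rw [cτ]
      refine mul_mem (r4 _ (mul_mem ha (inv_mem hb)) _ _ (Or.inl rfl) ?_) r3
      refine (hx _ (mul_mem ha (inv_mem hb))).1.imp (fun e => ?_) fun e => ?_
      · rw [← inv_eq_of_mul_eq_one_right e]; group
      · rw [← mul_inv_eq_iff_eq_mul, ← inv_eq_of_mul_eq_one_right h.n2, ← e]; group))
    (le_normalizer r3)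
  have tN : t ∈ normalizer (R : Set G) := nor _ (fun a ha => hω a ▸ r1 _ (ωQ ha)) (ht ▸ r3) (by
    rw [← ht, ti]
    convert r2 using 1
    calc _ = t * t * ι (1, n) * (t * t) := by group
      _ = _ := by rw [t2]; group)
  have cN : ι (c, c) ∈ normalizer (R : Set G) := nor _ (fun a ha => by
    rw [inv_pair, mul_pair, mul_pair]; exact r1 _ (hc a ha)) (cz c c) (by
    rw [cτ, mul_inv_cancel]; exact mul_mem (r1 _ (one_mem _)) r3)
  have cm : ∀ x ∈ Q, (c * c)⁻¹ * (c * ω c⁻¹) * x = x * ((c * c)⁻¹ * (c * ω c⁻¹)) := by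
    intro x hx'
    rw [hQ] at hx'
    refine mem_centralizer_singleton_iff.1 ((closure_le (centralizer {_})).2 ?_ hx') |>.symm
    have f1 : ω c⁻¹ * i * (ω c⁻¹)⁻¹ = j := by
      calc _ = (ω (c⁻¹ * j * c⁻¹⁻¹))⁻¹ := by
            rw [map_mul, map_mul, wj, map_inv ω c⁻¹]; group
        _ = _ := by rw [show c⁻¹ * j * c⁻¹⁻¹ = i by rw [← e1]; group, wi, inv_inv]
    have f2 : ω c⁻¹ * j * (ω c⁻¹)⁻¹ = c * j * c⁻¹ := by
      have : ω (c * j * c⁻¹) = (c * j * c⁻¹)⁻¹ := by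
        rcases e2 with e | e <;> rw [e, map_mul, wi, wj, mul_inv_rev]
      calc _ = (ω (c⁻¹ * i * c⁻¹⁻¹))⁻¹ := by
            rw [map_mul, map_mul, wi, map_inv ω c⁻¹]; group
        _ = _ := by
          rw [show c⁻¹ * i * c⁻¹⁻¹ = c * j * c⁻¹ by rw [← e3]; group, this, inv_inv]
    rintro y (rfl | rfl) <;> refine mem_centralizer_singleton_iff.2 ?_
    · calc _ = c⁻¹ * (c * y * c⁻¹) * ω c⁻¹ := by group
        _ = _ := by rw [e1, ← f1]; group
    · calc _ = c⁻¹ * (c * y * c⁻¹) * ω c⁻¹ := by group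
        _ = _ := by rw [← f2]; group
  have k : ι (c * ω c⁻¹, c * ω c⁻¹) ∈ K := by
    refine hb R _ RS SN (fun n hn r hr => (mem_normalizer_iff.1 hn r).1 hr) ?_ _ ?_
      (h.dg_norm q fun x hx' => ?_)
    · have k : ∀ a ∈ Q, ∀ b, ι (a, b) * τ = τ * ι (a, b) → ι (a, b) ∈ R := fun a ha b e => by
        rw [h.sw, mul_left_inj] at e
        exact r4 a ha _ _ (Or.inl rfl) ((h.eq_iff e).imp (·.2) (·.2))
      rintro _ ⟨a, ha, b, hb, rfl | rfl⟩ hs
      · exact k a ha b (hs τ r3)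
      · exact mul_mem (k a ha b (mul_right_cancel (b := τ) ((hs τ r3).trans
          (mul_assoc _ _ _).symm))) r3
    · rw [← mul_pair, ← hω, ← inv_pair]
      have := mul_mem (mem_pgen (p := 2) (k := 1) (mul_mem (mul_mem cN tN) (inv_mem cN)) (by
        rw [conj_pow, pow_one, pow_two, t2]; simp)) (mem_pgen (p := 2) (k := 1) (inv_mem tN) (by
        rw [ti, pow_one, pow_two, t2]))
      convert this using 1; group
    · have := hc _ (hc x hx')
      convert this using 1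
      calc _ = c * c * ((c * c)⁻¹ * (c * ω c⁻¹) * x) * (c * ω c⁻¹)⁻¹ := by group
        _ = _ := by rw [cm x hx']; group
  have k2 : dg ι (c * c) ∈ K := by
    have := mul_mem k (inv_mem (hC _ (h.dg_cen q cm)))
    rw [inv_pair, mul_pair] at this
    rwa [show c * ω c⁻¹ * ((c * c)⁻¹ * (c * ω c⁻¹))⁻¹ = c * c by simp] at this
  obtain ⟨m, hm⟩ := ho
  have : c = (c * c) ^ (m + 1) := by
    rw [← pow_two, ← pow_mul, show 2 * (m + 1) = 2 * m + 1 + 1 by ring, pow_succ, ← hm,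
      pow_orderOf_eq_one, one_mul]
  rw [← dg_apply, this, map_pow]
  exact pow_mem k2 _

omit q in
theorem simple [Finite L] (Q : Sylow 2 L) (q : QD n Q) : ∃ S : Sylow 2 G,
    (groupFusionSystem (S : Subgroup G)).IsSimple 2 := by
  have two : ∀ c, (∀ x ∈ Q, c * x * c⁻¹ ∈ Q) → ∀ k, c ^ 2 ^ k = 1 → c ∈ Q := fun c hc k e => by
    have hy : IsPGroup 2 (zpowers c) := by
      rintro ⟨_, l, rfl⟩
      exact ⟨k, Subtype.ext (by
        change (c ^ l) ^ 2 ^ k = 1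
        rw [← zpow_natCast, ← zpow_mul, mul_comm, zpow_mul, zpow_natCast, e, one_zpow])⟩
    exact ((hy.inf_normalizer_sylow Q).le ⟨mem_zpowers c,
      mem_normalizer_fintype (S := (Q : Set L)) hc⟩).2
  have hp := h.pS Q.isPGroup'
  obtain ⟨P, hP⟩ := hp.exists_le_sylow
  obtain e : h.S Q = P := by
    have := P.isPGroup'.isNilpotent
    refine le_antisymm hP (subgroupOf_eq_top.mp
      (normalizerCondition_iff_only_full_group_self_normalizing.mp
        Group.normalizerCondition_of_isNilpotent _ (le_antisymm (fun g hg => ?_) le_normalizer)))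
    rw [← subgroupOf_normalizer_eq hP] at hg
    obtain ⟨s, hs, c, hc, e⟩ := h.norm_S q fun s hs => (mem_normalizer_iff.mp hg s).mp hs
    change (g : G) = _ at e
    have h1 : dg ι c ∈ (P : Subgroup G) := by
      have := mul_mem (inv_mem (hP hs)) g.2
      rwa [e, inv_mul_cancel_left] at this
    obtain ⟨k, hk⟩ := P.isPGroup' ⟨_, h1⟩
    have hk' : dg ι (c ^ 2 ^ k) = 1 := (map_pow _ _ _).trans (congrArg Subtype.val hk)
    have hc' := two c hc (k + 1) (by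
      rw [pow_succ, pow_mul, pow_two]
      rcases h.ker _ hk' with r | r <;> rw [show c ^ 2 ^ k = _ from congrArg Prod.fst r]
      exacts [one_mul _, h.n2])
    change (g : G) ∈ h.S Q
    rw [e]
    exact mul_mem hs (h.mem_S hc' hc')
  refine ⟨P, isSimple_group P ?_ ?_ ?_⟩ <;> simp only [← SetLike.mem_coe, ← Sylow.coe_coe, ← e]
    <;> try simp only [SetLike.mem_coe]
  · exact fun e0 => h.z_ne q (mem_bot.1 (e0 ▸ h.mem_S (one_mem _) q.nQ))
  · exact fun T hT h1 => h.sc q Q.isPGroup' hT h1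
  · intro K hS hC hb g hg
    obtain ⟨s, hs, c, hc, rfl⟩ := h.norm_S q hg
    refine mul_mem (hS hs) ?_
    have hn := mem_normalizer_fintype (S := (Q : Set L)) hc
    obtain ⟨k, m, hm, e⟩ := Nat.exists_eq_two_pow_mul_odd (orderOf_pos c).ne'
    have h1 : c ^ m ∈ K.comap (dg ι) := by
      have := two _ (fun x hx => (mem_normalizer_iff.1 (pow_mem hn m) x).1 hx) k (by
        rw [← pow_mul, mul_comm, ← e, pow_orderOf_eq_one])
      exact hS (h.mem_S this this)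
    have h2 : c ^ 2 ^ k ∈ K.comap (dg ι) := h.odd_mem q (c := c ^ 2 ^ k) hS hC hb (hm.of_dvd_nat
      (orderOf_dvd_of_pow_eq_one (by rw [← pow_mul, ← e, pow_orderOf_eq_one])))
      fun x hx => (mem_normalizer_iff.1 (pow_mem hn _) x).1 hx
    have := mul_mem (zpow_mem h1 (Nat.gcdA m (2 ^ k))) (zpow_mem h2 (Nat.gcdB m (2 ^ k)))
    rwa [← zpow_natCast, ← zpow_natCast, ← zpow_mul, ← zpow_mul, ← zpow_add, ← Nat.gcd_eq_gcd_ab,
      show Nat.gcd m (2 ^ k) = 1 from (Nat.coprime_two_right.2 hm).pow_right k, Nat.cast_one,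
      zpow_one] at this

end W4

end H92.Sp4
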