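import Cfsg.Agent.H92.Sp4Q
import Cfsg.Agent.H54.SpSimple
import Cfsg.Agent.H84.SL2Q
import Cfsg.Agent.S0261

/-! The 2-fusion system of `PSp₄(q)`, `q` odd, is simple. -/

set_option autoImplicit false
set_option linter.unusedSectionVars false

namespace H92.Sp4

open Cfsg Matrix MatrixGroups Sum

variable {F : Type*} [Field F]

abbrev M2 (F : Type*) := Matrix (Fin 2) (Fin 2) F
abbrev M4 (F : Type*) := Matrix (Fin 2 ⊕ Fin 2) (Fin 2 ⊕ Fin 2) F
abbrev Sp (F : Type*) [Field F] := symplecticGroup (Fin 2) F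

def tn (w h : M2 F) : M4 F := fromBlocks (w 0 0 • h) (w 0 1 • h) (w 1 0 • h) (w 1 1 • h)

theorem tn_mul (w h w' h' : M2 F) : tn w h * tn w' h' = tn (w * w') (h * h') := by
  simp [tn, fromBlocks_multiply, mul_apply (M := w), add_smul, smul_smul, mul_comm]

theorem tn_T (w h : M2 F) : (tn w h)ᵀ = tn wᵀ hᵀ := by simp [tn, fromBlocks_transpose]

theorem tn_smul (c : F) (w h : M2 F) : tn (c • w) h = tn w (c • h) := by
  simp [tn, smul_smul, mul_comm]

theorem tn_add (w h h' : M2 F) : tn w (h + h') = tn w h + tn w h' := by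
  simp [tn, fromBlocks_add]

theorem tn_zero (w : M2 F) : tn w 0 = 0 := by simp [tn]

theorem tn_neg (w h : M2 F) : tn (-w) h = -tn w h := by simp [tn, fromBlocks_neg]

theorem tn_one : tn (1 : M2 F) 1 = 1 := by simp [tn]

def J2 : M2 F := !![0, -1; 1, 0]
def E0 : M2 F := !![1, 0; 0, 0]
def E1 : M2 F := !![0, 0; 0, 1]
def σ : M2 F := !![0, 1; 1, 0]
def hd : M2 F := !![1, 1; 1, -1]

theorem J_eq : J (Fin 2) F = tn J2 1 := by simp [tn, J2, J]

theorem sJ (a : M2 F) : a * J2 * aᵀ = a.det • J2 := by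
  ext i j; fin_cases i <;> fin_cases j <;>
    simp [J2, mul_apply, Fin.sum_univ_two, det_fin_two, vecMul, dotProduct] <;> ring

theorem tn_mem {w h : M2 F} {c : F} (h1 : h * hᵀ = c • 1) (h2 : w.det * c = 1) :
    tn w h ∈ Sp F := by
  rw [SymplecticGroup.mem_iff, J_eq, tn_T, tn_mul, tn_mul, sJ, mul_one, h1, tn_smul, smul_smul, h2,
    one_smul]

def bl (a b : M2 F) : M4 F := tn a E0 + tn b E1

theorem E_facts : (E0 * E0 : M2 F) = E0 ∧ (E0 * E1 : M2 F) = 0 ∧ (E1 * E0 : M2 F) = 0 ∧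
    (E1 * E1 : M2 F) = E1 ∧ (E0 + E1 : M2 F) = 1 ∧ (E0ᵀ : M2 F) = E0 ∧ (E1ᵀ : M2 F) = E1 ∧
    (σ * E0 : M2 F) = E1 * σ ∧ (σ * E1 : M2 F) = E0 * σ ∧ (σ * σ : M2 F) = 1 ∧
    (σ * σᵀ : M2 F) = (1 : F) • 1 ∧ (hd * hdᵀ : M2 F) = (2 : F) • 1 ∧
    (hd * hd : M2 F) = (2 : F) • 1 ∧ (hd * E0 + -(hd * E1) : M2 F) = σ * hd := by
  refine ⟨?_, ?_, ?_, ?_, ?_, ?_, ?_, ?_, ?_, ?_, ?_, ?_, ?_, ?_⟩ <;>
    ext i j <;> fin_cases i <;> fin_cases j <;>
    simp [E0, E1, σ, hd, mul_apply, Fin.sum_univ_two] <;> norm_num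

theorem bl_mul (a b c d : M2 F) : bl a b * bl c d = bl (a * c) (b * d) := by
  obtain ⟨h1, h2, h3, h4, -⟩ := E_facts (F := F)
  simp only [bl, add_mul, mul_add, tn_mul, h1, h2, h3, h4, tn_zero, add_zero, zero_add]

theorem bl_self (a : M2 F) : bl a a = tn a 1 := by rw [bl, ← tn_add, E_facts.2.2.2.2.1]

theorem bl_T (a b : M2 F) : (bl a b)ᵀ = bl aᵀ bᵀ := by
  rw [bl, transpose_add, tn_T, tn_T, E_facts.2.2.2.2.2.1, E_facts.2.2.2.2.2.2.1, bl]

theorem bl_inj {a b c d : M2 F} (e : bl a b = bl c d) : a = c ∧ b = d := by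
  have h := fun x y => congrFun (congrFun e x) y
  constructor <;> ext i j <;> fin_cases i <;> fin_cases j
  exacts [by simpa [bl, tn, E0, E1] using h (inl 0) (inl 0),
    by simpa [bl, tn, E0, E1] using h (inl 0) (inr 0),
    by simpa [bl, tn, E0, E1] using h (inr 0) (inl 0),
    by simpa [bl, tn, E0, E1] using h (inr 0) (inr 0),
    by simpa [bl, tn, E0, E1] using h (inl 1) (inl 1),
    by simpa [bl, tn, E0, E1] using h (inl 1) (inr 1),
    by simpa [bl, tn, E0, E1] using h (inr 1) (inl 1),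
    by simpa [bl, tn, E0, E1] using h (inr 1) (inr 1)]

theorem bl_mem {a b : M2 F} : bl a b ∈ Sp F ↔ a.det = 1 ∧ b.det = 1 := by
  rw [SymplecticGroup.mem_iff, J_eq, ← bl_self, bl_T, bl_mul, bl_mul, sJ, sJ]
  refine ⟨fun e => ?_, fun h => by rw [h.1, h.2, one_smul]⟩
  exact ⟨by simpa [J2] using congrFun (congrFun (bl_inj e).1 1) 0,
    by simpa [J2] using congrFun (congrFun (bl_inj e).2 1) 0⟩

theorem exists_bl (h2 : (2 : F) ≠ 0) {g : M4 F} (h : g * bl 1 (-1) = bl 1 (-1) * g) :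
    ∃ a b, g = bl a b := by
  have e : (bl 1 (-1) : M4 F) = diagonal (Sum.elim ![1, -1] ![1, -1]) := by
    ext (i | i) (j | j) <;> fin_cases i <;> fin_cases j <;> simp [bl, tn, E0, E1]
  rw [e] at h
  have k : ∀ x y, (Sum.elim ![1, -1] ![1, -1] x : F) = -Sum.elim ![1, -1] ![1, -1] y →
      (Sum.elim ![1, -1] ![1, -1] y : F) ≠ 0 → g x y = 0 := fun x y r r' => by
    have := congrFun (congrFun h x) y
    rw [mul_diagonal, diagonal_mul, r] at this
    exact (mul_eq_zero.1 (by linear_combination this : g x y * (2 * _) = 0)).resolve_right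
      (mul_ne_zero h2 r')
  refine ⟨!![g (inl 0) (inl 0), g (inl 0) (inr 0); g (inr 0) (inl 0), g (inr 0) (inr 0)],
    !![g (inl 1) (inl 1), g (inl 1) (inr 1); g (inr 1) (inl 1), g (inr 1) (inr 1)], ?_⟩
  ext (i | i) (j | j) <;> fin_cases i <;> fin_cases j <;> simp [bl, tn, E0, E1] <;>
    exact k _ _ (by simp) (by simp)

def io : SL(2, F) × SL(2, F) →* Sp F where
  toFun x := ⟨bl x.1 x.2, bl_mem.2 ⟨x.1.2, x.2.2⟩⟩
  map_one' := Subtype.ext ((bl_self 1).trans tn_one)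
  map_mul' x y := Subtype.ext (bl_mul _ _ _ _).symm

def ta : Sp F := ⟨tn 1 σ, tn_mem E_facts.2.2.2.2.2.2.2.2.2.2.1 (by simp)⟩

theorem ta_io (a b : SL(2, F)) : ta * io (a, b) = io (b, a) * ta := Subtype.ext (by
  change tn 1 σ * bl a.1 b.1 = bl b.1 a.1 * tn 1 σ
  simp only [bl, mul_add, add_mul, tn_mul, one_mul, mul_one, E_facts.2.2.2.2.2.2.2.1,
    E_facts.2.2.2.2.2.2.2.2.1, add_comm])

theorem io_neg : io (-1, -1) = H54.spNegOne (Fin 2) F := Subtype.ext (by
  change bl (-1) (-1) = -1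
  rw [bl_self, tn_neg, tn_one])

theorem io_inj {x y : SL(2, F) × SL(2, F)} (e : io x = io y) : x = y :=
  Prod.ext (Subtype.ext (bl_inj (congrArg Subtype.val e)).1)
    (Subtype.ext (bl_inj (congrArg Subtype.val e)).2)

theorem tr_zero {a : SL(2, F)} (h : a * a = -1) : a.1 0 0 + a.1 1 1 = 0 := by
  have e := fun i j => congrFun (congrFun (congrArg Subtype.val h) i) j
  have d := a.2
  rw [det_fin_two] at d
  have e0 := e 0 0
  have e1 := e 0 1
  have e3 := e 1 1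
  simp [mul_apply, Fin.sum_univ_two] at e0 e1 e3
  linear_combination (-(a.1 0 0 + a.1 1 1)) * d + a.1 1 1 * e0 - a.1 1 0 * e1 + a.1 1 1 * d

theorem sq_tr {w : M2 F} (h : w 0 0 + w 1 1 = 0) : (w * w) 0 0 = -w.det := by
  simp only [mul_apply, Fin.sum_univ_two, det_fin_two]
  linear_combination w 0 0 * h

/-- conjugation by an invertible matrix -/
def cj (w w' : M2 F) (h : w' * w = 1) : SL(2, F) →* SL(2, F) where
  toFun a := ⟨w * a * w', by
    rw [det_mul, det_mul, a.2, mul_one, mul_comm, ← det_mul, h, det_one]⟩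
  map_one' := Subtype.ext (by simpa using mul_eq_one_comm.1 h)
  map_mul' a b := Subtype.ext (by
    change w * (a.1 * b.1) * w' = w * a.1 * w' * (w * b.1 * w')
    rw [mul_assoc (w * a.1), ← mul_assoc w', ← mul_assoc w', h]
    simp [mul_assoc])

theorem w4 [Fintype F] (ho : Odd (Fintype.card F)) (h2 : (2 : F) ≠ 0) :
    W4 (-1 : SL(2, F)) ((QuotientGroup.mk' (Subgroup.center (Sp F))).comp io)
      (QuotientGroup.mk' _ ta) := by
  have cm : ∀ g : Sp F, g * io (1, -1) = io (1, -1) * g → g ∈ io.range := fun g h => by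
    obtain ⟨a, b, e⟩ := exists_bl h2 (congrArg Subtype.val h)
    have := bl_mem.1 (e ▸ g.2)
    exact ⟨(⟨a, this.1⟩, ⟨b, this.2⟩), Subtype.ext e.symm⟩
  have kn : QuotientGroup.mk' (Subgroup.center (Sp F)) (io (-1, -1)) = 1 :=
    (QuotientGroup.eq_one_iff _).2 (io_neg (F := F) ▸ H54.spNegOne_mem_center)
  refine ⟨by simp, fun e => h2 ?_, by simp, fun x hx => ?_, kn, ?_, fun a b => ?_, fun g hg => ?_,
    fun a b => H84.sl_isConj_of_mul_self_eq_neg_one ho, fun i j hi hj hij => ?_⟩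
  · have := congrFun (congrFun (congrArg Subtype.val e) 0) 0
    simp at this
    linear_combination -this
  · rcases H54.mem_center_sp_iff.1 ((QuotientGroup.eq_one_iff _).1 hx) with r | r
    exacts [Or.inl (io_inj (r.trans io.map_one.symm)), Or.inr (io_inj (r.trans io_neg.symm))]
  · rw [← map_mul, show ta * ta = (1 : Sp F) from Subtype.ext (by
      change tn 1 σ * tn 1 σ = 1
      rw [tn_mul, one_mul, E_facts.2.2.2.2.2.2.2.2.2.1, tn_one]), map_one]
  · simp only [MonoidHom.comp_apply, ← map_mul, ta_io]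
  · obtain ⟨g, rfl⟩ := QuotientGroup.mk'_surjective _ g
    simp only [MonoidHom.comp_apply, ← map_mul, QuotientGroup.mk'_eq_mk'] at hg
    obtain ⟨z, hz, e⟩ := hg
    rcases H54.mem_center_sp_iff.1 hz with rfl | rfl
    · obtain ⟨x, rfl⟩ := cm g (by rwa [mul_one] at e)
      exact Or.inl ⟨x, rfl⟩
    · obtain ⟨x, hx⟩ := cm (g * ta) (by
        rw [mul_assoc, ta_io, ← mul_assoc, ← mul_assoc, ← e, ← io_neg, mul_assoc g (io (1, -1)),
          ← map_mul]
        simp)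
      exact Or.inr ⟨x, by rw [MonoidHom.comp_apply, hx, map_mul]⟩
  · have hi' : i.1 * i.1 = -1 := congrArg Subtype.val hi
    have hj' : j.1 * j.1 = -1 := congrArg Subtype.val hj
    have hij' : i.1 * j.1 = -1 * (j.1 * i.1) := congrArg Subtype.val hij
    have ww : (i.1 - j.1) * (i.1 - j.1) = (-2 : F) • 1 := by
      rw [sub_mul, mul_sub, mul_sub, hi', hj', hij', neg_smul, two_smul]; simp; abel
    have wd : (i.1 - j.1).det = 2 := by
      have := sq_tr (w := i.1 - j.1) (by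
        rw [Matrix.sub_apply, Matrix.sub_apply]; linear_combination tr_zero hi - tr_zero hj)
      rw [ww] at this
      simpa using this.symm
    have wi : ((-2 : F)⁻¹ • (i.1 - j.1)) * (i.1 - j.1) = 1 := by
      rw [smul_mul_assoc, ww, smul_smul, inv_mul_cancel₀ (neg_ne_zero.2 h2), one_smul]
    have wi' := mul_eq_one_comm.1 wi
    let t : Sp F := ⟨tn ((2 : F)⁻¹ • (i.1 - j.1)) hd, tn_mem E_facts.2.2.2.2.2.2.2.2.2.2.2.1 (by
      rw [det_smul, wd]; simp; field_simp)⟩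
    have inv : ∀ a : SL(2, F), a * a = -1 → (a⁻¹).1 = -a.1 := fun a h => by
      rw [show a⁻¹ = -a from inv_eq_of_mul_eq_one_right (by simp [h])]; rfl
    refine ⟨QuotientGroup.mk' _ t, ?_, ?_, cj _ _ wi, Subtype.ext ?_, Subtype.ext ?_, fun a => ?_⟩
    · rw [← map_mul, ← kn]
      congr 1
      refine Subtype.ext ?_
      change tn _ _ * tn _ _ = bl (-1) (-1)
      rw [tn_mul, bl_self, E_facts.2.2.2.2.2.2.2.2.2.2.2.2.1, ← tn_smul, smul_mul_smul_comm, ww,
        smul_smul, smul_smul, show (2 : F) * (2⁻¹ * 2⁻¹) * -2 = -1 by field_simp, neg_one_smul]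
    · rw [mul_inv_eq_iff_eq_mul, MonoidHom.comp_apply, ← map_mul, ← map_mul]
      congr 1
      refine Subtype.ext ?_
      change tn _ _ * bl 1 (-1) = tn 1 σ * tn _ _
      rw [bl, mul_add, tn_mul, tn_mul, tn_mul, mul_one, one_mul, ← E_facts.2.2.2.2.2.2.2.2.2.2.2.2.2,
        tn_add, mul_neg_one, tn_neg, ← neg_one_smul F (hd * E1), ← tn_smul, neg_one_smul, tn_neg]
    · change (i.1 - j.1) * i.1 * _ = _
      rw [inv j hj, show (i.1 - j.1) * i.1 = -j.1 * (i.1 - j.1) by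
        rw [sub_mul, mul_sub, neg_mul, neg_mul, hi', hj']; abel, mul_assoc, wi', mul_one]
    · change (i.1 - j.1) * j.1 * _ = _
      rw [inv i hi, show (i.1 - j.1) * j.1 = -i.1 * (i.1 - j.1) by
        rw [sub_mul, mul_sub, neg_mul, neg_mul, hi', hj']; abel, mul_assoc, wi', mul_one]
    · rw [mul_inv_eq_iff_eq_mul, MonoidHom.comp_apply, MonoidHom.comp_apply, ← map_mul, ← map_mul]
      congr 1
      refine Subtype.ext ?_
      change tn _ _ * bl a.1 a.1 = bl (_ * a.1 * _) (_ * a.1 * _) * tn _ _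
      rw [bl_self, bl_self, tn_mul, tn_mul, mul_one, one_mul, mul_smul_comm, mul_assoc _ _ (i.1 - j.1),
        wi, mul_one, smul_mul_assoc]

theorem psp4 [Fintype F] (hodd : Fintype.card F % 2 = 1) (S : Sylow 2 (PSp 2 F)) :
    (groupFusionSystem (S : Subgroup (PSp 2 F))).IsSimple 2 := by
  have ho : Odd (Fintype.card F) := Nat.odd_iff.2 hodd
  have h2 : (2 : F) ≠ 0 := Ring.two_ne_zero fun e => by
    have := FiniteField.even_card_of_char_two e
    omega
  obtain ⟨Q⟩ : Nonempty (Sylow 2 SL(2, F)) := inferInstance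
  obtain ⟨k, hk, ⟨e⟩⟩ := Cfsg.Agent.S0261.result ho Q
  obtain ⟨k, rfl⟩ := Nat.exists_eq_add_of_le' hk
  obtain ⟨P, hP⟩ := (w4 ho h2).simple Q (qd_of (fun x => H61.sl_eq_of_mul_self_eq_one h2) e)
  exact H95.isSimple_of_surjective (MonoidHom.id _) Function.surjective_id
    (by rw [MonoidHom.ker_id]; exact bot_le) (fun g hg _ _ => hg) P hP S

end H92.Sp4
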