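import Cfsg.Agent.H92.Sp4A
import Cfsg.Agent.H3.DSQAut

/-! Generalised quaternion subgroups satisfy `H92.Sp4.QD`. -/

set_option autoImplicit false
set_option linter.unusedSectionVars false

namespace H92.Sp4

open Subgroup QuaternionGroup

def f8 (x y : QuaternionGroup 2) : QuaternionGroup 2 → QuaternionGroup 2
  | a k => x ^ k.val
  | xa k => y * x ^ k.val

theorem f8_eq (β : MulAut (QuaternionGroup 2)) (w : QuaternionGroup 2) :
    β w = f8 (β (a 1)) (β (xa 0)) w := by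
  have h1 : ∀ k : ZMod (2 * 2), (a k : QuaternionGroup 2) = a 1 ^ k.val := by decide
  have h2 : ∀ k : ZMod (2 * 2), (xa k : QuaternionGroup 2) = xa 0 * a 1 ^ k.val := by decide
  rcases w with k | k
  · rw [f8, ← map_pow, ← h1]
  · rw [f8, ← map_pow, ← map_mul, ← h2]

theorem q8 (β : MulAut (QuaternionGroup 2)) : β ^ 4 = 1 ∨
    (a 1 * β (a 1) = a 2 * (β (a 1) * a 1) ∧
      (β (β (a 1)) = a 1 * β (a 1) ∨ β (β (a 1)) = β (a 1) * a 1) ∧ β (β (β (a 1))) = a 1 ∧
      β (a 1) * β (a 1) = a 2 ∧ ∀ w, ∃ s t : Fin 4, w = a 1 ^ s.1 * β (a 1) ^ t.1) := by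
  have h : ∀ x y : QuaternionGroup 2, x * x ≠ 1 → y * y ≠ 1 → x * y ≠ y * x →
      (∀ w, f8 x y (f8 x y (f8 x y (f8 x y w))) = w) ∨
      (a 1 * x = a 2 * (x * a 1) ∧ (f8 x y x = a 1 * x ∨ f8 x y x = x * a 1) ∧
        f8 x y (f8 x y x) = a 1 ∧ x * x = a 2 ∧ ∀ w, ∃ s t : Fin 4, w = a 1 ^ s.1 * x ^ t.1) := by
    decide
  refine (h (β (a 1)) (β (xa 0)) ?_ ?_ ?_).imp (fun r => ?_) fun r => ?_
  · rw [← map_mul, Ne, map_eq_one_iff _ β.injective]; decide
  · rw [← map_mul, Ne, map_eq_one_iff _ β.injective]; decide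
  · rw [← map_mul, ← map_mul, Ne, β.injective.eq_iff]; decide
  · ext w
    have := r w
    simp only [← f8_eq] at this
    exact this
  · simpa only [← f8_eq] using r

variable {L : Type*} [Group L] [Finite L] {n : L} {Q : Subgroup L}

theorem qd_of (hn : ∀ x, x * x = 1 → x = 1 ∨ x = n) {k : ℕ}
    (e : Q ≃* QuaternionGroup (2 ^ (k + 1))) : QD n Q := by
  have h := (H3.dsq_quaternion k).of_mulEquiv e.symm
  generalize e.symm (a 1) = a at h
  generalize e.symm (xa 0) = b at h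
  have un : ∀ x : Q, x * x = 1 → x ≠ 1 → (x : L) = n := fun x h1 h2 =>
    (hn x (congrArg Subtype.val h1)).resolve_left fun r => h2 (Subtype.ext r)
  have hz : ((a ^ 2 ^ (k + 1) : Q) : L) = n := un _ (by rw [← pow_two, h.z_sq]) h.z_ne_one
  have hq : b ^ 2 = a ^ 2 ^ (k + 1) ∧ b * a * b⁻¹ = a⁻¹ := by
    have : b ^ 2 ≠ 1 := fun r => h.notMem (by
      by_cases hb : b = 1
      · rw [hb]; exact one_mem _
      · rw [show b = a ^ 2 ^ (k + 1) from Subtype.ext ((un b (by rwa [← pow_two]) hb).trans hz.symm)]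
        exact pow_mem (mem_zpowers a) _)
    rcases h.cases with r | r | r
    exacts [absurd r.1 this, r, absurd r.2.1 this]
  have sq : ∀ x : Q, x ∉ zpowers a → (x : L) * x = n := fun x hx => by
    rw [← hz, ← h.sq_eq_of_quaternion hq hx, pow_two]; rfl
  refine ⟨hz ▸ Subtype.prop _, fun x hx hc => ?_, ⟨_, (a ^ 2 ^ k).2, _, b.2, ?_, sq b h.notMem, ?_⟩,
    fun K hK x hx => ?_, fun c ho hc => ?_⟩
  · have : (⟨x, hx⟩ : Q) ∈ zpowers (a ^ 2 ^ (k + 1)) := h.center_eq ▸ mem_center_iff.2 fun y =>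
      Subtype.ext (hc y y.2).symm
    obtain ⟨l, hl⟩ := this
    refine hn x ?_
    have h2 := congrArg Subtype.val (show (⟨x, hx⟩ : Q) ^ 2 = 1 by
      rw [← hl, ← zpow_natCast, ← zpow_mul, mul_comm, zpow_mul, zpow_natCast, h.z_sq, one_zpow])
    rwa [pow_two] at h2
  · rw [← hz, pow_succ, pow_mul, pow_two]; rfl
  · rw [← hz]
    norm_cast
    have h1 : b * a ^ 2 ^ k = (a ^ 2 ^ k)⁻¹ * b := by
      rw [← inv_pow, ← hq.2, conj_pow]; group
    rw [h1, pow_succ, pow_mul, pow_two]; group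
  · have hb : (b : L) ∈ K := hK _ b.2 (sq b h.notMem)
    have ha : (a : L) ∈ K := by
      have := mul_mem (hK _ (a ^ (1 : ℤ) * b).2 (sq _ (h.zpow_mul_notMem 1))) (inv_mem hb)
      simpa using this
    rcases h.eq_zpow_or ⟨x, hx⟩ with ⟨i, r⟩ | ⟨i, r⟩ <;> rw [show x = _ from congrArg Subtype.val r]
    exacts [zpow_mem ha i, mul_mem (zpow_mem ha i) hb]
  · let c' : normalizer (Q : Set L) := ⟨c, mem_normalizer_fintype hc⟩
    let α := normalizerMonoidHom Q c'
    have hα : ∀ x : Q, (α x : L) = c * x * c⁻¹ := fun x => rfl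
    have h1 : ∀ l, α ^ 2 ^ l = 1 → ∀ x ∈ Q, c * x = x * c := fun l hl x hx => by
      have h2 : α ^ orderOf c = 1 := by
        rw [← map_pow, show c' ^ orderOf c = 1 from Subtype.ext (pow_orderOf_eq_one c), map_one]
      have h3 : α = 1 := orderOf_eq_one_iff.1 (Nat.dvd_one.1
        (((Nat.coprime_two_right.2 ho).pow_right l) ▸ Nat.dvd_gcd (orderOf_dvd_of_pow_eq_one h2)
          (orderOf_dvd_of_pow_eq_one hl)))
      have := hα ⟨x, hx⟩
      rw [h3] at this
      exact mul_inv_eq_iff_eq_mul.1 this.symm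
    rcases h.quaternion_eight_or_isPGroup_mulAut with ⟨⟨e8⟩⟩ | r
    swap
    · obtain ⟨l, hl⟩ := r α
      exact Or.inl (h1 l hl)
    let ψ : QuaternionGroup 2 →* L := Q.subtype.comp e8.symm.toMonoidHom
    have hψ : ∀ w, ψ (MulAut.congr e8 α w) = c * ψ w * c⁻¹ := fun w => by
      change ((e8.symm (e8 (α (e8.symm w))) : Q) : L) = _
      rw [e8.symm_apply_apply, hα]; rfl
    have z2 : ψ (.a 2) = n := un _ (by rw [← map_mul, show QuaternionGroup.a (n := 2) 2 * .a 2 = 1 by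
      decide, map_one]) fun r => absurd (e8.symm.injective (r.trans (map_one _).symm)) (by decide)
    have sur : ∀ x ∈ Q, ∃ w, ψ w = x := fun x hx =>
      ⟨e8 ⟨x, hx⟩, congrArg Subtype.val (e8.symm_apply_apply _)⟩
    rcases q8 (MulAut.congr e8 α) with r | ⟨r1, r2, r3, r4, r5⟩
    · exact Or.inl (h1 2 ((MulAut.congr e8).injective (by rw [map_pow, map_one]; exact r)))
    refine Or.inr ⟨ψ (.a 1), ψ (MulAut.congr e8 α (.a 1)), le_antisymm (fun x hx => ?_)
      ((closure_le _).2 ?_), ?_, ?_, ?_, (hψ _).symm, ?_, ?_, fun x hx => ?_⟩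
    · obtain ⟨w, rfl⟩ := sur x hx
      obtain ⟨s, t, rfl⟩ := r5 w
      rw [map_mul, map_pow, map_pow]
      exact mul_mem (pow_mem (subset_closure (by simp)) _) (pow_mem (subset_closure (by simp)) _)
    · rintro _ (rfl | rfl) <;> exact Subtype.prop _
    · rw [← map_mul, ← z2]; congr 1
    · rw [← map_mul, r4, z2]
    · rw [← map_mul, r1, map_mul, map_mul, z2]
    · rw [← hψ, ← map_mul, ← map_mul]
      exact r2.imp (congrArg ψ) (congrArg ψ)
    · rw [← hψ, ← hψ, r3]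
    · obtain ⟨w, rfl⟩ := sur x hx
      refine ⟨?_, fun y hy => ?_⟩
      · rw [← map_mul, ← z2, ← map_one ψ]
        exact ((by decide : ∀ w : QuaternionGroup 2, w * w = 1 ∨ w * w = .a 2) w).imp
          (congrArg ψ) (congrArg ψ)
      · obtain ⟨v, rfl⟩ := sur y hy
        rw [← z2, ← map_mul, ← map_mul, ← map_mul]
        exact ((by decide : ∀ w v : QuaternionGroup 2, w * v = v * w ∨ w * v = .a 2 * (v * w))
          w v).imp (congrArg ψ) (congrArg ψ)

end H92.Sp4
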