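/- T3-Xa, Xb, Xc (S5228): the levels zero and one inside `E₂`. -/
import Cfsg.Agent.H11.T3Spec

set_option autoImplicit false
set_option linter.unusedSimpArgs false

open Subgroup H90.RF H11.T3 H11.T3.Co
open H90.U5 (Bq)

namespace H92.T3X

theorem one_z (k : ℕ) {u : Co} (h : u = 1) : u ∈ zA k := h ▸ one_mem _

theorem cm_ED2 {s m : Co} (hs : s ∈ sE2) (hm : m ∈ sD2) : cm s m ∈ sZ2 := by
  rw [cm_ED hs hm]; simp [mem_sZ2]

theorem cm_DE {s m : Co} (hs : s ∈ sD2) (hm : m ∈ sE2) : cm s m ∈ sZ2 := by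
  obtain ⟨p0, p1, p2, p3, p4⟩ := hs
  have q : m.b = 0 := hm
  simp [mem_sZ2, cm_b, cm_a, cm_d, cm_c, cm_e, cm_f, cm_g, cm_h, *]

theorem D2E2 : sD2 ≤ sE2 := fun _ h => h.1

theorem jobXa : JobXa := fun k _ E M h hE hc hM x hx => by
  by_contra hn
  have hx' : ¬ (x.f = 0 ∧ x.g = 0 ∧ x.h = 0) := fun a =>
    hn ⟨(hM hx).1, (hM hx).2.1, (hM hx).2.2.1, (hM hx).2.2.2.1, (hM hx).2.2.2.2, a⟩
  have hD : sD2 ≤ E := fun s hs => (h.cen s).2 fun m hm => one_z k (by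
    rw [cm_ED (D2E2 hs) (hM hm)]
    ext <;> simp [hs.2.1, hs.2.2.1, hs.2.2.2.1, hs.2.2.2.2])
  have k1 : ∀ f g h : ZMod 3, ¬ (f = 0 ∧ g = 0 ∧ h = 0) → ∃ p ∈ [((0 : ZMod 3), (0 : ZMod 3), (1 : ZMod 3),
      (0 : ZMod 3), (0 : ZMod 3), (1 : ZMod 3)), (1, 0, 0, -1, 1, 0), (1, 1, 1, 1, 1, 1), (1, -1, -1, 1, -1, 1)],
      ¬ (-p.1 * h + p.2.1 * g + p.2.2.2.1 * f = 0 ∧ -p.1 * g - p.2.1 * h + p.2.2.1 * f - p.2.2.2.1 * g = 0) ∧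
      ∀ f g h : ZMod 3, ∃ t, -p.1 * h + p.2.1 * g + p.2.2.2.1 * f = t * p.2.2.2.2.1 ∧
        -p.1 * g - p.2.1 * h + p.2.2.1 * f - p.2.2.2.1 * g = t * p.2.2.2.2.2 := by decide +kernel
  have k2 : ∀ f g h : ZMod 3, ¬ (f = 0 ∧ g = 0 ∧ h = 0) → ∀ k l : ZMod 3, ∃ a d c e : ZMod 3,
      -a * h + d * g + e * f = k ∧ -a * g - d * h + c * f - e * g = l := by decide +kernel
  obtain ⟨⟨a, d, c, e, i, j⟩, -, p1, p2⟩ := k1 _ _ _ hx'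
  choose fa fd fc fe q1 q2 using k2 _ _ _ hx'
  refine h.no2 (B := sE2) (le_nor fun s hs c hc => hD (cm_EE hs (hE hc)))
    (fun x hx y hy m hm => one_z k (cm_EZ hx (cm_ED2 hy (hM hm)))) (s := ⟨0, a, d, c, e, 0, 0, 0, 0, 0⟩) rfl
    (fun hs => p1 ?_) (κ := ZMod 3) (fun k l => ⟨0, fa k l, fd k l, fc k l, fe k l, 0, 0, 0, 0, 0⟩)
    (fun t => ⟨0, 0, 0, 0, 0, 0, 0, 0, t * i, t * j⟩) (fun _ _ => rfl) (fun k l k' l' hs => ?_) fun m hm => ?_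
  · have := hc _ hs x hx
    rw [cm_ED rfl (hM hx)] at this
    exact ⟨congrArg Co.i this, congrArg Co.j this⟩
  · have := hc _ hs x hx
    rw [cm_ED (hE hs) (hM hx)] at this
    have a1 := congrArg Co.i this
    have a2 := congrArg Co.j this
    simp only [mul_a, mul_d, mul_c, mul_e, inv_a, inv_d, inv_c, inv_e, one_i, one_j] at a1 a2
    exact ⟨by linear_combination q1 k' l' - q1 k l - a1, by linear_combination q2 k' l' - q2 k l - a2⟩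
  · obtain ⟨t, a1, a2⟩ := p2 m.f m.g m.h
    refine ⟨t, one_z k ?_⟩
    rw [cm_ED rfl (hM hm), inv_mul_eq_one]
    exact Co.ext rfl rfl rfl rfl rfl rfl rfl rfl a1.symm a2.symm

theorem xb1 {k : ℕ} {E M : Subgroup Co} (h : Bq 3 zA k E M) (hE : E ≤ sE2)
    (hc : ∀ s ∈ E, ∀ m ∈ M, cm s m = 1) {m : Co} (hm : m ∈ M) (h4 : m ∈ sC4) : m.c = 0 := by
  by_contra h0
  obtain ⟨p0, p1, p2, p3⟩ := h4
  have hC : ∀ s ∈ E, s ∈ sC4 ∧ s.c * m.f = s.f * m.c := fun s hs => by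
    have e := hc s hs m hm
    have q0 : s.b = 0 := hE hs
    have q1 : s.a = 0 := by simpa [cm_f, p0, p1, q0, h0] using congrArg Co.f e
    have q2 : s.d = 0 := by simpa [cm_g, p0, p1, p2, p3, q0, h0] using congrArg Co.g e
    have q3 : s.e = 0 := by simpa [cm_h, p0, p1, p2, p3, q0, q1, h0] using congrArg Co.h e
    refine ⟨⟨q0, q1, q2, q3⟩, ?_⟩
    simpa [cm_j, p0, p1, p2, p3, q0, q1, q2, q3, sub_eq_zero] using congrArg Co.j e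
  have hZ : sZ4 ≤ E := fun s hs => (h.cen s).2 fun m' hm' => one_z k (by
    obtain ⟨q0, q1, q2, q3⟩ := (hC m' (h.ME hm')).1
    obtain ⟨r0, r1, r2, r3, r4, r5⟩ := hs
    ext <;> simp [cm_b, cm_a, cm_d, cm_c, cm_e, cm_f, cm_g, cm_h, cm_i, cm_j, *])
  have h3 : ∀ s ∈ sZ5, ∀ c ∈ E, cm s c ∈ sZ3 := fun s hs c hc => by
    obtain ⟨q0, q1, q2, q3⟩ := (hC c hc).1
    obtain ⟨r0, r1, r2, r3⟩ := hs
    simp [mem_sZ3, cm_b, cm_a, cm_d, cm_c, cm_e, cm_f, cm_g, *]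
  refine h.no2 (B := sZ5) (le_nor fun s hs c hc => hZ (Z3_le_Z4 (h3 s hs c hc)))
    (fun x hx y hy m' hm' => one_z k ?_) (s := xf 1) ⟨rfl, rfl, rfl, rfl⟩
    (fun hs => h0 (by simpa [xf] using (hC _ hs).2.symm)) (κ := ZMod 3)
    (fun k l => ⟨0, 0, 0, 0, k, l, 0, 0, 0, 0⟩) xj (fun _ _ => ⟨rfl, rfl, rfl, rfl⟩) (fun k l k' l' hs => ?_)
    fun m' hm' => ⟨-m'.c, one_z k ?_⟩
  · have w := h3 y hy _ (h.ME hm')
    rw [cm_ED hx.1 (Z4_le_D2 (Z3_le_Z4 w))]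
    ext <;> simp [hx.2.1, hx.2.2.1, w.2.2.2.2.2.1, w.2.2.2.2.2.2]
  · obtain ⟨⟨-, -, -, a1⟩, a2⟩ := hC _ hs
    simp [h0] at a1 a2
    exact ⟨by linear_combination -a1, by linear_combination -a2⟩
  · obtain ⟨q0, q1, q2, q3⟩ := (hC m' (h.ME hm')).1
    rw [inv_mul_eq_one]
    ext <;> simp [cm_b, cm_a, cm_d, cm_c, cm_e, cm_f, cm_g, cm_h, cm_i, cm_j, xf, xj, q0, q1, q2, q3]

theorem xb2 {k : ℕ} {E M : Subgroup Co} (h : Bq 3 zA k E M) (hE : E ≤ sE2)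
    (hc : ∀ s ∈ E, ∀ m ∈ M, cm s m = 1) {m : Co} (hm : m ∈ M) (h4 : m ∈ sK) : m.a = 0 := by
  by_contra h0
  obtain ⟨p0, p1, p2, p3⟩ := h4
  have hC : ∀ s ∈ E, s ∈ sK := fun s hs => by
    have e := hc s hs m hm
    have q0 : s.b = 0 := hE hs
    have q1 : s.c = 0 := by simpa [cm_f, p0, p2, q0, h0] using congrArg Co.f e
    have q2 : s.d = 0 := by simpa [cm_h, p0, p1, p2, p3, q0, q1, h0] using congrArg Co.h e
    refine ⟨q0, q2, q1, ?_⟩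
    have := congrArg Co.g e
    simp [cm_g, p0, p1, p2, p3, q0, q1, q2] at this
    exact mul_right_cancel₀ h0 (by linear_combination this)
  have hZ : sY ≤ E := fun s hs => (h.cen s).2 fun m' hm' => one_z k (by
    obtain ⟨q0, q1, q2, q3⟩ := hC m' (h.ME hm')
    obtain ⟨r0, r1, r2, r3, r4, r5⟩ := hs
    ext <;> simp [cm_b, cm_a, cm_d, cm_c, cm_e, cm_f, cm_g, cm_h, cm_i, cm_j, *])
  have h3 : ∀ s ∈ sB, ∀ c ∈ E, cm s c ∈ sY ∧ (cm s c).g = 0 := fun s hs c hc => by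
    obtain ⟨q0, q1, q2, q3⟩ := hC c hc
    obtain ⟨r0, r1, r2, r3⟩ := hs
    simp [mem_sY, cm_b, cm_a, cm_d, cm_c, cm_e, cm_f, cm_g, cm_h, *]
  refine h.no2 (B := sB) (le_nor fun s hs c hc => hZ (h3 s hs c hc).1)
    (fun x hx y hy m' hm' => one_z k ?_) (s := xf 1) ⟨rfl, rfl, rfl, rfl⟩
    (fun hs => h0 ?_) (κ := ZMod 3)
    (fun k l => ⟨0, 0, k, -k, 0, l, 0, 0, 0, 0⟩) xi (fun _ _ => ⟨rfl, rfl, rfl, rfl⟩) (fun k l k' l' hs => ?_)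
    fun m' hm' => ⟨m'.a, one_z k ?_⟩
  · obtain ⟨⟨w0, w1, w2, w3, w4, w5⟩, w6⟩ := h3 y hy _ (h.ME hm')
    rw [cm_ED hx.1 ⟨w0, w1, w2, w3, w4⟩]
    ext <;> simp [hx.2.1, hx.2.2.1, hx.2.2.2, w5, w6]
  · simpa [cm_i, xf, p0, p1, p2, p3] using congrArg Co.i (hc _ hs m hm)
  · have a1 := (hC _ hs).2.1
    simp at a1
    obtain rfl : k = k' := by linear_combination -a1
    have a2 := congrArg Co.i (hc _ hs m hm)
    simp [cm_i, p0, p1, p2, p3, h0] at a2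
    exact ⟨rfl, by grind⟩
  · obtain ⟨q0, q1, q2, q3⟩ := hC m' (h.ME hm')
    rw [inv_mul_eq_one]
    ext <;> simp [cm_b, cm_a, cm_d, cm_c, cm_e, cm_f, cm_g, cm_h, cm_i, cm_j, xf, xi, q0, q1, q2, q3]

theorem jobXb : JobXb := fun _ _ _ _ h hE hc m hm h4 => by
  rcases h4 with h4 | h4
  · exact ⟨h4.1, h4.2.1, h4.2.2.1, xb1 h hE hc hm h4, h4.2.2.2⟩
  · have := xb2 h hE hc hm h4
    exact ⟨h4.1, this, h4.2.1, h4.2.2.1, by rw [h4.2.2.2, this, neg_zero]⟩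

theorem cenW {s m : Co} (hs : s ∈ sE2) (hm : m ∈ sW) (h0 : m ∉ sD2) (e : cm s m = 1) : s ∈ sW := by
  obtain ⟨p0, p1, p2, p3, p4⟩ := hm
  have q0 : s.b = 0 := hs
  have h1 : ¬ (m.a = 0 ∧ m.d = 0) := fun a => h0 ⟨p0, a.1, a.2, p1, p2⟩
  have a1 := congrArg Co.f e
  have a2 := congrArg Co.g e
  have a3 := congrArg Co.h e
  simp only [cm_f, cm_g, cm_h, p0, p1, p2, p3, p4, q0, mul_zero, zero_mul, neg_zero, add_zero, sub_zero,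
    zero_add, one_f, one_g, one_h, zero_pow two_ne_zero] at a1 a2 a3
  obtain ⟨q1, q2⟩ : s.c = 0 ∧ s.e = 0 := by
    revert h1 a1 a2 a3
    generalize s.c = c; generalize s.e = e; generalize m.a = a; generalize m.d = d
    revert a d c e; decide
  have a4 := congrArg Co.i e
  have a5 := congrArg Co.j e
  simp [cm_i, cm_j, p0, p1, p2, p3, p4, q0, q1, q2] at a4 a5
  refine ⟨q0, q1, q2, ?_⟩
  revert h1 a4 a5
  generalize s.g = c; generalize s.h = e; generalize m.a = a; generalize m.d = d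
  revert a d c e; decide

theorem toW (cj : H11.T3.JobCj) (o3 : JobO3) (xb : JobXb) {k : ℕ} (hk : k ≤ 1) {E M : Subgroup Co}
    (h : Bq 3 zA k E M) (hE : E ≤ sE2) (hc : ∀ s ∈ E, ∀ m ∈ M, cm s m = 1) {m : Co} (hm : m ∈ M)
    (h0 : m ∉ sD2) (h3 : m ^ 3 = 1) : ∃ t, H11.T3.cjS t E = sW := by
  obtain ⟨t, ht⟩ := o3 m (hE (h.ME hm)) h3
  have h' := cj k E M t h
  have hE' : H11.T3.cjS t E ≤ sE2 := fun s hs => by
    simpa [mul_assoc] using nE2.conj_mem _ (hE (H11.T3.mem_cjS.1 hs)) t⁻¹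
  have hc' : ∀ s ∈ H11.T3.cjS t E, ∀ m ∈ H11.T3.cjS t M, cm s m = 1 := fun s hs m hm => by
    have := hc _ (H11.T3.mem_cjS.1 hs) _ (H11.T3.mem_cjS.1 hm)
    rwa [cm_conj, conj_eq_one_iff] at this
  have hm' : t⁻¹ * m * t ∈ H11.T3.cjS t M := H11.T3.mem_cjS.2 (by simpa [mul_assoc] using hm)
  have h0' : t⁻¹ * m * t ∉ sD2 := fun a => h0 (by simpa [mul_assoc] using nD2.conj_mem _ a t)
  have hW := ht.resolve_right fun a => h0' (xb k hk _ _ h' hE' hc' _ hm' a)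
  have le : H11.T3.cjS t E ≤ sW := fun s hs => cenW (hE' hs) hW h0' (hc' s hs _ hm')
  refine ⟨t, le_antisymm le fun s hs => (h'.cen s).2 fun m' hm' => one_z k ?_⟩
  obtain ⟨q0, q1, q2, q3, q4⟩ := le (h'.ME hm')
  obtain ⟨r0, r1, r2, r3, r4⟩ := hs
  ext <;> simp [cm_b, cm_a, cm_d, cm_c, cm_e, cm_f, cm_g, cm_h, cm_i, cm_j, *]

theorem jobXc : JobXc := fun cj o3 xa xb => by
  refine ⟨fun E M h hE => ?_, fun E M h hE => ?_⟩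
  · have hc : ∀ s ∈ E, ∀ m ∈ M, cm s m = 1 := fun s hs m hm => mem_bot.1 ((h.cen s).1 hs m hm)
    by_cases hM : M ≤ sD2
    · exact Or.inl (le_antisymm hE fun s hs => (h.cen s).2 fun m hm =>
        one_z 0 (cm_EZ hs (xa 0 (by omega) E M h hE hc hM hm)))
    obtain ⟨m, hm, h0⟩ := SetLike.not_le_iff_exists.1 hM
    exact Or.inr (toW cj o3 xb (by omega) h hE hc hm h0 (mem_bot.1 (h.pw m hm)))
  have z2 : sZ2 ≤ E := h.le.trans h.ME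
  have hc : ∀ s ∈ E, ∀ m ∈ M, cm s m = 1 := fun s hs m hm => by
    refine cm_eq_one.2 (h.gen_le (X := centralizer (E : Set Co)) (fun β hβ u hu _ s hs => ?_) hm s hs)
    obtain ⟨s', hs', rfl⟩ := hβ.1.sur s hs
    rw [← cm_eq_one, ← hβ.1.cm hs' (z2 hu), cm_EZ (hE hs') hu, hβ.1.one]
  obtain ⟨m, hm, h0, h3⟩ : ∃ m ∈ M, m ∉ sD2 ∧ m ^ 3 = 1 := by
    by_contra hn
    refine h.not_le (X := sZ2) (fun c hc s => cm_Z2 s hc)
      (xa 1 le_rfl E M h hE hc (h.gen_le fun β hβ u hu a => by_contra fun b => hn ⟨_, a, b, ?_⟩))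
    rw [← hβ.1.pow (z2 hu), cb_C4 (D2_le_C4 (V_le_D2 (Z2_le_V hu))), hβ.1.one]
  obtain ⟨t, ht⟩ := toW cj o3 xb le_rfl h hE hc hm h0 h3
  have h' := cj 1 E M t h
  rw [ht] at h'
  refine h'.no2 (B := sD2) (le_nor fun s hs c hc => V_le_W (Z2_le_V (cm_DE hs hc.1)))
    (fun x hx y hy m hm => one_z 1 (cm_EZ hx.1 (cm_DE hy (h'.ME hm).1))) (s := xg 1)
    ⟨rfl, rfl, rfl, rfl, rfl⟩ (by simp [mem_sW, xg]) (κ := ZMod 3)
    (fun k l => ⟨0, 0, 0, 0, 0, 0, k, l, 0, 0⟩) xi (fun _ _ => ⟨rfl, rfl, rfl, rfl, rfl⟩)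
    (fun k l k' l' hs => ?_) fun m hm => ⟨(cm (xg 1) m).i, ?_⟩
  · obtain ⟨-, -, -, a1, a2⟩ := hs
    simp at a1 a2
    exact ⟨by linear_combination -a1, by linear_combination -a2⟩
  · obtain ⟨q0, q1, q2, q3, q4, q5, q6, q7⟩ := cm_DE (s := xg 1) ⟨rfl, rfl, rfl, rfl, rfl⟩ (h'.ME hm).1
    show _ ∈ sZ1
    simp [mem_sZ1, xi, q0, q1, q2, q3, q4, q5, q6, q7]

end H92.T3X
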